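import Mathlib
import Cfsg.Agent.SF6.Kit

/-! A subgroup of index two of `N(W)` that does not contain `t`. -/

set_option autoImplicit false
set_option linter.unusedSectionVars false
set_option maxRecDepth 100000
set_option synthInstance.maxSize 100000
set_option synthInstance.maxHeartbeats 1000000

namespace Cfsg.Agent.SF6

open Cfsg Cfsg.Agent.Rec Cfsg.Agent.Spor Cfsg.Agent.Loc.Mss Subgroup
open scoped commutatorElement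

variable {G : Type*} [Group G] [Finite G]

namespace A3Aux

variable (s : Cfg G) {α : G}

theorem cm {β x y u v : G} (h : β * x * β⁻¹ = u) (h' : β * y * β⁻¹ = v) : β * (x * y) * β⁻¹ = u * v := by
  rw [← h, ← h', conj_mul]

theorem ch {β x u x' u' : G} (h : β * x * β⁻¹ = u) (h' : x = x' ∧ u = u') : β * x' * β⁻¹ = u' := h'.1 ▸ h'.2 ▸ h

theorem fixA (h : s.Kp α) {u : G} (hu : u ∈ s.A3) : α * u * α⁻¹ = u :=
  mul_inv_eq_iff_eq_mul.2 (commute_clos (by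
    simp only [List.mem_cons, List.not_mem_nil, or_false, forall_eq_or_imp, forall_eq]
    exact ⟨mul_inv_eq_iff_eq_mul.1 h.y, mul_inv_eq_iff_eq_mul.1 h.a, mul_inv_eq_iff_eq_mul.1 h.b⟩) u hu)

/-- The action on `V6`. -/
theorem actV (h : s.Kp α) {v : G} (hv : v ∈ s.V6) :
    ∃ u ∈ s.A3, α * v * α⁻¹ = v * u ∧ (u = 1 → v ∈ s.A3 ∨ s.x1 * v ∈ s.A3) := by
  have k1 : ∀ v ∈ s.V6, ∃ u ∈ s.A3, v = u ∨ v = u * s.x1 ∨ v = u * s.x2 ∨ v = u * s.x1 * s.x2 ∨ v = u * s.x3 ∨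
      v = u * s.x1 * s.x3 ∨ v = u * s.x2 * s.x3 ∨ v = u * s.x1 * s.x2 * s.x3 := s.hL.decide s.rep (by decide +kernel)
  have k2 : (s.y ∈ s.A3 ∧ s.a ∈ s.A3 ∧ s.y ≠ 1 ∧ s.a ≠ 1 ∧ s.y * s.a ≠ 1 ∧ s.y * s.x3 = s.x3 * s.y) ∧
      ∀ u ∈ s.A3, s.x1 * (u * s.x1) ∈ s.A3 := s.hL.decide s.rep (by decide +kernel)
  obtain ⟨⟨a1, a2, a3, a4, a5, a6⟩, a7⟩ := k2
  have e : ∀ x, x * (s.x2 * s.y) * (s.x3 * s.a) = x * s.x2 * s.x3 * (s.y * s.a) := fun x => by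
    simp only [mul_assoc]
    rw [← mul_assoc s.y, a6, mul_assoc]
  obtain ⟨u, hu, h1⟩ := k1 v hv
  have b0 := fixA s h hu
  have b1 := cm b0 h.x1
  rcases h1 with rfl | rfl | rfl | rfl | rfl | rfl | rfl | rfl
  · exact ⟨1, one_mem _, by rw [b0, mul_one], fun _ => Or.inl hu⟩
  · exact ⟨1, one_mem _, by rw [b1, mul_one], fun _ => Or.inr (a7 u hu)⟩
  · exact ⟨_, a1, (cm b0 h.x2).trans (mul_assoc _ _ _).symm, fun h => absurd h a3⟩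
  · exact ⟨_, a1, (cm b1 h.x2).trans (mul_assoc _ _ _).symm, fun h => absurd h a3⟩
  · exact ⟨_, a2, (cm b0 h.x3).trans (mul_assoc _ _ _).symm, fun h => absurd h a4⟩
  · exact ⟨_, a2, (cm b1 h.x3).trans (mul_assoc _ _ _).symm, fun h => absurd h a4⟩
  · exact ⟨_, mul_mem a1 a2, (cm (cm b0 h.x2) h.x3).trans (e _), fun h => absurd h a5⟩
  · exact ⟨_, mul_mem a1 a2, (cm (cm b1 h.x2) h.x3).trans (e _), fun h => absurd h a5⟩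

theorem conjV (h : s.Kp α) {v : G} (hv : v ∈ s.V6) : α * v * α⁻¹ ∈ s.V6 := by
  obtain ⟨u, hu, e, -⟩ := actV s h hv
  exact e ▸ mul_mem hv (s.les.2.2.2.1 hu)

theorem x1V : s.x1 ∈ s.V6 ∧ s.x1 ∉ s.A3 := s.hL.decide s.rep (by decide +kernel)

/-- The elements of `N(W)` acting trivially on `V6 / A3`. -/
abbrev Tr : Subgroup G := 𝐍[s.W] ⊓ cmod s.V6 s.A3

theorem mem_Tr (h : s.Kp α) : α ∈ Tr s := by
  have hV : s.V6 ≤ s.W := s.les.2.2.2.2.2.1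
  refine ⟨mem_norm_of_cj_le (cj_le_iff.2 fun w hw => ?_), mem_norm_of_cj_le (cj_le_iff.2 fun u hu => ?_), fun v hv => ?_⟩
  · rcases s.memW.1 hw with h1 | h1
    · exact hV (conjV s h h1)
    · have h2 := hV (conjV s h h1)
      rwa [← conj_mul, h.t, mul_mem_cancel_left (mul_mem s.tW (hV (x1V s).1))] at h2
  · rwa [fixA s h hu]
  · obtain ⟨u, hu, e, -⟩ := actV s h hv
    rw [show ⁅v, α⁆ = v * (α * v * α⁻¹)⁻¹ by rw [commutatorElement_def]; group, e,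
      s.W_comm (hV hv) (hV (s.les.2.2.2.1 hu)), mul_inv_rev, mul_inv_cancel_left]
    exact inv_mem hu

theorem conj_Tr {l g : G} (hl : l ∈ s.P3) (hg : g ∈ Tr s) : l * g * l⁻¹ ∈ Tr s :=
  conj_mem_of_norm (norm_inf (norm_norm s.P3_norm.2.1) (norm_cmod s.P3_norm.1 s.P3_norm.2.2) hl) hg

theorem inW {g : G} (hg : g ∈ Tr s) (ht : g * s.t * g⁻¹ = s.t) : g ∈ s.W := by
  have hV : s.V6 ≤ s.W := s.les.2.2.2.2.2.1
  obtain ⟨w, hw, l, hl, rfl⟩ := s.normW hg.1 (mul_inv_eq_iff_eq_mul.1 ht)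
  have h1 : w ∈ cmod s.V6 s.A3 := ⟨cent_le_norm _ fun u hu => s.W_comm (hV (s.les.2.2.2.1 hu)) hw, fun v hv => by
    rw [commutatorElement_eq_one_iff_mul_comm.2 (s.W_comm (hV hv) hw)]
    exact one_mem _⟩
  have h2 := ((mul_mem_cancel_left h1).1 (mem_inf.1 hg).2).2
  have k1 : (s.x1 ∈ s.V6 ∧ s.x2 ∈ s.V6 ∧ s.x3 ∈ s.V6) ∧ ∀ l ∈ s.L3, ⁅s.x1, l⁆ ∈ s.A3 → ⁅s.x2, l⁆ ∈ s.A3 →
      ⁅s.x3, l⁆ ∈ s.A3 → l = 1 := s.hL.decide s.rep (by decide +kernel)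
  rwa [k1.2 l hl (h2 _ k1.1.1) (h2 _ k1.1.2.1) (h2 _ k1.1.2.2), mul_one]

theorem tx1 (h : s.Kp α) : α * (s.t * s.x1) * α⁻¹ = s.t := ch (cm h.t h.x1) (s.hL.decide s.rep (by decide +kernel))

theorem split {w : G} (hw : w ∈ s.W) (h : w ∉ s.V6) : ∃ v ∈ s.V6, w = s.t * v :=
  ⟨_, (s.memW.1 hw).resolve_left h, by rw [← mul_assoc, s.tt, one_mul]⟩

theorem sq_mem (h : s.Kp α) : α * α ∈ s.V6 := by
  have h1 := inW s (mul_mem (mem_Tr s h) (mem_Tr s h)) (by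
    rw [show α * α * s.t * (α * α)⁻¹ = α * (α * s.t * α⁻¹) * α⁻¹ by group, h.t, tx1 s h])
  by_contra h2
  obtain ⟨v, hv, e⟩ := split s h1 h2
  obtain ⟨u, hu, e1, -⟩ := actV s h hv
  have e2 := cm h.t e1
  rw [← e, show α * (α * α) * α⁻¹ = α * α by group, e] at e2
  have k1 : ∀ v ∈ s.V6, ∀ u ∈ s.A3, s.t * v ≠ s.t * s.x1 * (v * u) := s.hL.decide s.rep (by decide +kernel)
  exact k1 v hv u hu e2

theorem comm_mem (h : s.Kp α) {l : G} (hl : l ∈ s.Sp) : l * α * l⁻¹ * α⁻¹ ∈ s.V6 := by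
  have k0 : ∀ l ∈ s.Sp, l ∈ s.P3 ∧ l⁻¹ * (s.t * s.x1) * l = s.t * s.x1 ∧ l * s.t * l⁻¹ = s.t :=
    s.hL.decide s.rep (by decide +kernel)
  obtain ⟨a1, a2, a3⟩ := k0 l hl
  have h1 := inW s (mul_mem (conj_Tr s a1 (mem_Tr s h)) (inv_mem (mem_Tr s h))) (by
    conv_lhs => rw [← tx1 s h]
    rw [show l * α * l⁻¹ * α⁻¹ * (α * (s.t * s.x1) * α⁻¹) * (l * α * l⁻¹ * α⁻¹)⁻¹ =
      l * (α * (l⁻¹ * (s.t * s.x1) * l) * α⁻¹) * l⁻¹ by group, a2, tx1 s h, a3])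
  by_contra h2
  obtain ⟨v, hv, e⟩ := split s h1 h2
  obtain ⟨u, hu, e1, -⟩ := actV s h hv
  obtain ⟨u', -, e2, h3⟩ := actV s h (sq_mem s h)
  have e3 : l * (α * α) * l⁻¹ = s.t * v * (s.t * s.x1 * (v * u)) * (α * α) := by
    rw [← cm h.t e1, ← e]
    group
  have k1 : ∀ l ∈ s.Sp, ∀ q ∈ s.V6, q ∈ s.A3 ∨ s.x1 * q ∈ s.A3 → l * q * l⁻¹ * q⁻¹ ∈ s.A3 :=
    s.hL.decide s.rep (by decide +kernel)
  have k2 : ∀ v ∈ s.V6, ∀ u ∈ s.A3, s.t * v * (s.t * s.x1 * (v * u)) ∉ s.A3 := s.hL.decide s.rep (by decide +kernel)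
  have h4 := k1 l hl _ (sq_mem s h) (h3 (mul_left_cancel (a := α * α) (by rw [← e2]; group)))
  rw [e3, mul_inv_cancel_right] at h4
  exact k2 v hv u hu h4

theorem borel (h : s.Kp α) {v k : G} (hv : v ∈ s.V6) (hk : k ∈ s.Sp) : α * (v * k) * α⁻¹ ∈ s.P3 := by
  have hV : s.V6 ≤ s.P3 := s.les.1.trans s.les.2.1
  rw [show α * (v * k) * α⁻¹ = α * v * α⁻¹ * (k * α * k⁻¹ * α⁻¹)⁻¹ * k by group]
  exact mul_mem (mul_mem (hV (conjV s h hv)) (inv_mem (hV (comm_mem s h hk))))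
    (s.les.2.2.1 (s.les.2.2.2.2.2.2.2.2.2.1 hk))

omit s in
theorem comm_le_of_half {N N0 : Subgroup G} {t : G} (ht : t ∈ N) (h0 : t ∉ N0) (h2 : ∀ g ∈ N, t * g ∈ N0 ∨ g ∈ N0) :
    ⁅N, N⁆ ≤ N0 := by
  have hi : (N0.subgroupOf N).index = 2 := index_eq_two_iff'.2 ⟨⟨t, ht⟩, fun g => by
    simp only [mem_subgroupOf, coe_mul]
    rcases h2 g g.2 with h3 | h3
    · exact Or.inl ⟨h3, fun h4 => h0 ((mul_mem_cancel_right h4).1 h3)⟩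
    · exact Or.inr ⟨h3, fun h4 => h0 ((mul_mem_cancel_right h3).1 h4)⟩⟩
  refine commutator_le.2 fun a ha b hb => ?_
  have : (⟨a, ha⟩ : N) * ⟨b, hb⟩ * (⟨a, ha⟩ : N)⁻¹ * (⟨b, hb⟩ : N)⁻¹ ∈ N0.subgroupOf N := by
    simp only [mul_mem_iff_of_index_two hi, inv_mem_iff]
    tauto
  exact this

omit s in
theorem exists_dbl {P : Subgroup G} (hq : α * α ∈ P)
    (key : ∀ p ∈ P, α * p * α ∈ P ∨ ∃ p1 ∈ P, ∃ p2 ∈ P, α * p * α = p1 * α * p2) :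
    ∃ N0 : Subgroup G, ∀ g, g ∈ N0 ↔ g ∈ P ∨ ∃ p1 ∈ P, ∃ p2 ∈ P, g = p1 * α * p2 :=
  ⟨{  carrier := {g | g ∈ P ∨ ∃ p1 ∈ P, ∃ p2 ∈ P, g = p1 * α * p2}
      one_mem' := Or.inl (one_mem _)
      mul_mem' := by
        rintro _ _ (ha | ⟨p1, h1, p2, h2, rfl⟩) (hb | ⟨q1, h3, q2, h4, rfl⟩)
        · exact Or.inl (mul_mem ha hb)
        · exact Or.inr ⟨_, mul_mem ha h3, q2, h4, by group⟩
        · exact Or.inr ⟨p1, h1, _, mul_mem h2 hb, by group⟩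
        · rcases key _ (mul_mem h2 h3) with h5 | ⟨r1, h5, r2, h6, e⟩
          · exact Or.inl (by simpa only [mul_assoc] using mul_mem (mul_mem h1 h5) h4)
          · exact Or.inr ⟨_, mul_mem h1 h5, _, mul_mem h6 h4, calc
              _ = p1 * (α * (p2 * q1) * α) * q2 := by group
              _ = _ := by rw [e]; group⟩
      inv_mem' := by
        rintro _ (ha | ⟨p1, h1, p2, h2, rfl⟩)
        · exact Or.inl (inv_mem ha)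
        · exact Or.inr ⟨_, mul_mem (inv_mem h2) (inv_mem hq), _, inv_mem h1, by group⟩ }, fun _ => Iff.rfl⟩

theorem main (h : s.Kp α) (hD : ∀ w ∈ s.W, w ∈ s.D → w = s.t ∨ ∃ p ∈ s.Pts, w = s.t * p)
    (hρ : α * (s.r * s.n * s.r * α * (s.r * s.n * s.r)⁻¹) * (s.n * α * s.n⁻¹) ∈ s.V6) : s.t ∉ ⁅𝐍[s.W], 𝐍[s.W]⁆ := by
  have hV : s.V6 ≤ s.P3 := s.les.1.trans s.les.2.1
  have hL : s.L3 ≤ s.P3 := s.les.2.2.1
  have hq := hV (sq_mem s h)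
  have k0 : (s.r * s.n * s.r ∈ s.L3 ∧ s.n ∈ s.L3) ∧ ∀ l ∈ s.L3, l ∈ s.Sp ∨ ∃ k ∈ s.Sp, ∃ k' ∈ s.Sp,
      l = k * (s.r * s.n * s.r) * k' := s.hL.decide s.rep (by decide +kernel)
  obtain ⟨⟨a1, a2⟩, a3⟩ := k0
  generalize s.r * s.n * s.r = σ at hρ a1 a3
  have key : ∀ p ∈ s.P3, α * p * α ∈ s.P3 ∨ ∃ p1 ∈ s.P3, ∃ p2 ∈ s.P3, α * p * α = p1 * α * p2 := fun p hp => by
    obtain ⟨v, hv, l, hl, rfl⟩ := s.P3_eq hp
    rcases a3 l hl with h1 | ⟨k, hk, k', hk', rfl⟩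
    · exact Or.inl (by simpa [mul_assoc] using mul_mem (borel s h hv h1) hq)
    · exact Or.inr ⟨_, mul_mem (borel s h hv hk) (mul_mem (mul_mem (hV hρ) (hL a2)) (inv_mem hq)), _,
        mul_mem (mul_mem (inv_mem (hL a2)) (hL a1))
          (mul_mem (mul_mem (inv_mem hq) (borel s h (one_mem _) hk')) hq), by group⟩
  obtain ⟨N0, hN⟩ := exists_dbl hq key
  have hP : s.P3 ≤ N0 := fun g hg => (hN g).2 (Or.inl hg)
  have hα : α ∈ N0 := (hN α).2 (Or.inr ⟨1, one_mem _, 1, one_mem _, by simp⟩)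
  have ht : s.t ∉ N0 := by
    rw [hN]
    rintro (h1 | ⟨p1, h1, p2, h2, e⟩)
    · exact s.tL (s.P3_le h1)
    have c1 : Commute α s.t := by
      rw [show α = p1⁻¹ * (p1 * α * p2) * p2⁻¹ by group, ← e]
      exact ((show Commute _ _ from s.t_comm (s.P3_le (inv_mem h1))).mul_left (Commute.refl _)).mul_left
        (s.t_comm (s.P3_le (inv_mem h2)))
    have e1 := h.t
    rw [c1.eq, mul_inv_cancel_right, left_eq_mul] at e1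
    exact (x1V s).2 (e1 ▸ one_mem _)
  have tt : ∀ w, s.t * (s.t * w) = w := fun w => by rw [← mul_assoc, s.tt, one_mul]
  have hc : ∀ g ∈ 𝐍[s.W], g * s.t * g⁻¹ = s.t → g ∈ s.P3 ∨ s.t * g ∈ s.P3 := fun g hg e => by
    obtain ⟨w, hw, l, hl, rfl⟩ := s.normW hg (mul_inv_eq_iff_eq_mul.1 e)
    exact (s.memW.1 hw).imp (fun h1 => mul_mem (hV h1) (hL hl)) fun h1 => mul_assoc s.t w l ▸ mul_mem (hV h1) (hL hl)
  have h2 : ∀ g ∈ 𝐍[s.W], s.t * g ∈ N0 ∨ g ∈ N0 := fun g hg => by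
    rcases hD _ (conj_mem_of_norm hg s.tW) (s.D_conj s.tD g) with e | ⟨p, hp, e⟩
    · exact (hc g hg e).symm.imp (fun h => hP h) fun h => hP h
    obtain ⟨-, l, hl, rfl⟩ := s.pt_eq hp
    have c1 := s.t_comm (s.P3_le (hL hl))
    have e1 : l * α * s.t * (l * α)⁻¹ = s.t * (l * s.x1 * l⁻¹) :=
      calc _ = l * (α * s.t * α⁻¹) * l⁻¹ := by group
        _ = _ := by rw [h.t, ← mul_assoc, c1]; group
    have hm := mul_mem (hP (hL hl)) hα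
    rcases hc _ (mul_mem (inv_mem (mul_mem (s.P3_norm.2.1 (hL hl)) (mem_Tr s h).1)) hg) (calc
      _ = (l * α)⁻¹ * (g * s.t * g⁻¹) * (l * α) := by group
      _ = _ := by rw [e, ← e1]; group) with h1 | h1
    · exact Or.inr ((mul_mem_cancel_left (inv_mem hm)).1 (hP h1))
    · have h3 := mul_mem hm (hP h1)
      rw [show l * α * (s.t * ((l * α)⁻¹ * g)) = l * α * s.t * (l * α)⁻¹ * g by group, e1,
        ← s.t_comm (s.P3_le (mul_mem (mul_mem (hL hl) (hV (x1V s).1)) (inv_mem (hL hl)))), mul_assoc] at h3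
      exact Or.inl ((mul_mem_cancel_left (hP (mul_mem (mul_mem (hL hl) (hV (x1V s).1)) (inv_mem (hL hl))))).1 h3)
  exact fun h3 => ht (comm_le_of_half (le_normalizer s.tW) ht h2 h3)

end A3Aux

namespace Cfg

open A3Aux

variable (s : Cfg G)

theorem kp_comm {α : G} (h : s.Kp α) (hD : ∀ w ∈ s.W, w ∈ s.D → w = s.t ∨ ∃ p ∈ s.Pts, w = s.t * p) :
    s.t ∉ ⁅𝐍[s.W], 𝐍[s.W]⁆ := by
  have k0 : (s.r * s.n * s.r ∈ s.P3 ∧ s.n ∈ s.P3) ∧ s.n⁻¹ * s.t * s.n = s.t ∧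
      (s.r * s.n * s.r)⁻¹ * (s.n * (s.t * s.x1) * s.n⁻¹) * (s.r * s.n * s.r) = s.t * s.x1 * s.x2 * s.y ∧
      s.r * s.n * s.r * (s.t * (s.x2 * s.y) * s.y) * (s.r * s.n * s.r)⁻¹ = s.t * s.x1 ∧
      (s.r * s.n * s.r)⁻¹ * s.t * (s.r * s.n * s.r) = s.t ∧ s.r * s.n * s.r * s.t * (s.r * s.n * s.r)⁻¹ = s.t ∧ s.n * s.t * s.n⁻¹ = s.t ∧
      s.r * s.n * s.r * (s.t * s.x1) * (s.r * s.n * s.r)⁻¹ = s.t * s.x2 ∧
      ∀ v ∈ s.V6, s.t * (s.t * s.x1) * (s.t * s.x1 * (s.x2 * s.y)) * (s.t * v) ∈ s.V6 :=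
    s.hL.decide s.rep (by decide +kernel)
  obtain ⟨⟨a1, a2⟩, a3, a4, a5, a6, a6', a7, a8, a9⟩ := k0
  have hT := mem_Tr s h
  by_cases h1 : α * (s.r * s.n * s.r * α * (s.r * s.n * s.r)⁻¹) * (s.n * α * s.n⁻¹) ∈ s.V6
  · exact main s h hD h1
  have k1 : ∀ {x u : G}, α * x * α⁻¹ = u → s.t * u * s.t⁻¹ = u → s.t * α * x * (s.t * α)⁻¹ = u := fun e1 e2 => by
    rw [← e2, ← e1]
    group
  refine main s (α := s.t * α) ⟨k1 h.t ?_, k1 h.x1 ?_, k1 h.x2 ?_, k1 h.x3 ?_, k1 h.y ?_, k1 h.a ?_, k1 h.b ?_⟩ hD ?_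
  iterate 7 exact s.hL.decide s.rep (by decide +kernel)
  generalize s.r * s.n * s.r = σ at a1 a4 a5 a6 a6' a8 h1
  obtain ⟨v, hv, e⟩ := split s (inW s (mul_mem (mul_mem hT (conj_Tr s a1 hT)) (conj_Tr s a2 hT)) (calc
    _ = α * (σ * (α * (σ⁻¹ * (s.n * (α * (s.n⁻¹ * s.t * s.n) * α⁻¹) * s.n⁻¹) * σ) * α⁻¹) * σ⁻¹) * α⁻¹ := by group
    _ = _ := by rw [a3, h.t, a4, cm (cm (tx1 s h) h.x2) h.y, a5, tx1 s h])) h1
  have e1 : s.t * α * (σ * (s.t * α) * σ⁻¹) * (s.n * (s.t * α) * s.n⁻¹) =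
      s.t * (α * (σ * s.t * σ⁻¹) * α⁻¹) * (α * (σ * (α * (σ⁻¹ * (s.n * s.t * s.n⁻¹) * σ) * α⁻¹) * σ⁻¹) * α⁻¹) *
        (α * (σ * α * σ⁻¹) * (s.n * α * s.n⁻¹)) := by group
  rw [e1, e, a7, a6, a6', h.t, a8, cm h.t h.x2]
  exact a9 v hv

end Cfg

end Cfsg.Agent.SF6
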