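import Mathlib
import Cfsg.Agent.SF6.Phi
import Cfsg.Agent.SF6.End

/-! The two configurations in which the group `B` is canonical. -/

set_option autoImplicit false
set_option linter.unusedSectionVars false
set_option maxRecDepth 100000
set_option synthInstance.maxSize 100000
set_option synthInstance.maxHeartbeats 1000000

namespace Cfsg.Agent.SF6

open Cfsg Cfsg.Agent.Rec Cfsg.Agent.Spor Cfsg.Agent.Loc.Mss Subgroup
open scoped commutatorElement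

variable {G : Type*} [Group G] [Finite G]

namespace Cfg

variable (s : Cfg G)

theorem pb_fus {A B : Subgroup G} (hB : s.Big A B) (hD : ∀ v ∈ s.V6, s.t * v ∈ s.D → v ∈ A) {g : G}
    (he : s.t * (g * s.t * g⁻¹) ∈ B) : ∃ c ∈ B, g * s.t * g⁻¹ = c * s.t * c⁻¹ := by
  have h1 := s.D_conj s.tD g
  have h2 : s.t * (s.t * (g * s.t * g⁻¹)) = g * s.t * g⁻¹ := by rw [← mul_assoc, s.tt, one_mul]
  have h3 := s.D_sq h1
  rw [← h2] at h1 h3 ⊢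
  generalize s.t * (g * s.t * g⁻¹) = e at he h1 h3
  have h4 : e ∈ s.V6 := (s.big_cent hB he).1 (by
    rw [eq_inv_of_mul_eq_one_left h3, mul_inv_rev, inv_eq_of_mul_eq_one_left (hB.sq e he),
      inv_eq_of_mul_eq_one_left s.tt])
  obtain ⟨c, hc, h5⟩ := hB.onto e (hD e h4 h1)
  exact ⟨c, hc, h5.2.symm⟩

theorem pb_can {A B : Subgroup G} (hB : s.Big A B) (hA : s.A3 ≤ A)
    (h : ∀ B' : Subgroup G, (∀ e ∈ B', e * e = 1) → Nat.card B' = Nat.card B → s.W ≤ 𝐍[B'] → (∀ e ∈ B', e ∉ s.D) →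
      B' ≤ B) : ∀ g, cj(g, s.W) ≤ 𝐍[B] → g ∈ 𝐍[B] := fun g hg => by
  refine (inv_mem_iff (H := 𝐍[B])).1 (mem_norm_of_cj_le (h _ ?_ (card_cj _ _) ?_ ?_))
  · rintro _ ⟨e, he, rfl⟩
    rw [← map_mul, hB.sq e he, map_one]
  · rw [← cj_norm]
    exact cj_le_iff_le_inv.1 hg
  · rintro _ ⟨e, he, rfl⟩
    exact s.big_nD hB hA he _

theorem pb_false (hp : s.t ∈ commutator G) {A B : Subgroup G} (hB : s.Big A B) (hA' : A ≤ s.V6)
    (hD : ∀ v ∈ s.V6, s.t * v ∈ s.D → v ∈ A) (h : ∀ g, cj(g, s.W) ≤ 𝐍[B] → g ∈ 𝐍[B]) : False :=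
  s.fin hp (C := B) (s.big_T hB hA') hB.norm le_normalizer le_rfl (fun c hc => (s.big_cent hB hc).1) hB.le
    (fun _ _ he => s.pb_fus hB hD he) h

theorem pb_end {A B B' M : Subgroup G} (hB : s.Big A B) (h2 : ∀ e ∈ B', e * e = 1) (hA : M ≤ A) (hA' : A ≤ s.V6)
    (hM : ∀ g, g ∈ M ↔ ∃ e ∈ B', g = e * s.t * e⁻¹ * s.t) (hc : ∀ e ∈ B', ∀ u ∈ s.V6, e * u = u * e)
    (ht : ¬ B' ≤ centralizer {s.t}) : B' ≤ B := fun e he => by
  have h1 := hA ((hM _).2 ⟨e, he, rfl⟩)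
  have h3 : e ∈ s.Φ (e * s.t * e⁻¹ * s.t) := ⟨fun u hu => hc e he u hu, by
    rw [← s.t_comm (s.V6_le (hA' h1)), mul_assoc _ s.t s.t, s.tt, mul_one]⟩
  by_cases h0 : e * s.t * e⁻¹ * s.t = 1
  · rw [h0] at h3
    refine hB.le ((s.memW.1 (s.Φ_one.1 h3)).resolve_right fun h4 => ht fun e' he' => ?_)
    have h5 := hc e' he' _ h4
    rw [mul_assoc, ← comm_of_sq2 h2 he' he, ← mul_assoc, ← mul_assoc, mul_right_cancel_iff] at h5
    exact mem_centralizer_singleton_iff.2 h5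
  · exact hB.max _ h1 h0 e h3 (h2 e he)

theorem B_D {B : Subgroup G} (hB : s.Big s.A3 B) (hx : s.t * s.x1 ∉ s.D) :
    ∀ v ∈ s.V6, s.t * v ∈ s.D → v ∈ s.A3 := fun v hv hd => by
  obtain ⟨-, -, l3, l4, -, l6, -⟩ := s.les
  refine (s.V6_eq hv).resolve_right ?_
  rintro ⟨p, hp, u, hu, rfl⟩
  obtain ⟨p1, l, hl, rfl⟩ := s.pt_eq hp
  obtain ⟨e, -, he⟩ := hB.onto u hu
  have h1 := s.D_conj hd e
  rw [show e * (s.t * (l * s.x1 * l⁻¹ * u)) * e⁻¹ = e * s.t * e⁻¹ * (e * (l * s.x1 * l⁻¹ * u) * e⁻¹) by group, he.2,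
    he.1 _ hv, mul_inv_cancel_right, s.W_comm (l6 p1) (l6 (l4 hu)), mul_assoc, ← mul_assoc u, s.W_sq (l6 (l4 hu)),
    one_mul] at h1
  have h2 := s.D_L (inv_mem (s.L3_le hl)) h1
  exact hx (by simpa [mul_assoc] using h2)

theorem B_uniq {B : Subgroup G} (hB : s.Big s.A3 B) (hx : s.t * s.x1 ∉ s.D) (B' : Subgroup G)
    (h2 : ∀ e ∈ B', e * e = 1) (hc : Nat.card B' = Nat.card B) (hn : s.W ≤ 𝐍[B']) (hd : ∀ e ∈ B', e ∉ s.D) :
    B' ≤ B := by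
  have k1 : ∀ l ∈ s.L3, (∀ v ∈ s.V6, v * (l * v⁻¹ * l⁻¹) ∈ s.A3) → l = 1 := s.hL.decide s.rep (by decide +kernel)
  have k2 : ∀ l ∈ s.L3, (∀ v ∈ s.A3, l * v * l⁻¹ = v) → l = 1 := s.hL.decide s.rep (by decide +kernel)
  obtain ⟨-, -, l3, l4, -, l6, -⟩ := s.les
  have hD := s.B_D hB hx
  have hW : ∀ m g, m ∈ s.W → m = g * s.t * g⁻¹ * s.t → m ∈ s.A3 := fun m g hm e => by
    have h1 : s.t * m = g * s.t * g⁻¹ := by rw [s.W_comm s.tW hm, e, mul_assoc _ s.t, s.tt, mul_one]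
    rcases s.memW.1 hm with h | h
    · exact hD m h (h1 ▸ s.D_conj s.tD g)
    · exact absurd (by simpa using h1 ▸ s.D_conj s.tD g) (s.big_nD hB le_rfl (hB.le h) 1)
  have act : ∀ {w l u}, w ∈ s.W → l ∈ s.L3 → u ∈ s.V6 → w * l * u * (w * l)⁻¹ = l * u * l⁻¹ := fun {w l u} hw hl hu => by
    rw [show w * l * u * (w * l)⁻¹ = w * (l * u * l⁻¹) * w⁻¹ by group,
      s.W_comm hw (l6 (conj_mem_of_norm (s.P3_norm.1 (l3 hl)) hu)), mul_inv_cancel_right]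
  obtain ⟨M, m1, m2, m3⟩ := invol_act h2 s.tt (hn s.tW)
  obtain ⟨c1, c2, c3⟩ := s.cent_norm h2 hn s.tD s.tW fun h => hd _ h s.tD
  have mW : ∀ m ∈ M, m ∈ s.W → m ∈ s.A3 := fun m hm hw => by
    obtain ⟨e, -, he⟩ := (m2 m).1 hm
    exact hW m e hw he
  have mA : M ≤ s.A3 := fun g hg => by
    obtain ⟨w, hw, l, hl, rfl⟩ := s.normW (c1 (m1 hg)) (mem_centralizer_singleton_iff.1 (m1 hg).2)
    obtain rfl : l = 1 := k1 l hl fun v hv => by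
      obtain ⟨e, he, e1⟩ := (m2 _).1 hg
      have h3 : v * (w * l) * v⁻¹ ∈ M := (m2 _).2 ⟨_, conj_mem_of_norm (hn (l6 hv)) he, by
        have h4 := s.t_comm (s.V6_le hv)
        rw [e1, show v * e * v⁻¹ * s.t * (v * e * v⁻¹)⁻¹ * s.t = v * e * (v⁻¹ * (s.t * v)) * e⁻¹ * (v⁻¹ * (s.t * v)) * v⁻¹ by
          group, ← h4]
        group⟩
      have h5 := mul_mem h3 (inv_mem hg)
      rw [mul_assoc, mul_assoc, ← mul_assoc (w * l), act hw hl (inv_mem hv)] at h5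
      exact mW _ h5 (l6 (mul_mem hv (conj_mem_of_norm (s.P3_norm.1 (l3 hl)) (inv_mem hv))))
    exact mW _ hg (by simpa using hw)
  have m4 := card_le_of_le mA
  rw [hc, hB.card, s.gA3.2] at m3
  rw [s.gA3.2] at m4
  have c4 : Nat.card (B' ⊓ centralizer {s.t} : Subgroup G) = 64 := by nlinarith
  have m5 : M = s.A3 := eq_of_le_of_card_ge mA (by rw [s.gA3.2]; rw [c4] at m3; omega)
  obtain ⟨W', w1, w2, w3⟩ := adjoin (c3 c4) (fun _ => s.W_sq) s.tW fun h => hd _ h.1 s.tD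
  obtain rfl : W' = s.W := eq_of_le_of_card_ge w1 (by rw [w2, c4, s.gW.2])
  refine s.pb_end hB h2 mA l4 m2 (fun e he u hu => ?_) fun h => ?_
  · have h3 : e * s.t * e⁻¹ * s.t ∈ s.A3 := mA ((m2 _).2 ⟨e, he, rfl⟩)
    have h4 : e * s.t * e⁻¹ = s.t * (e * s.t * e⁻¹ * s.t) := by
      rw [s.W_comm s.tW (l6 (l4 h3)), mul_assoc _ s.t s.t, s.tt, mul_one]
    have h5 : ∀ g ∈ B' ⊓ centralizer {s.t}, e * g * e⁻¹ = g := fun g hg => by
      rw [comm_of_sq2 h2 he hg.1, mul_inv_cancel_right]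
    have h6 : e ∈ 𝐍[s.W] := mem_norm_of_cj_le (cj_le_iff.2 fun g hg => by
      rcases (w3 g).1 hg with h | h
      · rwa [h5 g h]
      · have h7 := mul_mem (h4 ▸ mul_mem s.tW (l6 (l4 h3)) : e * s.t * e⁻¹ ∈ s.W) ((h5 _ h).symm ▸ c3 c4 h)
        rwa [show e * s.t * e⁻¹ * (e * (s.t * g) * e⁻¹) = e * (s.t * s.t) * g * e⁻¹ by group, s.tt, mul_one] at h7)
    obtain ⟨b, -, hb⟩ := hB.onto _ h3
    obtain ⟨w, hw, l, hl, e1⟩ := s.normW (mul_mem (inv_mem (s.Φ_E hb (l4 h3)).2) h6) (by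
      rw [← mul_inv_eq_iff_eq_mul, mul_inv_rev, inv_inv, show b⁻¹ * e * s.t * (e⁻¹ * b) = b⁻¹ * (e * s.t * e⁻¹) * b by group,
        h4, ← hb.2]
      group)
    have h8 : ∀ u ∈ s.V6, e * u * e⁻¹ = l * u * l⁻¹ := fun u hu => by
      rw [show e * u * e⁻¹ = b * (b⁻¹ * e * u * (b⁻¹ * e)⁻¹) * b⁻¹ by group, e1, act hw hl hu,
        hb.1 _ (conj_mem_of_norm (s.P3_norm.1 (l3 hl)) hu), mul_inv_cancel_right]
    obtain rfl : l = 1 := k2 l hl fun v hv => (h8 v (l4 hv)).symm.trans (h5 v (m1 (m5 ▸ hv)))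
    exact mul_inv_eq_iff_eq_mul.1 (by simpa using h8 u hu)
  · rw [inf_eq_left.2 h, hc, hB.card, s.gA3.2] at c4
    omega

theorem noB (hp : s.t ∈ commutator G) {B : Subgroup G} (hB : s.Big s.A3 B) (hx : s.t * s.x1 ∉ s.D) : False :=
  s.pb_false hp hB s.les.2.2.2.1 (s.B_D hB hx) (s.pb_can hB le_rfl (s.B_uniq hB hx))

theorem V_uniq {B : Subgroup G} (hB : s.Big s.V6 B) (B' : Subgroup G)
    (h2 : ∀ e ∈ B', e * e = 1) (hc : Nat.card B' = Nat.card B) (hn : s.W ≤ 𝐍[B']) (hd : ∀ e ∈ B', e ∉ s.D) :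
    B' ≤ B := by
  obtain ⟨M, m1, m2, m3⟩ := invol_act h2 s.tt (hn s.tW)
  obtain ⟨-, c2, c3⟩ := s.cent_norm h2 hn s.tD s.tW fun h => hd _ h s.tD
  have m4 := card_le_of_le m1
  rw [hc, hB.card, s.gV6.2] at m3
  have c4 : Nat.card (B' ⊓ centralizer {s.t} : Subgroup G) = 64 := by nlinarith
  have c5 : B' ⊓ centralizer {s.t} ≤ s.V6 := fun g hg => (s.memW.1 (c3 c4 hg)).resolve_right fun h => by
    obtain ⟨e, -, he⟩ := hB.onto _ h
    have := s.Φ_D he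
    rw [← mul_assoc, s.tt, one_mul] at this
    exact hd g hg.1 this
  have c6 := eq_of_le_of_card_ge c5 (by rw [c4, s.gV6.2])
  refine s.pb_end hB h2 (m1.trans c5) le_rfl m2 (fun e he u hu => comm_of_sq2 h2 he (c6.ge hu).1) fun h => ?_
  rw [inf_eq_left.2 h, hc, hB.card, s.gV6.2] at c4
  omega

theorem noTwelve (hp : s.t ∈ commutator G) {B : Subgroup G} (hB : s.Big s.V6 B) : False :=
  s.pb_false hp hB le_rfl (fun _ h _ => h) (s.pb_can hB s.les.2.2.2.1 (s.V_uniq hB))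

end Cfg

end Cfsg.Agent.SF6
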