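import Mathlib
import Cfsg.Agent.SF6.Phi

set_option autoImplicit false
set_option linter.unusedSectionVars false
set_option maxRecDepth 100000
set_option synthInstance.maxSize 100000
set_option synthInstance.maxHeartbeats 1000000

namespace Cfsg.Agent.SF6

open Cfsg Cfsg.Agent.Rec Cfsg.Agent.Spor Cfsg.Agent.Loc.Mss Subgroup
open scoped commutatorElement

variable {G : Type*} [Group G] [Finite G]

namespace Cfg

variable (s : Cfg G)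

namespace Gam

/-- The last step: no element acts on `t, a, b` in this way. -/
theorem fin {H ξ z : G} (h1 : H * s.t * H⁻¹ * s.x3 = s.x3 * (H * s.t * H⁻¹))
    (h2 : H * s.a * H⁻¹ = ξ * s.d) (hξ : s.x3 * ξ = ξ * s.x3) (hz : z ∈ s.Z3)
    (h3 : H * s.b * H⁻¹ = z * s.b) (h4 : ∀ u ∈ s.Z3, H * u = u * H) : False := by
  have k0 : s.x3 * s.d * s.x3⁻¹ = s.d * s.x2 * s.b ∧ (∀ u ∈ s.Z3, s.x3 * u = u * s.x3) ∧
      s.x1 ∈ s.Z3 ∧ s.x2 ∈ s.Z3 ∧ s.y ∈ s.Z3 ∧ (∀ u ∈ s.Z3, s.t * u = u * s.t) ∧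
      (∀ u ∈ s.Z3, s.t * (s.a * s.x2 * u⁻¹ * s.b) * s.t⁻¹ = s.a * s.x2 * u⁻¹ * s.b) ∧
      ∀ l ∈ s.P2, l * s.x1 = s.x1 * l → l * s.x2 = s.x2 * l →
        ∀ u ∈ s.Z3, l * s.a * l⁻¹ ≠ s.a * s.x2 * u⁻¹ * s.b :=
    s.hL.decide s.rep (by decide +kernel)
  obtain ⟨k1, k2, k3, k4, k5, k6, k7, k8⟩ := k0
  have h4' : ∀ u ∈ s.Z3, H⁻¹ * u * H = u := fun u hu => by
    rw [mul_assoc, ← h4 u hu]; group
  have gt : H⁻¹ * s.x3 * H * s.t = s.t * (H⁻¹ * s.x3 * H) := by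
    calc H⁻¹ * s.x3 * H * s.t = H⁻¹ * (s.x3 * (H * s.t * H⁻¹)) * H := by group
      _ = _ := by rw [← h1]; group
  have gz : ∀ u ∈ s.Z3, H⁻¹ * s.x3 * H * u = u * (H⁻¹ * s.x3 * H) := fun u hu => by
    calc H⁻¹ * s.x3 * H * u = H⁻¹ * (s.x3 * u) * H := by
          rw [mul_assoc _ H u, h4 u hu]; group
      _ = (H⁻¹ * u * H) * (H⁻¹ * s.x3 * H) := by rw [k2 u hu]; group
      _ = _ := by rw [h4' u hu]
  have hb : H⁻¹ * s.b * H = z⁻¹ * s.b := by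
    calc H⁻¹ * s.b * H = (H⁻¹ * z * H)⁻¹ * (H⁻¹ * (z * s.b) * H) := by group
      _ = _ := by rw [← h3, h4' z hz]; group
  have ga : H⁻¹ * s.x3 * H * s.a * (H⁻¹ * s.x3 * H)⁻¹ = s.a * s.x2 * z⁻¹ * s.b := by
    calc H⁻¹ * s.x3 * H * s.a * (H⁻¹ * s.x3 * H)⁻¹
        = H⁻¹ * (s.x3 * (H * s.a * H⁻¹) * s.x3⁻¹) * H := by group
      _ = H⁻¹ * (ξ * (s.x3 * s.d * s.x3⁻¹)) * H := by rw [h2, ← mul_assoc s.x3 ξ, hξ]; group
      _ = H⁻¹ * (ξ * s.d) * H * (H⁻¹ * s.x2 * H) * (H⁻¹ * s.b * H) := by rw [k1]; group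
      _ = _ := by rw [← h2, h4' _ k4, hb]; group
  generalize H⁻¹ * s.x3 * H = g at gt gz ga
  rcases s.cent g gt with hg | hg
  · exact k8 g (s.cent_y hg (gz _ k5)) (gz _ k3) (gz _ k4) z hz ga
  · have e : ∀ u ∈ s.Z3, s.t * g * u = u * (s.t * g) := fun u hu => by
      rw [mul_assoc, gz u hu, ← mul_assoc, k6 u hu, mul_assoc]
    refine k8 _ (s.cent_y hg (e _ k5)) (e _ k3) (e _ k4) z hz ?_
    rw [← k7 z hz, ← ga]; group

/-- The element `M` and its conjugate under `x3 w3 x3 r n r` give the last step. -/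
theorem step {k M z1 z2 : G} (hk : k ∈ s.Φ s.y) (k2 : k * k = s.y) (kc : ∀ g ∈ s.C2, k * g = g * k)
    (m1 : ∀ u ∈ s.V6, M * u = u * M) (m2 : M * k = k * M) (m3 : M⁻¹ * s.t * M = s.t * s.a)
    (hz1 : z1 ∈ s.Z3) (hz2 : z2 ∈ s.Z3) (m4 : M⁻¹ * s.c * M = z2 * s.c)
    (m5 : M⁻¹ * s.d * M = k * (z1 * s.a * s.d)) : False := by
  have k0 : ∀ N, N = s.x3 * s.w3 * s.x3 * s.r * s.n * s.r →
      (N * s.a * N⁻¹ = s.d ∧ N * s.d * N⁻¹ = s.a ∧ N * s.c * N⁻¹ = s.b ∧ N * s.y * N⁻¹ = s.y ∧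
      N * s.t * N⁻¹ = s.t ∧ (∀ u ∈ s.Z3, N * u * N⁻¹ ∈ s.Z3) ∧ (∀ u ∈ s.Z3, N⁻¹ * u * N ∈ s.Z3) ∧
      ∀ g ∈ s.C2, N⁻¹ * g * N ∈ s.C2) := by
    rintro N rfl
    exact s.hL.decide s.rep (by decide +kernel)
  have k1 : s.Z3 ≤ s.V6 ∧ s.V6 ≤ s.C2 ∧ s.a ∈ s.V6 ∧ s.b ∈ s.V6 ∧ s.y ∈ s.V6 ∧ s.y ≠ 1 ∧ s.d ∈ s.C2 ∧
      s.x3 ∈ s.C2 ∧ s.t * s.x3 = s.x3 * s.t ∧ s.a * s.x3 = s.x3 * s.a ∧
      (∀ u ∈ s.Z3, s.d * (u * s.d) = u ∧ u * s.x3 = s.x3 * u ∧ u * s.a * s.d * s.a = u * s.y * s.d) ∧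
      s.y * s.x3 = s.x3 * s.y :=
    s.hL.decide s.rep (by decide +kernel)
  obtain ⟨zV, VC, aV, bV, yV, y1, dC, xC, tx, ax, q1, yx⟩ := k1
  obtain ⟨n1, n2, n3, n4, n5, n6, n7, n8⟩ := k0 _ rfl
  generalize s.x3 * s.w3 * s.x3 * s.r * s.n * s.r = N at n1 n2 n3 n4 n5 n6 n7 n8
  -- the conjugate of `k`
  have kc' : ∀ g ∈ s.C2, N * k * N⁻¹ * g = g * (N * k * N⁻¹) := fun g hg => by
    calc N * k * N⁻¹ * g = N * (k * (N⁻¹ * g * N)) * N⁻¹ := by group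
      _ = _ := by rw [kc _ (n8 g hg)]; group
  have hk' : N * k * N⁻¹ ∈ s.Φ s.y := ⟨fun u hu => kc' u (VC hu), by
    calc N * k * N⁻¹ * s.t * (N * k * N⁻¹)⁻¹ = N * (k * (N⁻¹ * (N * s.t * N⁻¹) * N) * k⁻¹) * N⁻¹ := by
          rw [n5]; group
      _ = N * (k * s.t * k⁻¹) * N⁻¹ := by group
      _ = (N * s.t * N⁻¹) * (N * s.y * N⁻¹) := by rw [hk.2]; group
      _ = _ := by rw [n5, n4]⟩
  obtain ⟨u0, hu0, e0⟩ := s.Φ_same hk hk' yV y1 (by rw [conj_mul, k2, n4])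
  have mk' : M * (N * k * N⁻¹) = N * k * N⁻¹ * M := by
    rw [e0, ← mul_assoc, m2, mul_assoc, m1 u0 hu0, mul_assoc]
  -- the two automorphisms
  let φ : MulAut G := MulAut.conj M⁻¹
  let ν : MulAut G := MulAut.conj N
  have φa : ∀ g, φ g = M⁻¹ * g * M := fun g => by simp [φ]
  have νa : ∀ g, ν g = N * g * N⁻¹ := fun g => rfl
  have φc : ∀ g, M * g = g * M → φ g = g := fun g hg => by rw [φa, mul_assoc, ← hg]; group
  have φV : ∀ u ∈ s.V6, φ u = u := fun u hu => φc u (m1 u hu)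
  have φt : φ s.t = s.t * s.a := by rw [φa, m3]
  have φd : φ s.d = k * (z1 * s.a * s.d) := by rw [φa, m5]
  have φk : φ (ν k) = ν k := φc _ mk'
  let ψ : MulAut G := ν * φ * ν⁻¹
  have ψa : ∀ g, ψ (ν g) = ν (φ g) := fun g => by simp [ψ]
  have ψt : ψ s.t = s.t * s.d := by
    rw [← n5, ← νa, ψa, φt, map_mul, νa s.a, n1]
  have ψa' : ψ s.a = ν k * (ν z1 * s.d * s.a) := by
    conv_lhs => rw [← n2, ← νa, ψa, φd, map_mul, map_mul, map_mul, νa s.a, n1, νa s.d, n2]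
  have ψb : ψ s.b = ν z2 * s.b := by
    conv_lhs => rw [← n3, ← νa, ψa, φa, m4, map_mul, νa s.c, n3]
  have ψz : ∀ u ∈ s.Z3, ψ u = u := fun u hu => by
    have e : u = ν (N⁻¹ * u * N) := by rw [νa]; group
    conv_lhs => rw [e, ψa, φV _ (zV (n7 u hu)), ← e]
  have z1' : ν z1 ∈ s.Z3 := n6 z1 hz1
  have z2' : ν z2 ∈ s.Z3 := n6 z2 hz2
  have η : ∀ g, M⁻¹ * (N * M⁻¹ * N⁻¹) * M⁻¹ * g * (M⁻¹ * (N * M⁻¹ * N⁻¹) * M⁻¹)⁻¹ = φ (ψ (φ g)) := fun g => by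
    have e : φ g = ν (N⁻¹ * φ g * N) := by rw [νa]; group
    rw [e, ψa, νa, φa, φa, φa]; group
  have kx : ν k * s.x3 = s.x3 * ν k := kc' _ xC
  refine fin s (H := M⁻¹ * (N * M⁻¹ * N⁻¹) * M⁻¹) (ξ := ν k * ν z1 * k * (z1 * s.y)) (z := ν z2) ?_ ?_ ?_ z2' ?_ ?_
  · have e : ψ (φ s.t) = s.t * (ν k * ν z1 * s.a) := by
      rw [φt, map_mul, ψt, ψa']
      calc s.t * s.d * (ν k * (ν z1 * s.d * s.a)) = s.t * (s.d * ν k) * (ν z1 * s.d * s.a) := by group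
        _ = s.t * ν k * (s.d * (ν z1 * s.d)) * s.a := by
          rw [show s.d * ν k = ν k * s.d from (kc' _ dC).symm]; group
        _ = _ := by rw [(q1 _ z1').1]; group
    rw [η, e, map_mul, map_mul, map_mul, φt, φk, φV _ (zV z1'), φV _ aV]
    have c1 : Commute s.t s.x3 := tx
    have c2 : Commute s.a s.x3 := ax
    have c3 : Commute (ν k) s.x3 := kx
    have c4 : Commute (ν z1) s.x3 := (q1 _ z1').2.1
    exact ((c1.mul_left c2).mul_left ((c3.mul_left c4).mul_left c2)).eq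
  · rw [η, φV _ aV, ψa', map_mul, map_mul, map_mul, φk, φV _ (zV z1'), φV _ aV, φd]
    calc ν k * (ν z1 * (k * (z1 * s.a * s.d)) * s.a) = ν k * ν z1 * k * (z1 * s.a * s.d * s.a) := by group
      _ = _ := by rw [(q1 _ hz1).2.2]; group
  · have c1 : Commute k s.x3 := kc _ xC
    have c2 : Commute s.y s.x3 := yx
    have c3 : Commute (ν k) s.x3 := kx
    have c4 : Commute (ν z1) s.x3 := (q1 _ z1').2.1
    have c5 : Commute z1 s.x3 := (q1 _ hz1).2.1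
    exact (((c3.mul_left c4).mul_left c1).mul_left (c5.mul_left c2)).eq.symm
  · rw [η, φV _ bV, ψb, map_mul, φV _ (zV z2'), φV _ bV]
  · intro u hu
    rw [← mul_inv_eq_iff_eq_mul, η, φV _ (zV hu), ψz u hu, φV _ (zV hu)]

end Gam

theorem gam {f : G} (hf : s.Hat f) {e : G} (he : e ∈ s.Φ s.a) (h2 : e * e = 1) : f * e * (f * e) = 1 := by
  have k1 : s.V6 ≤ s.C2 ∧ s.a ∈ s.V6 ∧ s.y ∈ s.V6 ∧ s.y * s.a ∈ s.A3 ∧ s.y * s.a ≠ 1 ∧ s.a ≠ 1 ∧ s.y * s.y = 1 ∧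
      s.c ∈ s.P3 ∧ s.d ∈ s.P3 ∧ s.c ∈ s.C2 ∧ s.d ∈ s.C2 ∧ s.c * s.a * s.c⁻¹ = s.a ∧ s.d * s.a * s.d⁻¹ = s.y * s.a ∧
      s.c * s.c = 1 ∧ s.d * s.d = 1 ∧ s.c * s.d = s.d * s.c ∧ (∀ g ∈ s.C2, s.t * g = g * s.t) ∧
      s.a * s.a = 1 ∧ s.y * s.a ∈ s.V6 ∧
      ∀ u ∈ s.V6, u * s.c * (u * s.c) = 1 → ∀ v ∈ s.V6, v * s.d * (v * s.d) = s.y →
        u * s.c * (v * s.d) = v * s.d * (u * s.c) →
        ((∃ z ∈ s.Z3, u * s.c = z * s.c) ∧ ∃ z ∈ s.Z3, v * s.d = z * s.a * s.d) ∨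
        ((∃ z ∈ s.Z3, s.x3⁻¹ * (u * s.c) * s.x3 = z * s.c) ∧
          ∃ z ∈ s.Z3, s.x3⁻¹ * (v * s.d) * s.x3 = z * s.a * s.d) :=
    s.hL.decide s.rep (by decide +kernel)
  obtain ⟨VC, aV, yV, yaA, ya1, a1, yy, cP, dP, cC, dC, ca, da, cc, dd, cd, tC, aa, yaV, key⟩ := k1
  rcases s.Φ_sq (s.Φ_mul hf.mem he aV) (Or.inl ⟨yaA, ya1⟩) with h | h
  · exact h
  exfalso
  have hk : s.t * f ∈ s.Φ s.y := (s.Φ_W hf.mem yV s.tW).2
  have hP : s.t * e ∈ s.Φ s.a := (s.Φ_W he aV s.tW).2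
  have k2 : s.t * f * (s.t * f) = s.y := by rw [s.Φ_t_sq hf.mem yV, hf.sq, mul_one]
  have P2 : s.t * e * (s.t * e) = s.a := by rw [s.Φ_t_sq he aV, h2, mul_one]
  have kc : ∀ g ∈ s.C2, s.t * f * g = g * (s.t * f) := fun g hg => by
    rw [mul_assoc, hf.c2 g hg, ← mul_assoc, tC g hg, mul_assoc]
  have kP : s.t * f * (s.t * e) = s.y * (f * e) := by
    calc s.t * f * (s.t * e) = s.t * (f * s.t * f⁻¹) * (f * e) := by group
      _ = s.t * s.t * s.y * (f * e) := by rw [hf.mem.2]; group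
      _ = _ := by rw [s.tt, one_mul]
  have kP2 : s.t * f * (s.t * e) * (s.t * f * (s.t * e)) = s.y * s.a := by
    have e1 : f * e * s.y = s.y * (f * e) := (s.Φ_mul hf.mem he aV).1 _ yV
    calc s.t * f * (s.t * e) * (s.t * f * (s.t * e)) = s.y * (f * e * s.y) * (f * e) := by rw [kP]; group
      _ = s.y * s.y * (f * e * (f * e)) := by rw [e1]; group
      _ = _ := by rw [yy, h, one_mul]
  generalize s.t * f = k at hk k2 kc kP2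
  generalize s.t * e = P at hP P2 kP2
  have Pk : P * k = k * P := by
    have e1 : k * (P * k) * P = k * (k * P) * P := by
      calc k * (P * k) * P = k * P * (k * P) := by group
        _ = k * k * (P * P) := by rw [kP2, k2, P2]
        _ = _ := by group
    exact mul_left_cancel (mul_right_cancel e1)
  have hc := s.Φ_conj hP cP
  rw [ca] at hc
  obtain ⟨u, hu, eu⟩ := s.Φ_same hP hc aV a1 (by rw [conj_mul, P2, ca])
  have hd := s.Φ_conj hP dP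
  rw [da] at hd
  obtain ⟨v, hv, ev⟩ := s.Φ_same (s.Φ_mul hk hP aV) hd yaV ya1 (by rw [conj_mul, P2, da, kP2])
  have m4 : P⁻¹ * s.c * P = u * s.c := by
    calc P⁻¹ * s.c * P = P⁻¹ * (s.c * P * s.c⁻¹) * s.c := by group
      _ = _ := by rw [eu]; group
  have m5 : P⁻¹ * s.d * P = k * (v * s.d) := by
    calc P⁻¹ * s.d * P = P⁻¹ * (s.d * P * s.d⁻¹) * s.d := by group
      _ = _ := by rw [ev, ← Pk]; group
  have m3 : P⁻¹ * s.t * P = s.t * s.a := by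
    have e1 := (s.Φ_inv hP aV).2
    rwa [inv_inv] at e1
  have kv : k * (v * s.d) = v * s.d * k := kc _ (mul_mem (VC hv) dC)
  have ku : k * (u * s.c) = u * s.c * k := kc _ (mul_mem (VC hu) cC)
  have q1 : u * s.c * (u * s.c) = 1 := by
    calc u * s.c * (u * s.c) = P⁻¹ * (s.c * s.c) * P := by rw [← m4]; group
      _ = 1 := by rw [cc]; group
  have q2 : v * s.d * (v * s.d) = s.y := by
    have e1 : s.y * (v * s.d * (v * s.d)) = 1 := by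
      calc s.y * (v * s.d * (v * s.d)) = k * (k * (v * s.d)) * (v * s.d) := by rw [← k2]; group
        _ = k * (v * s.d) * (k * (v * s.d)) := by nth_rewrite 1 [kv]; group
        _ = P⁻¹ * (s.d * s.d) * P := by rw [← m5]; group
        _ = 1 := by rw [dd]; group
    exact mul_left_cancel (e1.trans yy.symm)
  have q3 : u * s.c * (v * s.d) = v * s.d * (u * s.c) := by
    have e1 : k * (u * s.c * (v * s.d)) = k * (v * s.d * (u * s.c)) := by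
      calc k * (u * s.c * (v * s.d)) = u * s.c * (k * (v * s.d)) := by rw [← mul_assoc, ku]; group
        _ = P⁻¹ * (s.c * s.d) * P := by rw [← m4, ← m5]; group
        _ = k * (v * s.d) * (u * s.c) := by rw [cd, ← m4, ← m5]; group
        _ = _ := by group
    exact mul_left_cancel e1
  rcases key u hu q1 v hv q2 q3 with ⟨⟨z2, hz2, e2⟩, z1, hz1, e1⟩ | ⟨⟨z2, hz2, e2⟩, z1, hz1, e1⟩
  · exact Gam.step s hk k2 kc hP.1 Pk m3 hz1 hz2 (m4.trans e2) (by rw [m5, e1])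
  · have x3V : s.x3 ∈ s.V6 := mem_clos (by simp)
    have VW := s.les.2.2.2.2.2.1
    have hM : P * s.x3 ∈ s.Φ s.a := (s.Φ_W hP aV (VW x3V)).1
    have kx : k * s.x3 = s.x3 * k := kc _ (VC x3V)
    refine Gam.step s (M := P * s.x3) hk k2 kc hM.1 ?_ ?_ hz1 hz2 ?_ ?_
    · rw [mul_assoc, ← kx, ← mul_assoc, Pk, mul_assoc]
    · have e3 := (s.Φ_inv hM aV).2
      rwa [inv_inv] at e3
    · rw [← e2, ← m4]; group
    · calc (P * s.x3)⁻¹ * s.d * (P * s.x3) = s.x3⁻¹ * (P⁻¹ * s.d * P) * s.x3 := by group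
        _ = s.x3⁻¹ * (k * s.x3) * (s.x3⁻¹ * (v * s.d) * s.x3) := by rw [m5]; group
        _ = _ := by rw [kx, e1]; group

end Cfg

end Cfsg.Agent.SF6
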