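import Mathlib
import Cfsg.Agent.SF6.Phi

set_option autoImplicit false
set_option linter.unusedSectionVars false
set_option maxRecDepth 100000
set_option synthInstance.maxSize 100000
set_option synthInstance.maxHeartbeats 1000000

namespace Cfsg.Agent.SF6

open Cfsg Cfsg.Agent.Rec Cfsg.Agent.Spor Cfsg.Agent.Loc.Mss Subgroup
open scoped commutatorElement

variable {G : Type*} [Group G] [Finite G]

omit [Finite G] in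
theorem hat_shift {l f u : G} (h : l * f * l⁻¹ = f * u) (v : G) :
    l * (f * v) * l⁻¹ = f * v * (v⁻¹ * u * (l * v * l⁻¹)) := by
  rw [← conj_mul, h]; group

omit [Finite G] in
theorem hat_flip {l f u : G} (h : l * f * l⁻¹ = f * u) (h2 : f * f = 1) : f * l * f⁻¹ = u * l := by
  have e : f⁻¹ = f := inv_eq_of_mul_eq_one_right h2
  calc f * l * f⁻¹ = f⁻¹ * (l * f * l⁻¹) * l := by rw [e]; group
    _ = _ := by rw [h]; group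

namespace Cfg

variable (s : Cfg G)

theorem hat_let : s.y ∈ s.V6 ∧ s.y ∈ s.A3 ∧ s.y ≠ 1 ∧ s.c ∈ s.P3 ∧ s.d ∈ s.P3 ∧ s.r ∈ s.P3 ∧ s.c * s.c = 1 ∧
    s.d * s.d = 1 ∧ s.r * s.r = 1 ∧ s.c * s.y * s.c⁻¹ = s.y ∧ s.d * s.y * s.d⁻¹ = s.y ∧ s.r * s.y * s.r⁻¹ = s.y ∧
    s.c * s.d = s.d * s.c ∧ s.x1 * s.r = s.r * s.x1 ∧ s.x3 * s.w3 * s.x3 ∈ s.P2 ∧ s.w3 ∈ s.P2 ∧ s.x1 ∈ s.V6 ∧
    s.x2 ∈ s.V6 ∧ s.a ∈ s.V6 ∧ s.b ∈ s.V6 ∧ s.x3 ∈ s.V6 ∧ s.w3 ∈ s.C2 ∧ s.c ∈ s.C2 ∧ s.d ∈ s.C2 ∧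
    s.x3 * s.w3 * s.x3 * s.y = s.y * (s.x3 * s.w3 * s.x3) :=
  s.hL.decide s.rep (by decide +kernel)

theorem hat_dA : ∀ u ∈ s.V6, u * (s.c * u * s.c⁻¹) = 1 → ∀ u' ∈ s.V6, u' * (s.d * u' * s.d⁻¹) = 1 →
    u * (s.c * u' * s.c⁻¹) = u' * (s.d * u * s.d⁻¹) →
    ∃ v ∈ s.V6, v⁻¹ * u * (s.c * v * s.c⁻¹) ∈ s.Z3 ∧ v⁻¹ * u' * (s.d * v * s.d⁻¹) ∈ s.Z3 :=
  s.hL.decide s.rep (by decide +kernel)

theorem hat_dB : ∀ z ∈ s.Z3, ((s.x3 * s.w3 * s.x3)⁻¹ * (z * s.c) * (s.x3 * s.w3 * s.x3) ∈ s.V6 ∧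
    (s.x3 * s.w3 * s.x3)⁻¹ * (z * s.d) * (s.x3 * s.w3 * s.x3) ∈ s.V6) ∧ ∀ g ∈ s.P2,
    (g * s.c * g⁻¹ = z * s.c → z = 1 ∨ z = s.y) ∧ (g * s.d * g⁻¹ = z * s.d → z = 1 ∨ z = s.y) :=
  s.hL.decide s.rep (by decide +kernel)

theorem hat_dC : ∀ z ∈ s.Z3, z = 1 ∨ z = s.y → ∀ z' ∈ s.Z3, z' = 1 ∨ z' = s.y →
    ∃ v ∈ s.V6, v⁻¹ * z * (s.c * v * s.c⁻¹) = 1 ∧ v⁻¹ * z' * (s.d * v * s.d⁻¹) = 1 :=
  s.hL.decide s.rep (by decide +kernel)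

theorem hat_dC' : ((s.x3 * s.w3 * s.x3)⁻¹ * s.c * (s.x3 * s.w3 * s.x3) ∈ s.V6 ∧
    (s.x3 * s.w3 * s.x3)⁻¹ * s.d * (s.x3 * s.w3 * s.x3) ∈ s.V6 ∧
    (s.x3 * s.w3 * s.x3)⁻¹ * s.x1 * (s.x3 * s.w3 * s.x3) ∈ s.V6 ∧
    (s.x3 * s.w3 * s.x3)⁻¹ * s.w3 * (s.x3 * s.w3 * s.x3) ∈ s.V6) ∧ ∀ g ∈ s.P2,
    g * s.c * g⁻¹ = s.c → g * s.d * g⁻¹ = s.d → g * s.x1 * g⁻¹ = s.x1 → g * s.w3 * g⁻¹ = s.w3 :=
  s.hL.decide s.rep (by decide +kernel)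

theorem hat_dD : (∀ g ∈ s.C2, s.r⁻¹ * g * s.r ∈ s.C2 ∧ ∀ v ∈ s.Z3, v * g = g * v) ∧ ∀ z ∈ s.V6, z * s.w3 = s.w3 * z →
    z * s.c = s.c * z → z * s.d = s.d * z → z * (s.r * z * s.r⁻¹) = 1 →
    ∃ v ∈ s.Z3, v⁻¹ * z * (s.r * v * s.r⁻¹) = 1 ∨ v⁻¹ * z * (s.r * v * s.r⁻¹) = s.x1 :=
  s.hL.decide s.rep (by decide +kernel)

theorem hat_conj {f l : G} (hf : f ∈ s.Φ s.y) (h2 : f * f = 1) (hl : l ∈ s.P3) (l2 : l * l = 1)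
    (ly : l * s.y * l⁻¹ = s.y) : ∃ u ∈ s.V6, l * f * l⁻¹ = f * u ∧ u * (l * u * l⁻¹) = 1 := by
  obtain ⟨u, hu, e⟩ := s.Φ_same hf (ly ▸ s.Φ_conj hf hl) s.hat_let.1 s.hat_let.2.2.1 (by rw [conj_mul, h2]; simp)
  refine ⟨u, hu, e, mul_left_cancel (a := f) ?_⟩
  rw [← mul_assoc, ← e, conj_mul, ← e]
  calc l * (l * f * l⁻¹) * l⁻¹ = l * l * f * (l * l)⁻¹ := by group
    _ = _ := by rw [l2]; simp

theorem hat_mul {f v : G} (hf : f ∈ s.Φ s.y) (h2 : f * f = 1) (hv : v ∈ s.V6) :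
    f * v ∈ s.Φ s.y ∧ f * v * (f * v) = 1 :=
  ⟨(s.Φ_W hf s.hat_let.1 (s.les.2.2.2.2.2.1 hv)).1, (s.Φ_V_sq hf hv).trans h2⟩

theorem hat_cmp {f : G} (hf : f ∈ s.Φ s.y) : ∃ g ∈ s.P2, ∀ u ∈ s.L, ∀ u',
    (s.x3 * s.w3 * s.x3)⁻¹ * u' * (s.x3 * s.w3 * s.x3) ∈ s.V6 → (f * u * f⁻¹ = u' ↔ g * u * g⁻¹ = u') := by
  obtain ⟨yV, -, -, -, -, -, -, -, -, -, -, -, -, -, nP, -, -, -, -, -, -, -, -, -, ny⟩ := s.hat_let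
  generalize s.x3 * s.w3 * s.x3 = n at nP ny ⊢
  have nt := s.t_comm (s.P2_le nP)
  have c1 : ∀ u, n⁻¹ * u * n ∈ s.V6 → n * f * n⁻¹ * u = u * (n * f * n⁻¹) := fun u hu => by
    calc n * f * n⁻¹ * u = n * (f * (n⁻¹ * u * n)) * n⁻¹ := by group
      _ = _ := by rw [hf.1 _ hu]; group
  have c2 : n * f * n⁻¹ * s.t * (n * f * n⁻¹)⁻¹ = s.t * s.y := by
    calc _ = n * (f * (n⁻¹ * (s.t * n)) * f⁻¹) * n⁻¹ := by group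
      _ = n * s.t * s.y * n⁻¹ := by rw [← nt, inv_mul_cancel_left, hf.2, mul_assoc n s.t]
      _ = _ := by rw [nt, mul_assoc s.t, ny]; group
  have c3 := c1 s.y (by rwa [mul_assoc, ← ny, inv_mul_cancel_left])
  generalize n * f * n⁻¹ = k at c1 c2 c3
  have c4 : k⁻¹ * f * s.t = s.t * (k⁻¹ * f) := by
    calc _ = k⁻¹ * (f * s.t * f⁻¹) * f := by group
      _ = _ := by rw [hf.2, ← c2]; group
  have c5 : Commute (k⁻¹ * f) s.y := (show Commute k s.y from c3).inv_left.mul_left (hf.1 _ yV)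
  have key : ∀ g, (∀ u ∈ s.L, k⁻¹ * f * u * (k⁻¹ * f)⁻¹ = g * u * g⁻¹) → ∀ u ∈ s.L, ∀ u',
      n⁻¹ * u' * n ∈ s.V6 → (f * u * f⁻¹ = u' ↔ g * u * g⁻¹ = u') := fun g hg u hu u' hu' => by
    rw [← hg u hu, show k⁻¹ * f * u * (k⁻¹ * f)⁻¹ = k⁻¹ * (f * u * f⁻¹ * k) by group, inv_mul_eq_iff_eq_mul,
      c1 u' hu', mul_left_inj]
  rcases s.cent _ c4 with h | h
  · exact ⟨_, s.cent_y h c5, key _ fun _ _ => rfl⟩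
  · have ty : Commute s.t s.y := (s.t_comm (s.V6_le yV)).symm
    refine ⟨_, s.cent_y h (ty.mul_left c5), key _ fun u hu => ?_⟩
    rw [← c4]
    calc _ = k⁻¹ * f * (u * s.t) * s.t⁻¹ * (k⁻¹ * f)⁻¹ := by group
      _ = _ := by rw [s.t_comm hu]; group

theorem hat_A {f : G} (hf : f ∈ s.Φ s.y) : ∃ f ∈ s.Φ s.y, f * f = 1 ∧ ∀ g ∈ s.C2, f * g = g * f := by
  obtain ⟨yV, yA, y1, cP, dP, -, c2, d2, -, cy, dy, -, cd, -, -, wP, v1, v2, va, vb, v3, -⟩ := s.hat_let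
  obtain ⟨f, hf, h2⟩ := s.Φ_invol hf (Or.inl ⟨yA, y1⟩)
  obtain ⟨u, hu, e1, e2⟩ := s.hat_conj hf h2 cP c2 cy
  obtain ⟨u', hu', e1', e2'⟩ := s.hat_conj hf h2 dP d2 dy
  obtain ⟨v, hv, z1, z2⟩ := s.hat_dA u hu e2 u' hu' e2' (mul_left_cancel (a := f) (by
    rw [← mul_assoc f u, ← mul_assoc f u', ← e1, ← e1', conj_mul, conj_mul, ← e1, ← e1']
    calc _ = s.c * s.d * f * (s.c * s.d)⁻¹ := by group
      _ = _ := by rw [cd]; group))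
  replace e1 := hat_shift e1 v
  replace e1' := hat_shift e1' v
  obtain ⟨hf, h2⟩ := s.hat_mul hf h2 hv
  generalize f * v = f at e1 e1' hf h2
  obtain ⟨g, hg, k⟩ := s.hat_cmp hf
  have a1 := ((s.hat_dB _ z1).2 g hg).1 ((k _ (s.P3_le cP) _ (s.hat_dB _ z1).1.1).1 (hat_flip e1 h2))
  have a2 := ((s.hat_dB _ z2).2 g hg).2 ((k _ (s.P3_le dP) _ (s.hat_dB _ z2).1.2).1 (hat_flip e1' h2))
  obtain ⟨v', hv', z1', z2'⟩ := s.hat_dC _ z1 a1 _ z2 a2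
  replace e1 := hat_shift e1 v'
  replace e1' := hat_shift e1' v'
  obtain ⟨hf, h2⟩ := s.hat_mul hf h2 hv'
  generalize f * v' = f at e1 e1' hf h2
  rw [z1'] at e1
  rw [z2'] at e1'
  replace e1 := (hat_flip e1 h2).trans (one_mul _)
  replace e1' := (hat_flip e1' h2).trans (one_mul _)
  obtain ⟨g, hg, k⟩ := s.hat_cmp hf
  obtain ⟨⟨m1, m2, m3, m4⟩, m5⟩ := s.hat_dC'
  have a3 := (k _ (s.P2_le wP) _ m4).2 (m5 g hg ((k _ (s.P3_le cP) _ m1).1 e1) ((k _ (s.P3_le dP) _ m2).1 e1')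
    ((k _ (s.V6_le v1) _ m3).1 (by rw [hf.1 _ v1, mul_inv_cancel_right])))
  refine ⟨f, hf, h2, commute_clos ?_⟩
  simp only [List.forall_mem_cons, List.not_mem_nil, false_imp_iff, implies_true, and_true]
  exact ⟨hf.1 _ v1, hf.1 _ v2, hf.1 _ va, hf.1 _ vb, mul_inv_eq_iff_eq_mul.1 e1, mul_inv_eq_iff_eq_mul.1 e1',
    hf.1 _ v3, mul_inv_eq_iff_eq_mul.1 a3⟩

theorem exists_hat {f : G} (hf : f ∈ s.Φ s.y) : ∃ f, s.Hat f := by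
  obtain ⟨-, -, -, -, -, rP, -, -, r2, -, -, ry, -, xr, -, -, -, -, -, -, -, wC, cC, dC, -⟩ := s.hat_let
  obtain ⟨f, hf, h2, hc⟩ := s.hat_A hf
  obtain ⟨z, hz, e1, e2⟩ := s.hat_conj hf h2 rP r2 ry
  have zc : ∀ g ∈ s.C2, z * g = g * z := fun g hg => by
    have a1 : Commute (s.r * f * s.r⁻¹) g := by
      calc s.r * f * s.r⁻¹ * g = s.r * (f * (s.r⁻¹ * g * s.r)) * s.r⁻¹ := by group
        _ = _ := by rw [hc _ (s.hat_dD.1 g hg).1]; group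
    have a2 := (show Commute f g from hc g hg).inv_left.mul_left a1
    rwa [e1, inv_mul_cancel_left] at a2
  obtain ⟨v, hv, e3⟩ := s.hat_dD.2 z hz (zc _ wC) (zc _ cC) (zc _ dC) e2
  obtain ⟨hf', h2'⟩ := s.hat_mul hf h2 (s.les.2.2.2.2.1 hv)
  have e4 := hat_flip (hat_shift e1 v) h2'
  refine ⟨f * v, hf', h2', fun g hg => (show Commute f g from hc g hg).mul_left ((s.hat_dD.1 g hg).2 v hv),
    e3.imp (fun e => ?_) fun e => ?_⟩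
  · rw [e4, e, one_mul]
  · rw [e4, e, xr]

end Cfg

end Cfsg.Agent.SF6
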