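import Mathlib
import Cfsg.Agent.SF6.Phi

set_option autoImplicit false
set_option linter.unusedSectionVars false
set_option maxRecDepth 100000
set_option synthInstance.maxSize 100000
set_option synthInstance.maxHeartbeats 1000000

namespace Cfsg.Agent.SF6

open Cfsg Cfsg.Agent.Rec Cfsg.Agent.Spor Cfsg.Agent.Loc.Mss Subgroup
open scoped commutatorElement

variable {G : Type*} [Group G] [Finite G]

namespace Nine

open Phi

variable (s : Cfg G)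

theorem two_tr : ∀ v ∈ s.A3, v ≠ 1 → ∀ v' ∈ s.A3, v' ≠ 1 → v ≠ v' →
    ∃ l ∈ s.L3, l * v * l⁻¹ = s.y ∧ l * v' * l⁻¹ = s.a := s.hL.decide s.rep (by decide +kernel)

theorem ya : s.y ∈ s.V6 ∧ s.y ≠ 1 ∧ s.a ∈ s.V6 := s.hL.decide s.rep (by decide +kernel)

theorem sq_mul {f : G} (hf : f ∈ s.Φ s.y) (h2 : f * f = 1)
    (hg : ∀ e ∈ s.Φ s.a, e * e = 1 → f * e * (f * e) = 1) {v v' e e' : G} (hv : v ∈ s.A3) (h1 : v ≠ 1)
    (hv' : v' ∈ s.A3) (h1' : v' ≠ 1) (n : v ≠ v') (he : e ∈ s.Φ v) (he' : e' ∈ s.Φ v') (k : e * e = 1)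
    (k' : e' * e' = 1) : e * e' * (e * e') = 1 := by
  obtain ⟨l, hl, e1, e2⟩ := two_tr s v hv h1 v' hv' h1' n
  have c : ∀ x : G, l * x * l⁻¹ * (l * x * l⁻¹) = l * (x * x) * l⁻¹ := fun x => by group
  have p1 := s.Φ_conj he (s.les.2.2.1 hl)
  have p2 := s.Φ_conj he' (s.les.2.2.1 hl)
  rw [e1] at p1
  rw [e2] at p2
  obtain ⟨u, hu, e3⟩ := s.Φ_same hf p1 (ya s).1 (ya s).2.1 (by rw [c, k, h2]; group)
  have e4 := hg _ p2 (by rw [c, k']; group)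
  rw [← s.Φ_V_sq (s.Φ_mul hf p2 (ya s).2.2) hu, mul_assoc f, p2.1 u hu, ← mul_assoc f, ← e3] at e4
  calc e * e' * (e * e') = l⁻¹ * (l * e * l⁻¹ * (l * e' * l⁻¹) * (l * e * l⁻¹ * (l * e' * l⁻¹))) * l := by
        group
    _ = 1 := by rw [e4]; group

/-- The order of a group of elements with translations in `A`. -/
theorem card_tau {A B : Subgroup G} (hA : A ≤ s.V6) (tau : ∀ e ∈ B, ∃ v ∈ A, e ∈ s.Φ v)
    (onto : ∀ v ∈ A, ∃ e ∈ B, e ∈ s.Φ v) (le : s.V6 ≤ B) (tB : s.t ∉ B) :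
    Nat.card B = 64 * Nat.card A := by
  have ev : ∀ {e v}, e ∈ s.Φ v → s.t * (e * s.t * e⁻¹) = v := fun h => by rw [h.2, tt']
  let τ : B →* G := MonoidHom.mk' (fun e => s.t * (e * s.t * (e : G)⁻¹)) fun a b => by
    obtain ⟨v, -, h⟩ := tau a a.2
    obtain ⟨v', hv', h'⟩ := tau b b.2
    rw [ev h, ev h']
    exact ev (s.Φ_mul h h' (hA hv'))
  have hr : τ.range = A := by
    ext v
    constructor
    · rintro ⟨e, rfl⟩
      obtain ⟨v, hv, h⟩ := tau e e.2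
      rwa [show τ e = v from ev h]
    · intro hv
      obtain ⟨e, he, h⟩ := onto v hv
      exact ⟨⟨e, he⟩, ev h⟩
  have hk : τ.ker = s.V6.subgroupOf B := by
    ext ⟨e, he⟩
    rw [MonoidHom.mem_ker, mem_subgroupOf]
    obtain ⟨v, -, h⟩ := tau e he
    refine ⟨fun k => ?_, fun k => ev (s.Φ_one.2 (V_W s k))⟩
    obtain rfl : v = 1 := (ev h).symm.trans k
    exact (s.memW.1 (s.Φ_one.1 h)).resolve_right fun k' => tB ((mul_mem_cancel_right he).1 (le k'))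
  rw [← τ.ker.card_mul_index, index_ker, hr, hk, Nat.card_congr (subgroupOfEquivOfLe le).toEquiv,
    s.gV6.2]

end Nine

namespace Cfg

open Phi Nine

variable (s : Cfg G)

theorem exists_nine {f : G} (hf : f ∈ s.Φ s.y) (h2 : f * f = 1)
    (hg : ∀ e ∈ s.Φ s.a, e * e = 1 → f * e * (f * e) = 1) : ∃ B, s.Big s.A3 B := by
  let B : Subgroup G :=
    { carrier := {e | e * e = 1 ∧ (e ∈ s.V6 ∨ ∃ v ∈ s.A3, v ≠ 1 ∧ e ∈ s.Φ v)}
      one_mem' := ⟨one_mul _, Or.inl (one_mem _)⟩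
      inv_mem' := fun {e} he => by rwa [inv_eq_of_mul_eq_one_right he.1]
      mul_mem' := by
        rintro e e' ⟨k, h | ⟨v, hv, h1, h⟩⟩ ⟨k', h' | ⟨v', hv', h1', h'⟩⟩
        · exact ⟨V_sq s (mul_mem h h'), Or.inl (mul_mem h h')⟩
        · exact ⟨by rw [← h'.1 e h, s.Φ_V_sq h' h, k'],
            Or.inr ⟨v', hv', h1', (s.Φ_W h' (A_V s hv') (V_W s h)).2⟩⟩
        · exact ⟨by rw [s.Φ_V_sq h h', k], Or.inr ⟨v, hv, h1, (s.Φ_W h (A_V s hv) (V_W s h')).1⟩⟩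
        · by_cases n : v = v'
          · subst n
            obtain ⟨u, hu, rfl⟩ := s.Φ_same h h' (A_V s hv) h1 (k.trans k'.symm)
            rw [← mul_assoc, k, one_mul]
            exact ⟨V_sq s hu, Or.inl hu⟩
          · exact ⟨sq_mul s hf h2 hg hv h1 hv' h1' n h h' k k', Or.inr ⟨_, mul_mem hv hv',
              fun e1 => n (mul_right_cancel (e1.trans (V_sq s (A_V s hv')).symm)),
              s.Φ_mul h h' (A_V s hv')⟩⟩ }
  have le : s.V6 ≤ B := fun u hu => ⟨V_sq s hu, Or.inl hu⟩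
  have tB : s.t ∉ B := by
    rintro ⟨-, h | ⟨v, -, h1, h⟩⟩
    exacts [tV s h, h1 (s.Φ_uniq h (s.Φ_one.2 s.tW))]
  have tau : ∀ e ∈ B, ∃ v ∈ s.A3, e ∈ s.Φ v := by
    rintro e ⟨-, h | ⟨v, hv, -, h⟩⟩
    exacts [⟨1, one_mem _, s.Φ_one.2 (V_W s h)⟩, ⟨v, hv, h⟩]
  have onto : ∀ v ∈ s.A3, ∃ e ∈ B, e ∈ s.Φ v := fun v hv => by
    by_cases h1 : v = 1
    · exact ⟨1, one_mem _, h1 ▸ s.Φ_one.2 (one_mem _)⟩
    obtain ⟨l, hl, e⟩ := s.A3_eq hv h1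
    have h := s.Φ_conj hf (s.les.2.2.1 hl)
    rw [e] at h
    exact ⟨_, ⟨by rw [show l * f * l⁻¹ * (l * f * l⁻¹) = l * (f * f) * l⁻¹ by group, h2]; group,
      Or.inr ⟨v, hv, h1, h⟩⟩, h⟩
  refine ⟨B, le, fun e he => he.1, tB, tau, onto, fun v hv h1 e he k => ⟨k, Or.inr ⟨v, hv, h1, he⟩⟩,
    card_tau s (A_V s) tau onto le tB, fun g hg => mem_norm_of_cj_le (cj_le_iff.2 ?_)⟩
  rintro e ⟨k, h⟩
  refine ⟨by rw [show g * e * g⁻¹ * (g * e * g⁻¹) = g * (e * e) * g⁻¹ by group, k]; group, ?_⟩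
  rcases h with h | ⟨v, hv, h1, h⟩
  · exact Or.inl (conj_mem_of_norm (s.P3_norm.1 hg) h)
  · exact Or.inr ⟨_, conj_mem_of_norm (s.P3_norm.2.2 hg) hv, fun e1 => h1 (conj_eq_one_iff.1 e1),
      s.Φ_conj h hg⟩

end Cfg

end Cfsg.Agent.SF6
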