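import Mathlib
import Cfsg.Agent.SF6.Kit

/-! The element acting on `W` as a translation of eight conjugates of `t`. -/

set_option autoImplicit false
set_option linter.unusedSectionVars false
set_option maxRecDepth 100000
set_option synthInstance.maxSize 100000
set_option synthInstance.maxHeartbeats 1000000

namespace Cfsg.Agent.SF6

open Cfsg Cfsg.Agent.Rec Cfsg.Agent.Spor Cfsg.Agent.Loc.Mss Subgroup
open scoped commutatorElement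

variable {G : Type*} [Group G] [Finite G]

namespace A1Aux

variable (s : Cfg G)

theorem one_nD : (1 : G) ∉ s.D := fun h => s.tL (by rw [isConj_one_left.1 h]; exact one_mem _)

theorem L3_le : s.L3 ≤ s.L := s.les.2.2.1.trans s.P3_le

theorem L3_norm : s.L3 ≤ 𝐍[s.W] := s.les.2.2.1.trans s.P3_norm.2.1

theorem faith {l l' : G} (hl : l ∈ s.L3) (hl' : l' ∈ s.L3) (h : ∀ w ∈ s.W, l * w * l⁻¹ = l' * w * l'⁻¹) :
    l = l' := by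
  have k : ∀ g ∈ s.L3, g * s.x1 * g⁻¹ = s.x1 → g * s.x2 * g⁻¹ = s.x2 → g * s.x3 * g⁻¹ = s.x3 → g = 1 :=
    s.hL.decide s.rep (by decide +kernel)
  have k2 : s.x1 ∈ s.W ∧ s.x2 ∈ s.W ∧ s.x3 ∈ s.W := s.hL.decide s.rep (by decide +kernel)
  have k3 : ∀ w ∈ s.W, l'⁻¹ * l * w * (l'⁻¹ * l)⁻¹ = w := fun w hw =>
    calc _ = l'⁻¹ * (l * w * l⁻¹) * l' := by group
      _ = w := by rw [h w hw]; group
  exact (inv_mul_eq_one.1 (k _ (mul_mem (inv_mem hl') hl) (k3 _ k2.1) (k3 _ k2.2.1) (k3 _ k2.2.2))).symm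

theorem act {g : G} (hg : g ∈ 𝐍[s.W]) (h : g * s.t * g⁻¹ = s.t) :
    ∃ l ∈ s.L3, ∀ w ∈ s.W, g * w * g⁻¹ = l * w * l⁻¹ := by
  obtain ⟨v, hv, l, hl, rfl⟩ := s.normW hg (mul_inv_eq_iff_eq_mul.1 h)
  refine ⟨l, hl, fun w hw => ?_⟩
  calc _ = v * (l * w * l⁻¹) * v⁻¹ := by group
    _ = _ := by rw [s.W_comm hv (conj_mem_of_norm (L3_norm s hl) hw), mul_inv_cancel_right]

theorem step1 (hy : s.t * s.y ∉ s.D) (hx : s.t * s.x1 ∈ s.D) :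
    ∃ α ∈ 𝐍[s.W], α * s.t * α⁻¹ = s.t * s.x1 ∧ α * (s.t * s.x1) * α⁻¹ = s.t := by
  have k0 : s.x1 ∈ s.ZU ∧ s.t * s.x1 ∈ s.W ∧ s.r ∈ s.T ∧ s.d ∈ s.T ∧ s.x1 ≠ 1 ∧
      ∀ u ∈ s.T, u * (s.t * s.x1) = s.t * s.x1 * u := s.hL.decide s.rep (by decide +kernel)
  have k1 : ∀ w ∈ s.W, s.r * w = w * s.r → s.d * w = w * s.d → w = s.t ∨ w = 1 ∨ w = s.t * s.x1 ∨ w = s.t * s.y ∨
      w = s.t * (s.x1 * s.y) ∨ w ∈ s.K1 ∨ w ∈ s.K2 ∨ w ∈ s.K3 := s.hL.decide s.rep (by decide +kernel)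
  obtain ⟨α, hT, hW, e, -⟩ := s.normT k0.1 hx
  have k2 : ∀ u ∈ s.T, u * (α * (s.t * s.x1) * α⁻¹) = α * (s.t * s.x1) * α⁻¹ * u := fun u hu =>
    calc _ = α * (α⁻¹ * u * α * (s.t * s.x1)) * α⁻¹ := by group
      _ = _ := by rw [k0.2.2.2.2.2 _ (conj_mem_of_norm' hT hu)]; group
  have hD := s.D_conj hx α
  refine ⟨α, hW, e, ?_⟩
  rcases k1 _ (conj_mem_of_norm hW k0.2.1) (k2 _ k0.2.2.1) (k2 _ k0.2.2.2.1) with h | h | h | h | h | h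
  · exact h
  · exact absurd (h ▸ hD) (one_nD s)
  · exact absurd (by simpa using h.trans e.symm) k0.2.2.2.2.1
  · exact absurd (h ▸ hD) hy
  · exact absurd (h ▸ hD) (s.noII hy)
  · exact absurd hD (s.K_nD h)

theorem step2 (hy : s.t * s.y ∉ s.D) (hx : s.t * s.x1 ∈ s.D) :
    ∃ β ∈ 𝐍[s.W], β * s.t * β⁻¹ = s.t * s.x1 ∧ β * (s.t * s.x1) * β⁻¹ = s.t ∧
    ∀ l ∈ s.Sp, ∀ w ∈ s.W, β * (l * w * l⁻¹) * β⁻¹ = l * (β * w * β⁻¹) * l⁻¹ := by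
  obtain ⟨α, hW, e1, e2⟩ := step1 s hy hx
  have k0 : ∀ l ∈ s.Sp, l * s.t * l⁻¹ = s.t ∧ l * (s.t * s.x1) * l⁻¹ = s.t * s.x1 :=
    s.hL.decide s.rep (by decide +kernel)
  have k1 : s.t * s.x1 ∈ s.W ∧ ∀ l ∈ s.L3, l * (s.t * s.x1) * l⁻¹ = s.t * s.x1 → l ∈ s.Sp :=
    s.hL.decide s.rep (by decide +kernel)
  have hS : s.Sp ≤ s.L3 := s.les.2.2.2.2.2.2.2.2.2.1
  have k2 : ∀ l x, α * l * α⁻¹ * (α * x * α⁻¹) * (α * l * α⁻¹)⁻¹ = α * (l * x * l⁻¹) * α⁻¹ := fun l x => by group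
  have h1 : ∀ l, l ∈ s.Sp → ∃ l' ∈ s.Sp, ∀ w ∈ s.W, α * (l * w * l⁻¹) * α⁻¹ = l' * (α * w * α⁻¹) * l'⁻¹ := by
    intro l hl
    obtain ⟨l', hl', h⟩ := act s (mul_mem (mul_mem hW (L3_norm s (hS hl))) (inv_mem hW))
      (by conv_lhs => rw [← e2, k2, (k0 l hl).2, e2])
    refine ⟨l', k1.2 l' hl' ?_, fun w hw => by rw [← k2, h _ (conj_mem_of_norm hW hw)]⟩
    rw [← h _ k1.1, ← e1, k2, (k0 l hl).1]
  choose! f hf hf' using h1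
  have hq : ∀ l ∈ s.Sp, ∀ l' ∈ s.Sp, (∀ w ∈ s.W, α * (l * w * l⁻¹) * α⁻¹ = l' * (α * w * α⁻¹) * l'⁻¹) → f l = l' :=
    fun l hl l' hl' h => faith s (hS (hf l hl)) (hS hl') fun w hw => by
      have := conj_mem_of_norm' hW hw
      rw [show w = α * (α⁻¹ * w * α) * α⁻¹ by group, ← hf' l hl _ this, h _ this]
  have hm : ∀ l ∈ s.Sp, ∀ l' ∈ s.Sp, f (l * l') = f l * f l' := fun l hl l' hl' =>
    hq _ (mul_mem hl hl') _ (mul_mem (hf l hl) (hf l' hl')) fun w hw => by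
      rw [show l * l' * w * (l * l')⁻¹ = l * (l' * w * l'⁻¹) * l⁻¹ by group,
        hf' l hl _ (conj_mem_of_norm (L3_norm s (hS hl')) hw), hf' l' hl' w hw]
      group
  have h1 : f 1 = 1 := hq _ (one_mem _) _ (one_mem _) (by simp)
  have hi : ∀ l ∈ s.Sp, f l = 1 → l = 1 := fun l hl h => faith s (hS hl) (one_mem _) fun w hw => by
    simpa [h] using hf' l hl w hw
  have k3 : (s.r ∈ s.Sp ∧ s.d ∈ s.Sp ∧ s.m ∈ s.Sp) ∧ (s.r * s.r = 1 ∧ s.d * s.d = 1 ∧ s.m * s.m = 1) ∧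
      s.r * s.d * (s.r * s.d) ≠ 1 ∧ s.r * s.d * (s.r * s.d) * (s.r * s.d * (s.r * s.d)) = 1 ∧
      s.d * s.m * (s.d * s.m) * (s.d * s.m) = 1 ∧ s.r * s.m * (s.r * s.m) = 1 :=
    s.hL.decide s.rep (by decide +kernel)
  have k4 : ∀ r ∈ s.Sp, r * r = 1 → ∀ d ∈ s.Sp, d * d = 1 → r * d * (r * d) ≠ 1 →
      r * d * (r * d) * (r * d * (r * d)) = 1 → ∀ m ∈ s.Sp, m * m = 1 →
      d * m * (d * m) * (d * m) = 1 → r * m * (r * m) = 1 →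
      ∃ k ∈ s.Sp, k * s.r * k⁻¹ = r ∧ k * s.d * k⁻¹ = d ∧ k * s.m * k⁻¹ = m := s.hL.decide s.rep (by decide +kernel)
  obtain ⟨⟨hr, hd, hm'⟩, ⟨r2, d2, m2⟩, rd, rd', dm, rm⟩ := k3
  have hrd := mul_mem hr hd
  have hdm := mul_mem hd hm'
  have hrm := mul_mem hr hm'
  obtain ⟨k, hk, c1, c2, c3⟩ := k4 _ (hf _ hr) (by rw [← hm _ hr _ hr, r2, h1]) _ (hf _ hd)
    (by rw [← hm _ hd _ hd, d2, h1])
    (fun h => rd (hi _ (mul_mem hrd hrd) (by rw [hm _ hrd _ hrd, hm _ hr _ hd, h])))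
    (by rw [← hm _ hr _ hd, ← hm _ hrd _ hrd, ← hm _ (mul_mem hrd hrd) _ (mul_mem hrd hrd), rd', h1]) _ (hf _ hm')
    (by rw [← hm _ hm' _ hm', m2, h1])
    (by rw [← hm _ hd _ hm', ← hm _ hdm _ hdm, ← hm _ (mul_mem hdm hdm) _ hdm, dm, h1])
    (by rw [← hm _ hr _ hm', ← hm _ hrm _ hrm, rm, h1])
  have k5 : ∀ x, k⁻¹ * α * x * (k⁻¹ * α)⁻¹ = k⁻¹ * (α * x * α⁻¹) * k⁻¹⁻¹ := fun x => by group
  refine ⟨k⁻¹ * α, mul_mem (inv_mem (L3_norm s (hS hk))) hW, by rw [k5, e1, (k0 _ (inv_mem hk)).2],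
    by rw [k5, e2, (k0 _ (inv_mem hk)).1], fun l hl => ?_⟩
  have k6 : ∀ l ∈ s.Sp, f l = k * l * k⁻¹ := fun l hl => by
    induction hl using closure_induction with
    | mem x hx =>
      simp only [Set.mem_ofPred_eq, List.mem_cons, List.not_mem_nil, or_false] at hx
      rcases hx with rfl | rfl | rfl
      exacts [c1.symm, c2.symm, c3.symm]
    | one => simpa using h1
    | mul x y hx hy h2 h3 => rw [hm x hx y hy, h2, h3, conj_mul]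
    | inv x hx h2 => rw [← conj_inv, ← h2, eq_inv_iff_mul_eq_one, ← hm _ (inv_mem hx) x hx, inv_mul_cancel, h1]
  intro w hw
  rw [k5, k5, hf' l hl w hw, k6 l hl]
  group

end A1Aux

namespace Cfg

open A1Aux

variable (s : Cfg G)

theorem exists_kp (hy : s.t * s.y ∉ s.D) (hx : s.t * s.x1 ∈ s.D) : ∃ α, s.Kp α := by
  obtain ⟨β, hW, e1, e2, hc⟩ := step2 s hy hx
  have k0 : s.t * s.x2 ∈ s.W ∧ s.c ∈ s.Sp ∧ s.d ∈ s.Sp ∧ s.c * (s.t * s.x2) * s.c⁻¹ = s.t * s.x2 ∧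
      s.d * (s.t * s.x2) * s.d⁻¹ = s.t * s.x2 ∧ s.r * s.n * s.r ∈ s.L3 ∧
      s.r * s.n * s.r * s.x1 * (s.r * s.n * s.r)⁻¹ = s.x2 ∧ s.x2 ≠ s.x1 ∧ s.x2 ≠ 1 :=
    s.hL.decide s.rep (by decide +kernel)
  have k1 : ∀ w ∈ s.W, s.c * w * s.c⁻¹ = w → s.d * w * s.d⁻¹ = w → w = s.t * s.x12 ∨ w = s.t * s.x2 ∨ w = s.t ∨
      w = s.t * s.x1 ∨ w = 1 ∨ w = s.t * s.y ∨ (w ∈ s.K1 ∨ w ∈ s.K2 ∨ w ∈ s.K3) ∨
      (s.t * (s.t * w) = w ∧ ∃ l ∈ s.L3, l * (s.t * w) * l⁻¹ = s.x1 * s.y) := s.hL.decide s.rep (by decide +kernel)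
  obtain ⟨a1, a2, a3, a4, a5, a6, a7, a8, a9⟩ := k0
  have hD := s.D_conj (a7 ▸ s.D_L (L3_le s a6) hx) β
  have cm : ∀ {x y u v : G}, β * x * β⁻¹ = u → β * y * β⁻¹ = v → β * (x * y) * β⁻¹ = u * v :=
    fun h h' => by rw [← h, ← h', conj_mul]
  have tr : ∀ {l x u x' u' : G}, β * x * β⁻¹ = u → l ∈ s.Sp ∧ x ∈ s.W ∧ l * x * l⁻¹ = x' ∧ l * u * l⁻¹ = u' →
      β * x' * β⁻¹ = u' := fun h h' => by rw [← h'.2.2.1, hc _ h'.1 _ h'.2.1, h, h'.2.2.2]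
  have ch : ∀ {x u x' u' : G}, β * x * β⁻¹ = u → x = x' ∧ u = u' → β * x' * β⁻¹ = u' :=
    fun h h' => h'.1 ▸ h'.2 ▸ h
  have b1 : β * s.x1 * β⁻¹ = s.x1 := ch (cm e1 e2) (s.hL.decide s.rep (by decide +kernel))
  rcases k1 _ (conj_mem_of_norm hW a1) (by rw [← hc _ a2 _ a1, a4]) (by rw [← hc _ a3 _ a1, a5]) with
    h | h | h | h | h | h | h | ⟨h, l, hl, h'⟩
  · have b2 : β * s.x2 * β⁻¹ = s.x2 * s.y := ch (cm e1 h) (s.hL.decide s.rep (by decide +kernel))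
    have b3 : β * s.x3 * β⁻¹ = s.x3 * s.a := tr (l := s.d * s.m * s.d) b2 (s.hL.decide s.rep (by decide +kernel))
    have b4 : β * s.x12 * β⁻¹ = s.x12 * s.y := tr (l := s.r) b2 (s.hL.decide s.rep (by decide +kernel))
    have b5 : β * s.x23 * β⁻¹ = s.x23 * (s.y * s.a) := tr (l := s.m) b2 (s.hL.decide s.rep (by decide +kernel))
    have b6 : β * s.y * β⁻¹ = s.y := ch (cm (cm b1 b2) b4) (s.hL.decide s.rep (by decide +kernel))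
    exact ⟨β, e1, b1, b2, b3, b6, tr (l := s.d * s.m * s.d) b6 (s.hL.decide s.rep (by decide +kernel)),
      ch (cm (cm b2 b3) b5) (s.hL.decide s.rep (by decide +kernel))⟩
  · exfalso
    have b3 : β * (s.t * s.x3) * β⁻¹ = s.t * s.x3 :=
      tr (l := s.d * s.m * s.d) h (s.hL.decide s.rep (by decide +kernel))
    have b4 : β * (s.t * s.x13) * β⁻¹ = s.t * s.x13 := tr (l := s.c) b3 (s.hL.decide s.rep (by decide +kernel))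
    have b5 : β * (s.t * s.x23) * β⁻¹ = s.t * s.x23 := tr (l := s.d) b3 (s.hL.decide s.rep (by decide +kernel))
    generalize hσ : s.r * s.n * s.r = σ at a6
    have k2 : ∀ {x x1 x2 x3 x4 x5 : G}, β * x * β⁻¹ = x1 → β * x2 * β⁻¹ = x3 → β * x4 * β⁻¹ = x5 →
        s.r * s.n * s.r * x * (s.r * s.n * s.r)⁻¹ = x2 ∧ s.r * s.n * s.r * x3 * (s.r * s.n * s.r)⁻¹ = x4 →
        β * (σ * β * σ) * β⁻¹ * x1 * (β * (σ * β * σ) * β⁻¹)⁻¹ = x5 := fun h1 h2 h3 h4 => by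
      rw [hσ] at h4
      rw [← h1, ← h3, ← h4.2, ← h2, ← h4.1]
      group
    obtain ⟨l, hl, h1⟩ := A1Aux.act s (mul_mem (mul_mem hW (mul_mem (mul_mem (L3_norm s a6) hW) (L3_norm s a6)))
      (inv_mem hW)) (k2 e2 h e2 (s.hL.decide s.rep (by decide +kernel)))
    have k3 : (s.t * s.x1 ∈ s.W ∧ s.t * s.x3 ∈ s.W ∧ s.t * s.x13 ∈ s.W) ∧ ∀ l ∈ s.L3,
        l * (s.t * s.x1) * l⁻¹ = s.t * s.x2 → l * (s.t * s.x3) * l⁻¹ = s.t * s.x3 →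
        l * (s.t * s.x13) * l⁻¹ ≠ s.t * s.x13 := s.hL.decide s.rep (by decide +kernel)
    exact k3.2 l hl ((h1 _ k3.1.1).symm.trans (k2 e1 e1 h (s.hL.decide s.rep (by decide +kernel))))
      ((h1 _ k3.1.2.1).symm.trans (k2 b3 b3 b3 (s.hL.decide s.rep (by decide +kernel))))
      ((h1 _ k3.1.2.2).symm.trans (k2 b4 b5 b4 (s.hL.decide s.rep (by decide +kernel))))
  · exact absurd (by simpa using h.trans e2.symm) a8
  · exact absurd (by simpa using h.trans e1.symm) a9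
  · exact absurd (h ▸ hD) (one_nD s)
  · exact absurd (h ▸ hD) hy
  · exact absurd hD (s.K_nD h)
  · exact absurd (h' ▸ s.D_L (L3_le s hl) (h.symm ▸ hD)) (s.noII hy)

end Cfg

end Cfsg.Agent.SF6
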