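import Mathlib
import Cfsg.Agent.SF6.Phi

set_option autoImplicit false
set_option linter.unusedSectionVars false
set_option maxRecDepth 100000
set_option synthInstance.maxSize 100000
set_option synthInstance.maxHeartbeats 1000000

namespace Cfsg.Agent.SF6

open Cfsg Cfsg.Agent.Rec Cfsg.Agent.Spor Cfsg.Agent.Loc.Mss Subgroup
open scoped commutatorElement

variable {G : Type*} [Group G] [Finite G]

namespace Cfg

variable (s : Cfg G)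

/-- `c` acts on `V6` as `l`. -/
def C1aAc (c l : G) : Prop := l ∈ s.L3 ∧ ∀ u ∈ s.V6, c * u * c⁻¹ = l * u * l⁻¹

variable {s}

theorem c1a_conj {l u : G} (hl : l ∈ s.L3) (hu : u ∈ s.V6) : l * u * l⁻¹ ∈ s.V6 :=
  conj_mem_of_norm (s.P3_norm.1 (s.les.2.2.1 hl)) hu

theorem C1aAc.mul {c c' l l' : G} (h : s.C1aAc c l) (h' : s.C1aAc c' l') : s.C1aAc (c * c') (l * l') :=
  ⟨mul_mem h.1 h'.1, fun u hu => by
    calc c * c' * u * (c * c')⁻¹ = c * (c' * u * c'⁻¹) * c⁻¹ := by group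
      _ = l * (l' * u * l'⁻¹) * l⁻¹ := by rw [h'.2 u hu, h.2 _ (c1a_conj h'.1 hu)]
      _ = _ := by group⟩

theorem C1aAc.uniq {c l l' : G} (h : s.C1aAc c l) (h' : s.C1aAc c l') : l = l' := by
  have k : ∀ l ∈ s.L3, l ∈ s.V6 → l = 1 := s.hL.decide s.rep (by decide +kernel)
  have h1 := mul_mem (inv_mem h'.1) h.1
  refine (inv_mul_eq_one.1 (k _ h1 (s.cent_V6 (s.L3_le h1) fun u hu => ?_))).symm
  calc l'⁻¹ * l * u = l'⁻¹ * (l * u * l⁻¹) * l := by group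
    _ = _ := by rw [← h.2 u hu, h'.2 u hu]; group

theorem c1a_one : s.C1aAc 1 1 := ⟨one_mem _, fun _ _ => rfl⟩

theorem C1aAc.sq {c l : G} (h : s.C1aAc c l) (e : c * c = 1) : l * l = 1 := (h.mul h).uniq (by rw [e]; exact c1a_one)

theorem C1aAc.comm {c c' l l' : G} (h : s.C1aAc c l) (h' : s.C1aAc c' l') (e : c * c' = c' * c) :
    l * l' = l' * l := (h.mul h').uniq (e ▸ h'.mul h)

theorem C1aAc.cent {c : G} (h : s.C1aAc c 1) : ∀ u ∈ s.V6, c * u = u * c := fun u hu =>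
  mul_inv_eq_iff_eq_mul.1 ((h.2 u hu).trans (by group))

theorem C1aAc.fix {c l u : G} (h : s.C1aAc c l) (hu : u ∈ s.V6) (e : c * u = u * c) : l * u = u * l :=
  mul_inv_eq_iff_eq_mul.1 ((h.2 u hu).symm.trans (mul_inv_eq_iff_eq_mul.2 e))

theorem C1aAc.memW {c v : G} (h : s.C1aAc c 1) (hv : v ∈ s.V6) (e : c * (s.t * v) = s.t * v * c) : c ∈ s.W :=
  s.centW h.cent (mul_right_cancel (b := v) (by rw [mul_assoc, e, mul_assoc, mul_assoc, h.cent v hv]))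

variable {B : Subgroup G} (h : s.Sev B)
include h

theorem c1a_D {v : G} (hv : v ∈ s.V6) : s.t * v ∈ s.D :=
  let ⟨_, he, _⟩ := h.onto v hv; s.Φ_D he

theorem c1a_act {c : G} (hc : c ∈ 𝐍[s.W]) : ∃ l, s.C1aAc c l := by
  have hv : s.t * (c * s.t * c⁻¹) ∈ s.V6 :=
    (s.memW.1 (conj_mem_of_norm hc s.tW)).resolve_left fun k => s.big_nD h.big le_rfl (h.big.le k) 1 (by
      simpa using s.D_conj s.tD c)
  obtain ⟨e, he, -⟩ := h.onto _ hv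
  obtain ⟨w, hw, l, hl, e'⟩ := s.normW (g := e⁻¹ * c) (mul_mem (inv_mem (s.Φ_E he hv).2) hc) (by
    have := he.2
    rw [← mul_assoc s.t, s.tt, one_mul] at this
    calc e⁻¹ * c * s.t = e⁻¹ * (c * s.t * c⁻¹) * c := by group
      _ = _ := by rw [← this]; group)
  refine ⟨l, hl, fun u hu => ?_⟩
  have h1 := c1a_conj hl hu
  calc c * u * c⁻¹ = e * (w * (l * u * l⁻¹) * w⁻¹) * e⁻¹ := by rw [inv_mul_eq_iff_eq_mul.1 e']; group
    _ = _ := by rw [s.W_comm hw (s.les.2.2.2.2.2.1 h1), mul_inv_cancel_right, he.1 _ h1, mul_inv_cancel_right]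

theorem c1a_tau {e v : G} (he : e ∈ s.Φ v) (hv : v ∈ s.V6) (e2 : e * e = 1) : v ∈ s.A3 ∨ v ∈ s.Pts := by
  have k : ∀ p ∈ s.Pts, p ≠ 1 ∧ ∀ u ∈ s.A3, p * u * p = 1 → p * u ∈ s.Pts := s.hL.decide s.rep (by decide +kernel)
  refine (s.V6_eq hv).imp_right ?_
  rintro ⟨p, hp, u, hu, rfl⟩
  obtain ⟨f, hf, hc⟩ := h.onto _ hv
  have f2 := h.sq p hp u hu f hf hc
  rcases s.Φ_diff hf he hv with ⟨z, hz, rfl⟩ | ⟨z, hz, rfl⟩
  · rw [s.Φ_V_sq hf hz, f2] at e2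
    exact absurd e2 (k p hp).1
  · rw [s.Φ_V_sq (s.Φ_W hf hv s.tW).2 hz, s.Φ_t_sq hf hv, f2] at e2
    exact (k p hp).2 u hu e2

section

variable {B' : Subgroup G} (h2 : ∀ e ∈ B', e * e = 1) (hD : ∀ e ∈ B', e ∉ s.D) (hc : Nat.card B' = 512)
include h2 hD

theorem c1a_V {e : G} (he : e ∈ B') (hw : e ∈ s.W) : e ∈ s.V6 :=
  (s.memW.1 hw).resolve_right fun k => hD e he (by
    have := c1a_D h k
    rwa [← mul_assoc, s.tt, one_mul] at this)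

include hc

theorem c1a_le (hE : B' ≤ s.E) : B' ≤ B := by
  have k : ∀ p ∈ s.Pts, ∀ w ∈ s.V6, w ∈ s.A3 ∨ w ∈ s.Pts → p * w ∈ s.A3 ∨ p * w ∈ s.Pts → w = 1 ∨ p * w = 1 :=
    s.hL.decide s.rep (by decide +kernel)
  intro e he
  obtain ⟨v, hv, hΦ⟩ := s.E_Φ (hE he)
  have hW : ∀ x ∈ B', x ∈ s.Φ 1 → x ∈ B' ⊓ s.V6 := fun x hx k => ⟨hx, c1a_V h h2 hD hx (s.Φ_one.1 k)⟩
  rcases c1a_tau h hΦ hv (h2 e he) with hA | hp
  · by_cases v1 : v = 1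
    · exact h.big.le (hW e he (v1 ▸ hΦ)).2
    · exact h.big.max v hA v1 e hΦ (h2 e he)
  exfalso
  have c1 : Nat.card (B' ⊓ s.V6 : Subgroup G) ≤ 64 := s.gV6.2 ▸ card_le_of_le inf_le_right
  have key : ∀ x ∈ B', x ∈ B' ⊓ s.V6 ∨ e * x ∈ B' ⊓ s.V6 := fun x hx => by
    obtain ⟨w, hw, hx'⟩ := s.E_Φ (hE hx)
    have hm := s.Φ_mul hΦ hx' hw
    exact (k v hp w hw (c1a_tau h hx' hw (h2 x hx)) (c1a_tau h hm (mul_mem hv hw) (h2 _ (mul_mem he hx)))).imp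
      (fun e' : w = 1 => hW x hx (e' ▸ hx')) fun e' : v * w = 1 => hW _ (mul_mem he hx) (e' ▸ hm)
  by_cases hm : e ∈ B' ⊓ s.V6
  · have := card_le_of_le (show B' ≤ B' ⊓ s.V6 from fun x hx => (key x hx).elim id (mul_mem_cancel_left hm).1)
    omega
  · obtain ⟨A, -, a1, a2⟩ := adjoin (A := B' ⊓ s.V6) inf_le_left h2 he hm
    have := card_le_of_le (show B' ≤ A from fun x hx => (a2 x).2 (key x hx))
    omega

theorem c1a_main (hn : s.W ≤ 𝐍[B']) : B' ≤ B := by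
  have k0 : (∀ l ∈ s.L3, l ≠ 1 → ∃ u ∈ s.V6, l * u ≠ u * l ∧ ∃ v ∈ s.V6, l * v ≠ v * l ∧ l * (u * v) ≠ u * v * l) ∧
      (∀ l ∈ s.L3, l ≠ 1 → l * l = 1 → ∃ v ∈ s.V6, l * v * l⁻¹ * v ∉ s.A3 ∧ l * v * l⁻¹ * v ∉ s.Pts) ∧
      (∀ l ∈ s.L3, l ≠ 1 → l * l = 1 → ∀ k ∈ s.L3, k ≠ 1 → k * k = 1 → k ≠ l → l * k = k * l →
        (∀ j ∈ s.L3, j * j = 1 → l * j = j * l → k * j = j * k → j = 1 ∨ j = l ∨ k * j = 1 ∨ k * j = l) ∧
        ∃ u ∈ s.V6, ¬ (l * u = u * l ∧ k * u = u * k) ∧ ∃ v ∈ s.V6, ¬ (l * v = v * l ∧ k * v = v * k) ∧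
        ¬ (l * (u * v) = u * v * l ∧ k * (u * v) = u * v * k) ∧ ∃ w ∈ s.V6, ¬ (l * w = w * l ∧ k * w = w * k) ∧
        ¬ (l * (u * w) = u * w * l ∧ k * (u * w) = u * w * k) ∧ ¬ (l * (v * w) = v * w * l ∧ k * (v * w) = v * w * k) ∧
        ¬ (l * (u * (v * w)) = u * (v * w) * l ∧ k * (u * (v * w)) = u * (v * w) * k)) :=
    s.hL.decide s.rep (by decide +kernel)
  obtain ⟨k1, k2, k3⟩ := k0
  have VW := s.les.2.2.2.2.2.1
  have V2 : ∀ v ∈ s.V6, v * v = 1 := fun v hv => s.W_sq (VW hv)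
  have cm : ∀ x ∈ B', ∀ y ∈ B', x * y = y * x := fun x hx y hy => comm_of_sq2 h2 hx hy
  have key : ∀ v ∈ s.V6, 16 < Nat.card (B' ⊓ centralizer {s.t * v} : Subgroup G) ∧
      B' ⊓ centralizer {s.t * v} ≤ 𝐍[s.W] ∧
      ∀ e ∈ B', e * (s.t * v) * e⁻¹ * (s.t * v) ∈ B' ⊓ centralizer {s.t * v} := fun v hv => by
    have hw := mul_mem s.tW (VW hv)
    obtain ⟨M, m1, m2, m3⟩ := invol_act h2 (s.W_sq hw) (hn hw)
    refine ⟨?_, (s.cent_norm h2 hn (c1a_D h hv) hw fun k => hD _ k (c1a_D h hv)).1,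
      fun e he => m1 ((m2 _).2 ⟨e, he, rfl⟩)⟩
    have := card_le_of_le m1
    by_contra hh
    have := Nat.mul_le_mul (this.trans (not_lt.1 hh)) (not_lt.1 hh)
    omega
  have small : ∀ c ∈ B', ∀ l, s.C1aAc c l → l ≠ 1 → Nat.card (B' ⊓ s.V6 : Subgroup G) ≤ 16 := fun c hc l hl l1 => by
    obtain ⟨u, hu, a1, v, hv, a2, a3⟩ := k1 l hl.1 l1
    have := four_mul_card_le (A := B' ⊓ s.V6) inf_le_right V2 hu hv (fun k => a1 (hl.fix k.2 (cm _ hc _ k.1)))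
      (fun k => a2 (hl.fix k.2 (cm _ hc _ k.1))) fun k => a3 (hl.fix k.2 (cm _ hc _ k.1))
    rw [s.gV6.2] at this
    omega
  by_cases hW : ∀ v ∈ s.V6, B' ⊓ centralizer {s.t * v} ≤ s.W
  · have hN : B' ≤ 𝐍[s.W] := fun e he => mem_norm_of_cj_le (cj_le_iff.2 fun w hw => by
      have a : ∀ v ∈ s.V6, e * (s.t * v) * e⁻¹ ∈ s.W := fun v hv =>
        (mul_mem_cancel_right (mul_mem s.tW (VW hv))).1 (hW v hv ((key v hv).2.2 e he))
      have a1 := a 1 (one_mem _)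
      rw [mul_one] at a1
      rcases s.memW.1 hw with k | k
      · have := a w k
        rw [← conj_mul] at this
        exact (mul_mem_cancel_left a1).1 this
      · have := a _ k
        rwa [← mul_assoc s.t, s.tt, one_mul] at this)
    refine c1a_le h h2 hD hc fun e he => ⟨?_, hN he⟩
    obtain ⟨l, hl⟩ := c1a_act h (hN he)
    obtain rfl : l = 1 := by
      by_contra l1
      have a1 := small e he l hl l1
      have a2 := card_le_of_le (show B' ⊓ centralizer {s.t * 1} ≤ B' ⊓ s.V6 from fun x hx =>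
        ⟨hx.1, c1a_V h h2 hD hx.1 (hW 1 (one_mem _) hx)⟩)
      have := (key 1 (one_mem _)).1
      omega
    exact mem_cent.2 fun u hu => (hl.cent u hu).symm
  exfalso
  push Not at hW
  obtain ⟨v1, hv1, hW⟩ := hW
  obtain ⟨c, hc0, hcW⟩ := SetLike.not_le_iff_exists.1 hW
  obtain ⟨l, hl⟩ := c1a_act h ((key v1 hv1).2.1 hc0)
  have ec := mem_centralizer_singleton_iff.1 hc0.2
  have l1 : l ≠ 1 := fun e => hcW ((e ▸ hl).memW hv1 ec)
  have l2 := hl.sq (h2 c hc0.1)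
  obtain ⟨v, hv, n1, n2⟩ := k2 l hl.1 l1 l2
  have hv' := mul_mem hv1 hv
  obtain ⟨b1, b2, -⟩ := key _ hv'
  have hle : B' ⊓ s.V6 ≤ B' ⊓ centralizer {s.t * (v1 * v)} := fun x hx =>
    ⟨hx.1, mem_centralizer_singleton_iff.2 (s.W_comm (VW hx.2) (mul_mem s.tW (VW hv')))⟩
  have one : ∀ x ∈ B' ⊓ centralizer {s.t * (v1 * v)}, s.C1aAc x 1 → x ∈ B' ⊓ s.V6 := fun x hx k =>
    ⟨hx.1, c1a_V h h2 hD hx.1 (k.memW hv' (mem_centralizer_singleton_iff.1 hx.2))⟩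
  have no : ∀ x ∈ B' ⊓ centralizer {s.t * (v1 * v)}, ¬ s.C1aAc x l := fun x hx k => by
    have a1 := hl.mul k
    rw [l2] at a1
    have hu := c1a_conj hl.1 hv
    have a2 : c * x ∈ s.Φ (l * v * l⁻¹ * v) := by
      refine ⟨a1.cent, ?_⟩
      have e1 : s.t = s.t * (v1 * v) * (v * v1) := by
        rw [mul_assoc, mul_assoc, ← mul_assoc v, V2 v hv, one_mul, V2 v1 hv1, mul_one]
      calc c * x * s.t * (c * x)⁻¹ = c * x * (s.t * (v1 * v)) * (c * x)⁻¹ * (c * x * (v * v1) * (c * x)⁻¹) := by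
            rw [conj_mul, ← e1]
        _ = c * (s.t * v1) * c⁻¹ * (c * v * c⁻¹) * (v * v1) := by
            rw [a1.cent _ (mul_mem hv hv1), mul_inv_cancel_right, mul_assoc c x,
              mem_centralizer_singleton_iff.1 hx.2]
            group
        _ = s.t * (v1 * ((l * v * l⁻¹ * v) * v1)) := by
            rw [ec, mul_inv_cancel_right, hl.2 v hv]; simp only [mul_assoc]
        _ = _ := by rw [s.W_comm (VW (mul_mem hu hv)) (VW hv1), ← mul_assoc v1, V2 v1 hv1, one_mul]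
    exact (c1a_tau h a2 (mul_mem hu hv) (h2 _ (mul_mem hc0.1 hx.1))).elim n1 n2
  have s1 := small c hc0.1 l hl l1
  obtain ⟨c1, hc1, hc1'⟩ := SetLike.not_le_iff_exists.1
    (show ¬ B' ⊓ centralizer {s.t * (v1 * v)} ≤ B' ⊓ s.V6 from fun k => by have := card_le_of_le k; omega)
  obtain ⟨k, hk⟩ := c1a_act h (b2 hc1)
  obtain ⟨a0, u1, hu1, a1, u2, hu2, a2, a3, u3, hu3, a4, a5, a6, a7⟩ := k3 l hl.1 l1 l2 k hk.1
    (fun e => hc1' (one c1 hc1 (e ▸ hk))) (hk.sq (h2 _ hc1.1)) (fun e => no c1 hc1 (e ▸ hk))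
    (hl.comm hk (cm _ hc0.1 _ hc1.1))
  have f : ∀ x ∈ B' ⊓ s.V6, l * x = x * l ∧ k * x = x * k := fun x hx =>
    ⟨hl.fix hx.2 (cm _ hc0.1 _ hx.1), hk.fix hx.2 (cm _ hc1.1 _ hx.1)⟩
  have s2 := eight_mul_card_le (A := B' ⊓ s.V6) inf_le_right V2 hu1 hu2 hu3 (fun k => a1 (f _ k))
    (fun k => a2 (f _ k)) (fun k => a3 (f _ k)) (fun k => a4 (f _ k)) (fun k => a5 (f _ k)) (fun k => a6 (f _ k))
    fun k => a7 (f _ k)
  rw [s.gV6.2] at s2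
  obtain ⟨A, -, d1, d2⟩ := adjoin hle (fun x hx => h2 x hx.1) hc1 hc1'
  obtain ⟨c2, hc2, hc2'⟩ := SetLike.not_le_iff_exists.1
    (show ¬ B' ⊓ centralizer {s.t * (v1 * v)} ≤ A from fun k => by have := card_le_of_le k; omega)
  obtain ⟨j, hj⟩ := c1a_act h (b2 hc2)
  rcases a0 j hj.1 (hj.sq (h2 _ hc2.1)) (hl.comm hj (cm _ hc0.1 _ hc2.1)) (hk.comm hj (cm _ hc1.1 _ hc2.1)) with
    e | e | e | e
  · exact hc2' ((d2 _).2 (Or.inl (one c2 hc2 (e ▸ hj))))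
  · exact no c2 hc2 (e ▸ hj)
  · exact hc2' ((d2 _).2 (Or.inr (one _ (mul_mem hc1 hc2) (e ▸ hk.mul hj))))
  · exact no _ (mul_mem hc1 hc2) (e ▸ hk.mul hj)

end

omit h

variable (s)

theorem sev_can {B : Subgroup G} (h : s.Sev B) : ∀ g, cj(g, s.W) ≤ 𝐍[B] → g ∈ 𝐍[B] := fun g hg => by
  refine inv_mem_iff.1 (mem_norm_of_cj_le (c1a_main h ?_ ?_ ?_ ?_))
  · rintro _ ⟨e, he, rfl⟩
    rw [← map_mul, h.big.sq e he, map_one]
  · rintro _ ⟨e, he, rfl⟩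
    exact s.big_nD h.big le_rfl he g⁻¹
  · rw [card_cj, h.big.card, s.gA3.2]
  · rw [← cj_norm]
    exact cj_le_iff_le_inv.1 hg

end Cfg

end Cfsg.Agent.SF6
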