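import Mathlib
import Cfsg.Agent.SF6.Phi

set_option autoImplicit false
set_option linter.unusedSectionVars false
set_option maxRecDepth 100000
set_option synthInstance.maxSize 100000
set_option synthInstance.maxHeartbeats 1000000

namespace Cfsg.Agent.SF6

open Cfsg Cfsg.Agent.Rec Cfsg.Agent.Spor Cfsg.Agent.Loc.Mss Subgroup
open scoped commutatorElement

variable {G : Type*} [Group G] [Finite G]

namespace Pre

variable (s : Pre G)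

theorem c1q_mem : s.r ∈ s.P3 ∧ s.c ∈ s.P3 ∧ s.d ∈ s.P3 ∧ s.m ∈ s.P3 ∧ s.n ∈ s.P3 ∧ s.y ∈ s.A3 ∧ s.a ∈ s.A3 ∧
    s.b ∈ s.A3 ∧ s.x1 ∈ s.Pts ∧ s.x2 ∈ s.Pts ∧ s.x3 ∈ s.Pts ∧ s.x12 ∈ s.Pts ∧ s.x13 ∈ s.Pts ∧ s.x23 ∈ s.Pts ∧
    s.y ≠ 1 ∧ s.x1 ∈ s.ZU := s.hL.decide s.rep (by decide +kernel)

theorem c1q_ne : ∀ p ∈ s.Pts, p ≠ 1 := s.hL.decide s.rep (by decide +kernel)

theorem c1q_l : ∀ p ∈ s.Pts, ∀ q ∈ s.Pts, ∀ u ∈ s.Pts, p ≠ q → p ≠ u → q ≠ u → p * q * u ∉ s.A3 →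
    ∃ l ∈ s.L3, l * s.x1 * l⁻¹ = p ∧ l * s.x2 * l⁻¹ = q ∧ l * s.x3 * l⁻¹ = u := s.hL.decide s.rep (by decide +kernel)

theorem c1q_ind : s.x1 ≠ s.x2 ∧ s.x1 ≠ s.x3 ∧ s.x2 ≠ s.x3 ∧ s.x1 * s.x2 * s.x3 ∉ s.A3 ∧
    s.y = s.x1 * s.x2 * s.x12 ∧ s.a = s.x1 * s.x3 * s.x13 ∧ s.b = s.x2 * s.x3 * s.x23 ∧
    (∀ p ∈ s.Pts, s.x1 * s.x2 * p ∈ s.A3 → p = s.x12) ∧ (∀ p ∈ s.Pts, s.x1 * s.x3 * p ∈ s.A3 → p = s.x13) ∧
    (∀ p ∈ s.Pts, s.x2 * s.x3 * p ∈ s.A3 → p = s.x23) ∧ (∀ l ∈ s.L3, ∀ p ∈ s.Pts, l⁻¹ * p * l ∈ s.Pts) :=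
  s.hL.decide s.rep (by decide +kernel)

theorem c1q_fix : s.r * s.x1 * s.r⁻¹ = s.x1 ∧ s.c * s.x1 * s.c⁻¹ = s.x1 ∧ s.d * s.x1 * s.d⁻¹ = s.x1 ∧
    s.m * s.x1 * s.m⁻¹ = s.x1 ∧ s.r * s.c * s.x1 * (s.r * s.c)⁻¹ = s.x1 ∧ s.d * s.b * s.d⁻¹ = s.b ∧
    s.m * s.b * s.m⁻¹ = s.b ∧ s.n * s.b * s.n⁻¹ = s.b ∧ s.n * s.x1 * s.n⁻¹ = s.x12 ∧
    s.r * s.n * s.r * s.x1 * (s.r * s.n * s.r)⁻¹ = s.x2 ∧
    s.r * s.n * s.r * (s.b * (s.r * s.b * s.r⁻¹)) * (s.r * s.n * s.r)⁻¹ = s.b ∧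
    s.b * (s.r * s.b * s.r⁻¹) * (s.c * s.b * s.c⁻¹) * (s.r * s.c * s.b * (s.r * s.c)⁻¹) = 1 ∧
    s.x1 * s.x2 = s.x12 * s.y ∧ s.x12 ≠ s.x1 ∧ s.x12 ≠ s.x1 * s.b ∧ s.x1 * s.x1 = 1 :=
  s.hL.decide s.rep (by decide +kernel)

theorem c1q_nu : ∀ v ∈ s.V6, (v = s.d * v * s.d⁻¹ ∨ v = s.d * v * s.d⁻¹ * s.b) →
    (v = s.m * v * s.m⁻¹ ∨ v = s.m * v * s.m⁻¹ * s.b) →
    (v = 1 ∨ v = s.x1) ∨ (v * s.b = 1 ∨ v * s.b = s.x1) := s.hL.decide s.rep (by decide +kernel)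

theorem c1q_four : ∀ X ∈ s.ZU, ∀ u ∈ s.A3, ∀ v ∈ s.A3, ∀ w ∈ s.A3, (u = 1 ∨ u = s.r * s.b * s.r⁻¹) →
    (v = 1 ∨ v = s.c * s.b * s.c⁻¹) → (w = 1 ∨ w = s.r * s.c * s.b * (s.r * s.c)⁻¹) →
    X * (X * u) * (X * v) * (X * w) = 1 → u = 1 ∧ v = 1 ∧ w = 1 := s.hL.decide s.rep (by decide +kernel)

theorem c1q_A3 : ∀ v ∈ s.A3, v = 1 ∨ v = s.b ∨ v = s.r * s.b * s.r⁻¹ ∨ v = s.c * s.b * s.c⁻¹ ∨
    v = s.r * s.c * s.b * (s.r * s.c)⁻¹ ∨ v = s.b * (s.r * s.b * s.r⁻¹) ∨ v = s.b * (s.c * s.b * s.c⁻¹) ∨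
    v = s.b * (s.r * s.c * s.b * (s.r * s.c)⁻¹) := s.hL.decide s.rep (by decide +kernel)

/-- A candidate for the element `q`. -/
structure C1Gd (B : Subgroup G) (q p : G) : Prop where
  cV : q ∈ 𝐂[s.V6]
  nB : q ∈ 𝐍[B]
  nE : q ∈ 𝐍[s.E]
  ph : q * s.t * q⁻¹ ∈ s.Φ p
  cB : s.t * (q * s.t * q⁻¹) ∈ 𝐂[B]

/-- The action of `q` on the elements of `B` with translation `v`. -/
def C1Nu (B : Subgroup G) (q v ν : G) : Prop := ∀ z ∈ B, z ∈ s.Φ v → q * z * q⁻¹ = z * ν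

end Pre

namespace Cfg

variable (s : Cfg G) {B : Subgroup G} {q q' p v v' ν ν' e z l : G}

theorem c1q_ti : s.t⁻¹ = s.t := inv_eq_of_mul_eq_one_right s.tt

theorem c1q_tz (hz : z ∈ s.Φ v) (hv : v ∈ s.V6) : s.t * z * s.t⁻¹ = z * v := by
  rw [hz.1 v hv, s.c1q_ti, mul_assoc, mul_inv_eq_iff_eq_mul.1 hz.2, ← mul_assoc, ← mul_assoc, s.tt, one_mul]

theorem c1q_ofz (hc : ∀ u ∈ s.V6, z * u = u * z) (hv : v ∈ s.V6) (h : s.t * z * s.t⁻¹ = z * v) : z ∈ s.Φ v := by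
  refine ⟨hc, ?_⟩
  rw [hc v hv, s.c1q_ti] at h
  rw [mul_inv_eq_iff_eq_mul, mul_assoc, ← h, ← mul_assoc, ← mul_assoc, s.tt, one_mul]

theorem c1q_vv (hv : v ∈ s.V6) : v * v = 1 := s.W_sq (s.les.2.2.2.2.2.1 hv)

theorem c1q_P3E : s.P3 ≤ 𝐍[s.E] := norm_inf (norm_cent s.P3_norm.1) (norm_norm s.P3_norm.2.1)

theorem c1q_tE : s.t ∈ s.E := s.Φ_E (s.Φ_one.2 s.tW) (one_mem _)

variable {s} (h : s.Sev B)
include h

theorem c1q_BC : B ≤ 𝐂[B] := fun _ ha => mem_cent.2 fun _ hb => s.big_comm h.big hb ha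

theorem c1q_tN : s.t ∈ 𝐍[B] := s.big_T h.big s.les.2.2.2.1 (s.les.2.2.2.2.2.2.1 s.tW)

theorem c1q_WC (hw : e ∈ s.W) (hc : e ∈ 𝐂[B]) : e ∈ s.V6 := by
  refine (s.memW.1 hw).resolve_right fun m => ?_
  obtain ⟨z, hz, zy⟩ := h.big.onto _ s.c1q_mem.2.2.2.2.2.1
  have : s.t ∈ 𝐂[B] := (mul_mem_cancel_right hc).1 (c1q_BC h (h.big.le m))
  have e2 := zy.2
  rw [mem_cent.1 this z hz, mul_inv_cancel_right] at e2
  exact s.c1q_mem.2.2.2.2.2.2.2.2.2.2.2.2.2.2.1 (left_eq_mul.1 e2)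

theorem c1q_diff (hv : v ∈ s.V6) (he : e ∈ s.Φ v) (hz : z ∈ s.Φ v) (c1 : e ∈ 𝐂[B]) (c2 : z ∈ 𝐂[B]) :
    ∃ u ∈ s.V6, z = e * u := by
  have := s.Φ_mul (s.Φ_inv he hv) hz hv
  rw [s.c1q_vv hv] at this
  exact ⟨_, c1q_WC h (s.Φ_one.1 this) (mul_mem (inv_mem c1) c2), by group⟩

theorem c1q_A (he : e ∈ s.E) (hc : e ∈ 𝐂[B]) (h2 : e * e ≠ 1) : e * e ∈ s.Pts ∧ ∃ u ∈ s.A3, e ∈ s.Φ (e * e * u) := by
  obtain ⟨v, hv, ev⟩ := s.E_Φ he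
  rcases s.V6_eq hv with m | ⟨p, hp, u, hu, rfl⟩
  · obtain ⟨z, hz, zv⟩ := h.big.onto v m
    obtain ⟨u, hu, rfl⟩ := c1q_diff h hv zv ev (c1q_BC h hz) hc
    exact absurd (h.big.sq _ (mul_mem hz (h.big.le hu))) h2
  · rw [h.sq p hp u hu e ev hc]
    exact ⟨hp, u, hu, ev⟩

theorem c1q_inv (hp : p ∈ s.Pts) (hv : v ∈ s.A3) (he : e ∈ s.Φ (p * v)) (h2 : e * e = 1) : v = 1 := by
  have m : p * v ∈ s.V6 := mul_mem (s.pt_eq hp).1 (s.les.2.2.2.1 hv)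
  obtain ⟨k, hk, kc⟩ := h.onto _ m
  have kk := h.sq p hp v hv k hk kc
  rcases s.Φ_diff hk he m with ⟨u, hu, rfl⟩ | ⟨u, hu, rfl⟩
  · rw [s.Φ_V_sq hk hu, kk] at h2
    exact absurd h2 (s.c1q_ne p hp)
  · rw [s.Φ_V_sq (s.Φ_W hk m s.tW).2 hu, s.Φ_t_sq hk m, kk] at h2
    have : v = p⁻¹ * (p * v * p) * p⁻¹ := by group
    rw [this, h2, mul_one, ← mul_inv_rev, s.c1q_vv (s.pt_eq hp).1, inv_one]

theorem c1q_act (hk : s.t * e ∈ 𝐂[B]) (hz : z ∈ B) : e * z * e⁻¹ = s.t * z * s.t⁻¹ := by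
  have : e * z * e⁻¹ = s.t⁻¹ * (s.t * e * z * (s.t * e)⁻¹) * s.t := by group
  rw [this, ← mem_cent.1 hk z hz, mul_inv_cancel_right, s.c1q_ti]

theorem c1q_exists (g : s.C1Gd B q p) (hv : v ∈ s.A3) : ∃ ν ∈ s.V6, s.C1Nu B q v ν := by
  have hv' := s.les.2.2.2.1 hv
  obtain ⟨z, hz, zv⟩ := h.big.onto v hv
  have m := conj_mem_of_norm g.nB hz
  have m2 : q * z * q⁻¹ ∈ s.Φ v := s.c1q_ofz (fun u hu => s.big_comm h.big m (h.big.le hu)) hv' (by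
    rw [← c1q_act h g.cB m]
    calc _ = q * (s.t * z * s.t⁻¹) * q⁻¹ := by group
      _ = _ := by rw [s.c1q_tz zv hv', ← mul_assoc, mul_assoc _ v, mem_cent.1 (inv_mem g.cV) v hv', mul_assoc, mul_assoc,
        mul_assoc])
  obtain ⟨ν, hν, e⟩ := c1q_diff h hv' zv m2 (c1q_BC h hz) (c1q_BC h m)
  refine ⟨ν, hν, fun w hw wv => ?_⟩
  obtain ⟨u, hu, rfl⟩ := c1q_diff h hv' zv wv (c1q_BC h hz) (c1q_BC h hw)
  rw [← conj_mul, e, ← mem_cent.1 g.cV u hu, mul_inv_cancel_right, mul_assoc, mul_assoc,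
    s.big_comm h.big (h.big.le hν) (h.big.le hu)]

theorem c1q_uniq (hv : v ∈ s.A3) (n1 : s.C1Nu B q v ν) (n2 : s.C1Nu B q v ν') : ν = ν' := by
  obtain ⟨z, hz, zv⟩ := h.big.onto v hv
  exact mul_left_cancel ((n1 z hz zv).symm.trans (n2 z hz zv))

theorem c1q_one (g : s.C1Gd B q p) : s.C1Nu B q 1 1 := fun z hz z1 => by
  rw [← mem_cent.1 g.cV z (c1q_WC h (s.Φ_one.1 z1) (c1q_BC h hz)), mul_inv_cancel_right, mul_one]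

theorem c1q_mul (hv : v ∈ s.A3) (hv' : v' ∈ s.A3) (hν : ν ∈ s.V6) (n1 : s.C1Nu B q v ν) (n2 : s.C1Nu B q v' ν') :
    s.C1Nu B q (v * v') (ν * ν') := fun z hz zv => by
  obtain ⟨w, hw, wv⟩ := h.big.onto v hv
  have m := s.Φ_mul wv zv (s.les.2.2.2.1 (mul_mem hv hv'))
  rw [← mul_assoc, s.c1q_vv (s.les.2.2.2.1 hv), one_mul] at m
  have e : z = w * (w * z) := by rw [← mul_assoc, h.big.sq w hw, one_mul]
  conv_lhs => rw [e, ← conj_mul, n1 w hw wv, n2 _ (mul_mem hw hz) m, mul_assoc, ← mul_assoc ν,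
    s.big_comm h.big (h.big.le hν) (mul_mem hw hz), mul_assoc, ← mul_assoc, ← e]

theorem c1q_cjn (hl : l ∈ s.P3) (n : s.C1Nu B q v ν) :
    s.C1Nu B (l * q * l⁻¹) (l * v * l⁻¹) (l * ν * l⁻¹) := fun z hz zv => by
  have m := s.Φ_conj zv (inv_mem hl)
  have := n _ (conj_mem_of_norm' (h.big.norm hl) hz) (by simpa [mul_assoc] using m)
  calc _ = l * (q * (l⁻¹ * z * l) * q⁻¹) * l⁻¹ := by group
    _ = _ := by rw [this]; group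

theorem c1q_cjg (hl : l ∈ s.P3) (g : s.C1Gd B q p) : s.C1Gd B (l * q * l⁻¹) (l * p * l⁻¹) := by
  have lt : l * s.t * l⁻¹ = s.t := mul_inv_eq_iff_eq_mul.2 (s.t_comm (s.P3_le hl))
  have e : l * q * l⁻¹ * s.t * (l * q * l⁻¹)⁻¹ = l * (q * s.t * q⁻¹) * l⁻¹ := by
    conv_lhs => rw [← lt]
    group
  have n := h.big.norm hl
  refine ⟨conj_mem_of_norm (norm_cent s.P3_norm.1 hl) g.cV, mul_mem (mul_mem n g.nB) (inv_mem n),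
    mul_mem (mul_mem (s.c1q_P3E hl) g.nE) (inv_mem (s.c1q_P3E hl)), e ▸ s.Φ_conj g.ph hl, ?_⟩
  have := conj_mem_of_norm (norm_cent h.big.norm hl) g.cB
  rwa [← conj_mul, lt, ← e] at this

theorem c1q_tg (g : s.C1Gd B q p) : s.C1Gd B (q * s.t) p := by
  have e : q * s.t * s.t * (q * s.t)⁻¹ = q * s.t * q⁻¹ := by group
  exact ⟨mul_mem g.cV s.c1q_tE.1, mul_mem g.nB (c1q_tN h), mul_mem g.nE (le_normalizer s.c1q_tE), e ▸ g.ph, e ▸ g.cB⟩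

omit h in
theorem c1q_tn (g : s.C1Gd B q p) (hv : v ∈ s.V6) (n : s.C1Nu B q v ν) : s.C1Nu B (q * s.t) v (ν * v) :=
  fun z hz zv => by
    calc _ = q * (s.t * z * s.t⁻¹) * q⁻¹ := by group
      _ = _ := by rw [s.c1q_tz zv hv, ← conj_mul, n z hz zv, ← mem_cent.1 g.cV v hv, mul_inv_cancel_right, mul_assoc]

theorem c1q_same (hp : p ∈ s.Pts) (g : s.C1Gd B q p) (g' : s.C1Gd B q' p) (hv : v ∈ s.V6) (n : s.C1Nu B q' v ν) :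
    s.C1Nu B q v ν ∨ s.C1Nu B q v (ν * v) := by
  obtain ⟨u, hu, e⟩ := s.Φ_same g'.ph g.ph (s.pt_eq hp).1 (s.c1q_ne p hp) (by rw [conj_mul, conj_mul, s.tt]; simp)
  have m : q'⁻¹ * q ∈ s.Φ u := ⟨fun w hw => (mem_cent.1 (mul_mem (inv_mem g'.cV) g.cV) w hw).symm, by
    calc _ = q'⁻¹ * (q * s.t * q⁻¹) * q' := by group
      _ = s.t * (q'⁻¹ * (u * q')) := by rw [e]; group
      _ = _ := by rw [mem_cent.1 g'.cV u hu, inv_mul_cancel_left]⟩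
  obtain ⟨k, hk, kc⟩ := h.onto u hu
  have key : ∀ w ∈ s.V6, ∀ z ∈ B, k * w * z * (k * w)⁻¹ = z := fun w hw z hz => by
    rw [← mem_cent.1 (mul_mem kc (c1q_BC h (h.big.le hw))) z hz, mul_inv_cancel_right]
  rcases s.Φ_diff hk m hu with ⟨w, hw, ew⟩ | ⟨w, hw, ew⟩
  · refine .inl fun z hz zv => ?_
    rw [eq_mul_of_inv_mul_eq ew, ← n z hz zv]
    conv_rhs => rw [← key w hw z hz]
    group
  · refine .inr fun z hz zv => ?_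
    rw [eq_mul_of_inv_mul_eq ew, ← c1q_tn g' hv n z hz zv]
    conv_rhs => rw [← key w hw z hz]
    group

theorem c1q_gd {g : G} (hg : g ∈ 𝐍[B]) (h1 : g * s.t * g⁻¹ ∈ s.Φ s.x1) (h2 : s.t * (g * s.t * g⁻¹) ∈ 𝐂[B]) :
    ∃ q, s.C1Gd B q s.x1 := by
  obtain ⟨-, -, -, -, -, my, ma, mb, p1, p2, p3, p12, p13, p23, -⟩ := s.c1q_mem
  have nV : g ∈ 𝐍[s.V6] := mem_norm_of_cj_le (cj_le_iff.2 fun v hv => by
    have m := conj_mem_of_norm hg (h.big.le hv)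
    refine (s.big_cent h.big m).1 (mul_inv_eq_iff_eq_mul.1 ?_).symm
    rw [← c1q_act h h2 m]
    calc _ = g * (s.t * v * s.t⁻¹) * g⁻¹ := by group
      _ = _ := by rw [← s.t_comm (s.V6_le hv), mul_inv_cancel_right])
  have tE := s.Φ_E h1 (s.pt_eq p1).1
  have nE : g ∈ 𝐍[s.E] := (inv_mem_iff (H := 𝐍[s.E])).1 (mem_norm_of_cj_le (cj_le_iff.2 fun e he => by
    have m := conj_mem_of_norm' nV (s.E_comm he tE)
    refine s.Φ_E ⟨fun u hu => (mem_cent.1 (conj_mem_of_norm (inv_mem (norm_cent (zpowers_le.2 nV) (mem_zpowers g)))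
      he.1) u hu).symm, ?_⟩ m
    rw [← s.t_comm (s.V6_le m)]
    group))
  have nA : g ∈ 𝐍[s.A3] := mem_norm_of_cj_le (cj_le_iff.2 fun v hv => by
    obtain ⟨z, hz, zv⟩ := h.big.onto v hv
    have m := conj_mem_of_norm hg hz
    obtain ⟨w, hw, zw⟩ := h.big.tau _ m
    have e := s.c1q_tz zw (s.les.2.2.2.1 hw)
    rw [← c1q_act h h2 m] at e
    have e2 : g * v * g⁻¹ = w := by
      refine mul_left_cancel (a := g * z * g⁻¹) ?_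
      rw [← e, conj_mul, ← s.c1q_tz zv (s.les.2.2.2.1 hv)]; group
    exact e2 ▸ hw)
  have nP : ∀ p ∈ s.Pts, g * p * g⁻¹ ∈ s.Pts := fun p hp => by
    obtain ⟨e, ep, ec⟩ := h.onto p (s.pt_eq hp).1
    have ee := h.sq p hp 1 (one_mem _) e (by rwa [mul_one]) ec
    have := (c1q_A h (conj_mem_of_norm nE (s.Φ_E ep (s.pt_eq hp).1))
      (conj_mem_of_norm (norm_cent (zpowers_le.2 hg) (mem_zpowers g)) ec) (by
        rw [conj_mul, ee, Ne, conj_eq_one_iff]; exact s.c1q_ne p hp)).1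
    rwa [conj_mul, ee] at this
  obtain ⟨n12, n13, n23, n123, ey, ea, eb, u12, u13, u23, lP⟩ := s.c1q_ind
  have ci : ∀ u v, g * u * g⁻¹ = g * v * g⁻¹ → u = v := fun u v e => mul_left_cancel (mul_right_cancel e)
  obtain ⟨l, hl, e1, e2, e3⟩ := s.c1q_l _ (nP _ p1) _ (nP _ p2) _ (nP _ p3) (mt (ci _ _) n12) (mt (ci _ _) n13)
    (mt (ci _ _) n23) fun m => n123 (by simpa [mul_assoc] using conj_mem_of_norm' nA m)
  have l3 := s.les.2.2.1 hl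
  have kA : ∀ v ∈ s.A3, l⁻¹ * g * v * (l⁻¹ * g)⁻¹ ∈ s.A3 := fun v =>
    conj_mem_of_norm (mul_mem (inv_mem (s.P3_norm.2.2 l3)) nA)
  have kP : ∀ p ∈ s.Pts, l⁻¹ * g * p * (l⁻¹ * g)⁻¹ ∈ s.Pts := fun p hp => by
    simpa [mul_assoc] using lP l hl _ (nP p hp)
  have fx : ∀ u, l * u * l⁻¹ = g * u * g⁻¹ → l⁻¹ * g * u * (l⁻¹ * g)⁻¹ = u := fun u e => by
    calc _ = l⁻¹ * (g * u * g⁻¹) * l := by group
      _ = _ := by rw [← e]; group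
  replace e1 := fx _ e1
  replace e2 := fx _ e2
  replace e3 := fx _ e3
  have cV : l⁻¹ * g ∈ 𝐂[s.V6] := by
    generalize l⁻¹ * g = k at kA kP e1 e2 e3
    have f1 : k * s.y * k⁻¹ = s.y := by
      have := kA _ my
      rw [ey, ← conj_mul, ← conj_mul, e1, e2] at this ⊢
      rw [u12 _ (kP _ p12) this]
    have f2 : k * s.a * k⁻¹ = s.a := by
      have := kA _ ma
      rw [ea, ← conj_mul, ← conj_mul, e1, e3] at this ⊢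
      rw [u13 _ (kP _ p13) this]
    have f3 : k * s.b * k⁻¹ = s.b := by
      have := kA _ mb
      rw [eb, ← conj_mul, ← conj_mul, e2, e3] at this ⊢
      rw [u23 _ (kP _ p23) this]
    refine mem_cent.2 fun u hu => (commute_clos (g := k) ?_ u hu).symm
    simp only [List.forall_mem_cons, List.not_mem_nil, false_imp_iff, implies_true, and_true]
    exact ⟨mul_inv_eq_iff_eq_mul.1 e1, mul_inv_eq_iff_eq_mul.1 e2, mul_inv_eq_iff_eq_mul.1 e3,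
      mul_inv_eq_iff_eq_mul.1 f1, mul_inv_eq_iff_eq_mul.1 f2, mul_inv_eq_iff_eq_mul.1 f3⟩
  have e : g * l⁻¹ * s.t * (g * l⁻¹)⁻¹ = g * s.t * g⁻¹ := by
    rw [mul_assoc g, s.t_comm (inv_mem (s.L3_le hl))]; group
  refine ⟨g * l⁻¹, ?_, mul_mem hg (inv_mem (h.big.norm l3)), mul_mem nE (inv_mem (s.c1q_P3E l3)), e ▸ h1, e ▸ h2⟩
  simpa [mul_assoc] using conj_mem_of_norm (norm_cent s.P3_norm.1 l3) cV

theorem c1q_prod (g : s.C1Gd B q s.x1) (g' : s.C1Gd B q' s.x2) : s.C1Gd B (q * q') s.x12 := by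
  obtain ⟨-, -, -, -, -, my, -, -, p1, p2, -, p12, -⟩ := s.c1q_mem
  have v2 := (s.pt_eq p2).1
  have k2 := (s.Φ_W g'.ph v2 s.tW).2
  have kk := h.sq _ p2 1 (one_mem _) _ (by rwa [mul_one]) g'.cB
  have kc := conj_mem_of_norm (norm_cent (zpowers_le.2 g.nB) (mem_zpowers q)) g'.cB
  have sq : q * (s.t * (q' * s.t * q'⁻¹)) * q⁻¹ * (q * (s.t * (q' * s.t * q'⁻¹)) * q⁻¹) = s.x2 := by
    rw [conj_mul, kk, ← mem_cent.1 g.cV _ v2, mul_inv_cancel_right]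
  obtain ⟨-, u, hu, ku⟩ := c1q_A h (conj_mem_of_norm g.nE (s.Φ_E k2 v2)) kc (by rw [sq]; exact s.c1q_ne _ p2)
  rw [sq] at ku
  have e : q * q' * s.t * (q * q')⁻¹ = q * s.t * q⁻¹ * (q * (s.t * (q' * s.t * q'⁻¹)) * q⁻¹) := by
    rw [conj_mul, ← mul_assoc s.t, s.tt]; group
  have m := s.Φ_mul g.ph ku (mul_mem v2 (s.les.2.2.2.1 hu))
  rw [← e, ← mul_assoc, s.c1q_fix.2.2.2.2.2.2.2.2.2.2.2.2.1, mul_assoc] at m
  have := c1q_inv h p12 (mul_mem my hu) m (by rw [conj_mul, s.tt]; simp)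
  rw [this, mul_one] at m
  exact ⟨mul_mem g.cV g'.cV, mul_mem g.nB g'.nB, mul_mem g.nE g'.nE, m, by
    rw [e, ← mul_assoc]; exact mul_mem g.cB kc⟩

omit h in
variable (s) in
theorem sev_q {B : Subgroup G} (h : s.Sev B) {g : G} (hg : g ∈ 𝐍[B]) (h1 : g * s.t * g⁻¹ ∈ s.Φ s.x1)
    (h2 : s.t * (g * s.t * g⁻¹) ∈ 𝐂[B]) : ∃ q ∈ 𝐂[B] ⊓ 𝐍[s.E], q * s.t * q⁻¹ ∈ s.Φ s.x1 := by
  obtain ⟨mr, mc, md, mm, mn, -, -, mb, p1, -, -, p12, -, -, -, z1⟩ := s.c1q_mem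
  obtain ⟨fr, fc, fd, fm, frc, bd, bm, bn, n1, s1, sb, four, -, ne1, ne2, xx⟩ := s.c1q_fix
  have AV := s.les.2.2.2.1
  have tr : ∀ {q v ν l}, l ∈ s.P3 → l * s.x1 * l⁻¹ = s.x1 → s.C1Gd B q s.x1 → v ∈ s.A3 → s.C1Nu B q v ν →
      s.C1Nu B q (l * v * l⁻¹) (l * ν * l⁻¹) ∨ s.C1Nu B q (l * v * l⁻¹) (l * ν * l⁻¹ * (l * v * l⁻¹)) :=
    fun hl e g hv n => c1q_same h p1 g (e ▸ c1q_cjg h hl g) (AV (conj_mem_of_norm (s.P3_norm.2.2 hl) hv))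
      (c1q_cjn h hl n)
  obtain ⟨q, X, g, hX, n⟩ : ∃ q X, s.C1Gd B q s.x1 ∧ (X = 1 ∨ X = s.x1) ∧ s.C1Nu B q s.b X := by
    obtain ⟨q, g⟩ := c1q_gd h hg h1 h2
    obtain ⟨ν, hν, n⟩ := c1q_exists h g mb
    have k1 := tr md fd g mb n
    have k2 := tr mm fm g mb n
    rw [bd] at k1
    rw [bm] at k2
    rcases s.c1q_nu ν hν (k1.imp (c1q_uniq h mb n) (c1q_uniq h mb n)) (k2.imp (c1q_uniq h mb n) (c1q_uniq h mb n))
      with e | e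
    exacts [⟨q, ν, g, e, n⟩, ⟨_, _, c1q_tg h g, e, c1q_tn g (AV mb) n⟩]
  have XZ : X ∈ s.ZU := by rcases hX with rfl | rfl; exacts [one_mem _, z1]
  have XV : X ∈ s.V6 := by rcases hX with rfl | rfl; exacts [one_mem _, (s.pt_eq p1).1]
  have XX : X * X = 1 := s.c1q_vv XV
  have ln : ∀ l ∈ s.P3, l * s.x1 * l⁻¹ = s.x1 → l * s.b * l⁻¹ ∈ s.A3 ∧
      ∃ u ∈ s.A3, (u = 1 ∨ u = l * s.b * l⁻¹) ∧ s.C1Nu B q (l * s.b * l⁻¹) (X * u) := fun l hl e => by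
    have m := conj_mem_of_norm (s.P3_norm.2.2 hl) mb
    have eX : l * X * l⁻¹ = X := by rcases hX with rfl | rfl; exacts [by simp, e]
    have k := tr hl e g mb n
    rw [eX] at k
    rcases k with k | k
    exacts [⟨m, 1, one_mem _, .inl rfl, by rwa [mul_one]⟩, ⟨m, _, m, .inr rfl, k⟩]
  obtain ⟨m2, u2, a2, o2, n2⟩ := ln _ mr fr
  obtain ⟨m3, u3, a3, o3, n3⟩ := ln _ mc fc
  obtain ⟨m4, u4, a4, o4, n4⟩ := ln _ (mul_mem mr mc) frc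
  have w2 := mul_mem XV (mul_mem XV (AV a2))
  have all := c1q_mul h (mul_mem (mul_mem mb m2) m3) m4 (mul_mem w2 (mul_mem XV (AV a3)))
    (c1q_mul h (mul_mem mb m2) m3 w2 (c1q_mul h mb m2 XV n n2) n3) n4
  rw [four] at all
  obtain ⟨rfl, rfl, rfl⟩ := s.c1q_four X XZ u2 a2 u3 a3 u4 a4 o2 o3 o4 (c1q_uniq h (one_mem _) all (c1q_one h g))
  rw [mul_one] at n2 n3 n4
  have k2 := c1q_mul h mb m2 XV n n2
  have k3 := c1q_mul h mb m3 XV n n3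
  have k4 := c1q_mul h mb m4 XV n n4
  rw [XX] at k2 k3 k4
  rcases hX with rfl | rfl
  · refine ⟨q, mem_inf.2 ⟨mem_cent.2 fun z hz => ?_, g.nE⟩, g.ph⟩
    obtain ⟨v, hv, zv⟩ := h.big.tau z hz
    have : s.C1Nu B q v 1 := by
      rcases s.c1q_A3 v hv with rfl | rfl | rfl | rfl | rfl | rfl | rfl | rfl
      exacts [c1q_one h g, n, n2, n3, n4, k2, k3, k4]
    have := this z hz zv
    rw [mul_one] at this
    exact (mul_inv_eq_iff_eq_mul.1 this).symm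
  · exfalso
    have ms := mul_mem (mul_mem mr mn) mr
    have g2 := c1q_cjg h ms g
    have j2 := c1q_cjn h ms k2
    have g12 := c1q_cjg h mn g
    have j12 := c1q_cjn h mn n
    rw [s1] at g2
    rw [sb, mul_one, mul_inv_cancel] at j2
    rw [n1] at g12
    rw [n1, bn] at j12
    generalize s.r * s.n * s.r * q * (s.r * s.n * s.r)⁻¹ = q2 at g2 j2
    have j : s.C1Nu B (q * q2) s.b s.x1 := fun z hz zv => by
      rw [← n z hz zv]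
      conv_rhs => rw [← mul_one z, ← j2 z hz zv]
      group
    rcases c1q_same h p12 g12 (c1q_prod h g g2) (AV mb) j with k | k
    exacts [ne1 (c1q_uniq h mb j12 k), ne2 (c1q_uniq h mb j12 k)]

end Cfg

end Cfsg.Agent.SF6
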