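import Mathlib
import Cfsg.Agent.SF6.Phi

set_option autoImplicit false
set_option linter.unusedSectionVars false
set_option maxRecDepth 100000
set_option synthInstance.maxSize 100000
set_option synthInstance.maxHeartbeats 1000000

namespace Cfsg.Agent.SF6

open Cfsg Cfsg.Agent.Rec Cfsg.Agent.Spor Cfsg.Agent.Loc.Mss Subgroup
open scoped commutatorElement

variable {G : Type*} [Group G] [Finite G]

namespace Cfg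

variable (s : Cfg G)

theorem CE_VW : s.V6 ≤ s.W := s.les.2.2.2.2.2.1
theorem CE_AV : s.A3 ≤ s.V6 := s.les.2.2.2.1
theorem CE_Vs {u : G} (hu : u ∈ s.V6) : u * u = 1 := s.W_sq (s.CE_VW hu)
theorem CE_tE : s.t ∈ s.E := s.Φ_E (s.Φ_one.2 s.tW) (one_mem _)
theorem CE_VE {u : G} (hu : u ∈ s.V6) : u ∈ s.E := s.Φ_E (s.Φ_one.2 (s.CE_VW hu)) (one_mem _)
theorem CE_c {e u : G} (he : e ∈ s.E) (hu : u ∈ s.V6) : e * u = u * e := (mem_cent.1 he.1 u hu).symm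
theorem CE_V {e e' : G} (he : e ∈ s.E) (he' : e' ∈ s.E) : ⁅e, e'⁆ ∈ s.V6 := s.E_comm he he'

theorem CE_r {e e' e'' : G} (he : e ∈ s.E) (he' : e' ∈ s.E) (he'' : e'' ∈ s.E) :
    ⁅e, e' * e''⁆ = ⁅e, e'⁆ * ⁅e, e''⁆ := by
  rw [show ⁅e, e' * e''⁆ = ⁅e, e'⁆ * (e' * ⁅e, e''⁆ * e'⁻¹) by group, s.CE_c he' (s.CE_V he he''),
    mul_inv_cancel_right]

theorem CE_symm {e e' : G} (he : e ∈ s.E) (he' : e' ∈ s.E) : ⁅e, e'⁆ = ⁅e', e⁆ := by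
  rw [← commutatorElement_inv e', inv_eq_of_mul_eq_one_right (s.CE_Vs (s.CE_V he' he))]

theorem CE_l {e e' e'' : G} (he : e ∈ s.E) (he' : e' ∈ s.E) (he'' : e'' ∈ s.E) :
    ⁅e * e', e''⁆ = ⁅e, e''⁆ * ⁅e', e''⁆ := by
  rw [s.CE_symm (mul_mem he he') he'', s.CE_r he'' he he', s.CE_symm he'' he, s.CE_symm he'' he']

theorem CE_u {e u : G} (he : e ∈ s.E) (hu : u ∈ s.V6) : ⁅e, u⁆ = 1 ∧ ⁅u, e⁆ = 1 :=
  ⟨commutatorElement_eq_one_iff_mul_comm.2 (s.CE_c he hu), commutatorElement_eq_one_iff_mul_comm.2 (s.CE_c he hu).symm⟩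

theorem CE_τ {e v : G} (he : e ∈ s.Φ v) : s.t * (e * s.t * e⁻¹) = v := by
  rw [he.2, ← mul_assoc, s.tt, one_mul]

theorem CE_t {e v : G} (he : e ∈ s.Φ v) (hv : v ∈ s.V6) : ⁅s.t, e⁆ = v ∧ ⁅e, s.t⁆ = v := by
  have : ⁅s.t, e⁆ = v := by
    rw [← s.CE_τ he, commutatorElement_def, inv_eq_of_mul_eq_one_right s.tt]; group
  exact ⟨this, (s.CE_symm (s.Φ_E he hv) s.CE_tE).trans this⟩

theorem CE_sq {e e' : G} (he : e ∈ s.E) (he' : e' ∈ s.E) : e * e' * (e * e') = e * e * (e' * e') * ⁅e, e'⁆ := by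
  rw [s.CE_symm he he', show e * e' * (e * e') = e * (⁅e', e⁆ * (e * e' * e')) by group,
    ← s.CE_c (mul_mem (mul_mem he he') he') (s.CE_V he' he)]
  group

theorem CE_ex {e : G} (he : e ∈ s.Φ s.x1) {p : G} (hp : p ∈ s.Pts) : ∃ g ∈ s.Φ p, g * g = 1 := by
  obtain ⟨-, l, hl, e1⟩ := s.pt_eq hp
  exact s.Φ_invol (e1 ▸ s.Φ_conj he (s.les.2.2.1 hl)) (.inr hp)

theorem CE_ne {p : G} (hp : p ∈ s.Pts) : p ≠ 1 :=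
  (s.hL.decide s.rep (by decide +kernel) : ∀ p ∈ s.Pts, p ≠ 1) p hp

/-- The commutators of the involutions in `Φ p`. -/
def CEβ (i j : ℕ) : Prop := ∀ p ∈ s.Pts, ∀ q ∈ s.Pts, ∀ z ∈ s.Pts, p * q * z ∈ s.A3 →
  ∀ g ∈ s.Φ p, g * g = 1 → ∀ g' ∈ s.Φ q, g' * g' = 1 → ⁅g, g'⁆ = z ^ i * (p * q) ^ j

theorem CE_beta {e : G} (he : e ∈ s.Φ s.x1) : ∃ i < 2, ∃ j < 2, s.CEβ i j := by
  have k : (s.x1 ∈ s.Pts ∧ s.x2 ∈ s.Pts ∧ s.c ∈ s.L3 ∧ s.d ∈ s.L3 ∧ s.r * s.n * s.r ∈ s.L3) ∧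
      (s.c * s.x1 * s.c⁻¹ = s.x1 ∧ s.c * s.x2 * s.c⁻¹ = s.x2 ∧ s.d * s.x1 * s.d⁻¹ = s.x1 ∧
        s.d * s.x2 * s.d⁻¹ = s.x2 ∧ s.r * s.n * s.r * s.x1 * (s.r * s.n * s.r)⁻¹ = s.x2 ∧
        s.r * s.n * s.r * s.x2 * (s.r * s.n * s.r)⁻¹ = s.x1) ∧
      (∀ l ∈ s.L3, l * s.x1 * l⁻¹ ∈ s.Pts ∧ l * s.x2 * l⁻¹ ∈ s.Pts) ∧
      (∀ u ∈ s.V6, u = s.c * u * s.c⁻¹ → u = s.d * u * s.d⁻¹ → u = s.r * s.n * s.r * u * (s.r * s.n * s.r)⁻¹ →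
        u = s.x12 ^ 0 * (s.x1 * s.x2) ^ 0 ∨ u = s.x12 ^ 0 * (s.x1 * s.x2) ^ 1 ∨
        u = s.x12 ^ 1 * (s.x1 * s.x2) ^ 0 ∨ u = s.x12 ^ 1 * (s.x1 * s.x2) ^ 1) ∧
      ∀ p ∈ s.Pts, ∀ q ∈ s.Pts, ∀ z ∈ s.Pts, p * q * z ∈ s.A3 →
        ∃ l ∈ s.L3, l * s.x1 * l⁻¹ = p ∧ l * s.x2 * l⁻¹ = q ∧ l * s.x12 * l⁻¹ = z :=
    s.hL.decide s.rep (by decide +kernel)
  obtain ⟨⟨p1, p2, lc, ld, lsg⟩, ⟨c1, c2, c3, c4, c5, c6⟩, k1, k2, k3⟩ := k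
  obtain ⟨g1, a1, b1⟩ := s.CE_ex he p1
  obtain ⟨g2, a2, b2⟩ := s.CE_ex he p2
  have E1 := s.Φ_E a1 (s.pt_eq p1).1
  have E2 := s.Φ_E a2 (s.pt_eq p2).1
  have h1 : ∀ l ∈ s.L3, ∀ g ∈ s.Φ (l * s.x1 * l⁻¹), g * g = 1 → ∀ g' ∈ s.Φ (l * s.x2 * l⁻¹), g' * g' = 1 →
      ⁅g, g'⁆ = l * ⁅g1, g2⁆ * l⁻¹ := fun l hl g hg e1 g' hg' e2 => by
    have f1 := s.Φ_conj a1 (s.les.2.2.1 hl)
    have f2 := s.Φ_conj a2 (s.les.2.2.1 hl)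
    have v1 := (s.pt_eq (k1 l hl).1).1
    have v2 := (s.pt_eq (k1 l hl).2).1
    obtain ⟨u, hu, rfl⟩ := s.Φ_same f1 hg v1 (s.CE_ne (k1 l hl).1) (by rw [conj_mul, b1, e1]; group)
    obtain ⟨u', hu', rfl⟩ := s.Φ_same f2 hg' v2 (s.CE_ne (k1 l hl).2) (by rw [conj_mul, b2, e2]; group)
    have F1 := s.Φ_E f1 v1
    have F2 := s.Φ_E f2 v2
    rw [s.CE_l F1 (s.CE_VE hu) (mul_mem F2 (s.CE_VE hu')), s.CE_r F1 F2 (s.CE_VE hu'), (s.CE_u F1 hu').1,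
      (s.CE_u (mul_mem F2 (s.CE_VE hu')) hu).2]
    group
  have h2 : ∀ i j, ⁅g1, g2⁆ = s.x12 ^ i * (s.x1 * s.x2) ^ j → s.CEβ i j := fun i j e p hp q hq z hz h => by
    obtain ⟨l, hl, rfl, rfl, rfl⟩ := k3 p hp q hq z hz h
    intro g hg e1 g' hg' e2
    rw [h1 l hl g hg e1 g' hg' e2, e, conj_mul, conj_pow, conj_pow, conj_mul]
  rcases k2 _ (s.CE_V E1 E2) (h1 _ lc g1 (c1.symm ▸ a1) b1 g2 (c2.symm ▸ a2) b2)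
    (h1 _ ld g1 (c3.symm ▸ a1) b1 g2 (c4.symm ▸ a2) b2)
    ((s.CE_symm E1 E2).trans (h1 _ lsg g2 (c5.symm ▸ a2) b2 g1 (c6.symm ▸ a1) b1)) with h | h | h | h
  · exact ⟨0, by omega, 0, by omega, h2 _ _ h⟩
  · exact ⟨0, by omega, 1, by omega, h2 _ _ h⟩
  · exact ⟨1, by omega, 0, by omega, h2 _ _ h⟩
  · exact ⟨1, by omega, 1, by omega, h2 _ _ h⟩

/-- All the involutions commute. -/
theorem CE_twelve {e : G} (he : e ∈ s.Φ s.x1) (hβ : s.CEβ 0 0) : ∃ B', s.Big s.V6 B' := by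
  have k : s.x1 ∈ s.Pts ∧ (∀ p ∈ s.Pts, ∀ q ∈ s.Pts, p = q ∨ ∃ z ∈ s.Pts, p * q * z ∈ s.A3) ∧
      (∀ v ∈ s.V6, v ∈ s.Pts ∨ ∃ p ∈ s.Pts, ∃ q ∈ s.Pts, v = p * q ∨ ∃ z ∈ s.Pts, v = p * q * z) ∧
      ∀ g ∈ s.P3, ∀ p ∈ s.Pts, g * p * g⁻¹ ∈ s.Pts := s.hL.decide s.rep (by decide +kernel)
  obtain ⟨p1, k1, k2, k3⟩ := k
  let S : Set G := {g | g ∈ s.V6 ∨ ∃ p ∈ s.Pts, g ∈ s.Φ p ∧ g * g = 1}
  have hSE : ∀ g ∈ S, g ∈ s.E := by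
    rintro g (h | ⟨p, hp, h, -⟩)
    exacts [s.CE_VE h, s.Φ_E h (s.pt_eq hp).1]
  have hE : closure S ≤ s.E := (closure_le _).2 hSE
  have hc : closure S ≤ centralizer (closure S : Subgroup G) := by
    rw [centralizer_closure]
    refine (closure_le _).2 fun x hx y hy => ?_
    rcases hx with h | ⟨p, hp, h, h2⟩
    · exact s.CE_c (hSE y hy) h
    rcases hy with h' | ⟨q, hq, h', h2'⟩
    · exact (s.CE_c (s.Φ_E h (s.pt_eq hp).1) h').symm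
    rcases k1 q hq p hp with rfl | ⟨z, hz, h3⟩
    · obtain ⟨u, hu, rfl⟩ := s.Φ_same h' h (s.pt_eq hp).1 (s.CE_ne hp) (h2'.trans h2.symm)
      rw [mul_assoc, ← h'.1 u hu]
    · exact commutatorElement_eq_one_iff_mul_comm.1 (by simpa using hβ q hq p hp z hz h3 y h' h2' x h h2)
  have hV : s.V6 ≤ closure S := fun u hu => subset_closure (.inl hu)
  have hp : ∀ p ∈ s.Pts, ∃ g ∈ closure S, g ∈ s.Φ p := fun p hp => by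
    obtain ⟨g, h1, h2⟩ := s.CE_ex he hp
    exact ⟨g, subset_closure (.inr ⟨p, hp, h1, h2⟩), h1⟩
  have hsq : ∀ e ∈ closure S, e * e = 1 := fun e he => by
    induction he using closure_induction with
    | mem x hx =>
      rcases hx with h | ⟨p, -, -, h⟩
      exacts [s.CE_Vs h, h]
    | one => simp
    | mul x y hx hy ix iy =>
      rw [show x * y * (x * y) = x * (y * x) * y by group, hc hx y hy, ← mul_assoc, ix, one_mul, iy]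
    | inv x _ ix => rw [← mul_inv_rev, ix, inv_one]
  have ht : s.t ∉ closure S := fun h => by
    obtain ⟨g, h1, h2⟩ := hp _ p1
    exact s.CE_ne p1 (by rw [← s.CE_τ h2, hc h g h1, mul_inv_cancel_right, s.tt])
  have hon : ∀ v ∈ s.V6, ∃ e ∈ closure S, e ∈ s.Φ v := fun v hv => by
    rcases k2 v hv with h | ⟨p, a, q, b, h⟩
    · exact hp v h
    obtain ⟨g, g1, g2⟩ := hp p a
    obtain ⟨g', g1', g2'⟩ := hp q b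
    rcases h with rfl | ⟨z, c, rfl⟩
    · exact ⟨_, mul_mem g1 g1', s.Φ_mul g2 g2' (s.pt_eq b).1⟩
    · obtain ⟨g'', g1'', g2''⟩ := hp z c
      exact ⟨_, mul_mem (mul_mem g1 g1') g1'', s.Φ_mul (s.Φ_mul g2 g2' (s.pt_eq b).1) g2'' (s.pt_eq c).1⟩
  refine ⟨closure S, hV, hsq, ht, fun e he => s.E_Φ (hE he), hon, fun v hv h1 e he h2 => ?_, ?_, ?_⟩
  · obtain ⟨e', a, b⟩ := hon v hv
    obtain ⟨u, hu, rfl⟩ := s.Φ_same b he hv h1 ((hsq _ a).trans h2.symm)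
    exact mul_mem a (hV hu)
  · let f : closure S →* G := MonoidHom.mk' (fun e => s.t * (e * s.t * (e : G)⁻¹)) fun e e' => by
      obtain ⟨v, -, a⟩ := s.E_Φ (hE e.2)
      obtain ⟨v', hv', a'⟩ := s.E_Φ (hE e'.2)
      rw [s.CE_τ a, s.CE_τ a']
      exact s.CE_τ (s.Φ_mul a a' hv')
    have h1 : f.range = s.V6 := le_antisymm (by
      rintro _ ⟨e, rfl⟩
      obtain ⟨v, hv, a⟩ := s.E_Φ (hE e.2)
      rwa [← s.CE_τ a] at hv) fun v hv => by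
      obtain ⟨e, a, b⟩ := hon v hv
      exact ⟨⟨e, a⟩, s.CE_τ b⟩
    have h2 : f.ker = s.V6.subgroupOf (closure S) := Subgroup.ext fun e => ⟨fun h => by
      obtain ⟨v, -, a⟩ := s.E_Φ (hE e.2)
      obtain rfl : v = 1 := (s.CE_τ a).symm.trans h
      exact (s.memW.1 (s.Φ_one.1 a)).resolve_right fun h => ht ((mul_mem_cancel_right e.2).1 (hV h)),
      fun h => s.CE_τ (s.Φ_one.2 (s.CE_VW h))⟩
    rw [← card_mul_index f.ker, index_ker, h1, h2, Nat.card_congr (subgroupOfEquivOfLe hV).toEquiv, s.gV6.2]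
  · refine le_normalizer_closure_iff.2 fun g hg x hx => subset_closure ?_
    rcases hx with h | ⟨p, hp, h, h2⟩
    · exact .inl (conj_mem_of_norm (s.P3_norm.1 hg) h)
    · exact .inr ⟨_, k3 g hg p hp, s.Φ_conj h hg, by rw [conj_mul, h2]; group⟩

variable {s} {B : Subgroup G} (hB : s.Big s.A3 B)
include hB

theorem CE_line {i j : ℕ} (hi : i < 2) (hj : j < 2) (hβ : s.CEβ i j) {p q z : G} (hp : p ∈ s.Pts) (hq : q ∈ s.Pts)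
    (hz : z ∈ s.Pts) (h : p * q * z ∈ s.A3) {g g' g'' : G} (a : g ∈ s.Φ p) (b : g * g = 1) (a' : g' ∈ s.Φ q)
    (b' : g' * g' = 1) (a'' : g'' ∈ s.Φ z) (b'' : g'' * g'' = 1) :
    g * g' * g'' ∈ s.Φ (p * q * z) ∧ s.t ^ i * (g * g' * g'') ∈ B := by
  have k : ∀ p ∈ s.Pts, ∀ q ∈ s.Pts, ∀ z ∈ s.Pts, p * q * z ∈ s.A3 → p * z * q ∈ s.A3 ∧ q * z * p ∈ s.A3 ∧
      p * q * z ≠ 1 ∧ p * q * (p * z * (q * z)) = 1 ∧ z * (q * p) = p * q * z ∧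
      z * (p * q) * (q * (p * z) * (p * (q * z))) = p * q * z := s.hL.decide s.rep (by decide +kernel)
  obtain ⟨k1, k2, k3, k4, k5, k6⟩ := k p hp q hq z hz h
  have E := s.Φ_E a (s.pt_eq hp).1
  have E' := s.Φ_E a' (s.pt_eq hq).1
  have E'' := s.Φ_E a'' (s.pt_eq hz).1
  have h1 := s.Φ_mul (s.Φ_mul a a' (s.pt_eq hq).1) a'' (s.pt_eq hz).1
  have h2 : g * g' * g'' * (g * g' * g'') = (p * q * z) ^ i := by
    rw [s.CE_sq (mul_mem E E') E'', s.CE_sq E E', s.CE_l E E' E'', b, b', b'', hβ p hp q hq z hz h g a b g' a' b',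
      hβ p hp z hz q hq k1 g a b g'' a'' b'', hβ q hq z hz p hp k2 g' a' b' g'' a'' b'']
    interval_cases i <;> interval_cases j <;> simp only [pow_zero, pow_one, mul_one, one_mul, k4, k5, k6]
  refine ⟨h1, ?_⟩
  interval_cases i
  · simpa using hB.max _ h k3 _ h1 (by simpa using h2)
  · rw [pow_one] at h2 ⊢
    exact hB.max _ h k3 _ (s.Φ_W h1 (s.CE_AV h) s.tW).2 (by rw [s.Φ_t_sq h1 (s.CE_AV h), h2, s.CE_Vs (s.CE_AV h)])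

theorem CE_cent {k zy za zb : G} (hk : k ∈ s.E) (h1 : zy ∈ B) (h2 : za ∈ B) (h3 : zb ∈ B) (a1 : zy ∈ s.Φ s.y)
    (a2 : za ∈ s.Φ s.a) (a3 : zb ∈ s.Φ s.b) (c1 : ⁅k, zy⁆ = 1) (c2 : ⁅k, za⁆ = 1) (c3 : ⁅k, zb⁆ = 1) : k ∈ 𝐂[B] := by
  have h4 : ∀ v ∈ s.A3, ∃ z ∈ B, z ∈ s.Φ v ∧ Commute k z := fun v hv => by
    induction hv using closure_induction with
    | mem x hx =>
      simp only [Set.mem_ofPred_eq, List.mem_cons, List.not_mem_nil, or_false] at hx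
      rcases hx with rfl | rfl | rfl
      exacts [⟨_, h1, a1, commutatorElement_eq_one_iff_commute.1 c1⟩,
        ⟨_, h2, a2, commutatorElement_eq_one_iff_commute.1 c2⟩, ⟨_, h3, a3, commutatorElement_eq_one_iff_commute.1 c3⟩]
    | one => exact ⟨1, one_mem _, s.Φ_one.2 (one_mem _), Commute.one_right _⟩
    | mul x y _ hy ix iy =>
      obtain ⟨z, b1, b2, b3⟩ := ix
      obtain ⟨z', b1', b2', b3'⟩ := iy
      exact ⟨_, mul_mem b1 b1', s.Φ_mul b2 b2' (s.CE_AV hy), b3.mul_right b3'⟩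
    | inv x hx ix => rwa [inv_eq_of_mul_eq_one_right (s.CE_Vs (s.CE_AV hx))]
  refine mem_cent.2 fun e he => ?_
  obtain ⟨v, hv, b⟩ := hB.tau e he
  obtain ⟨z, b1, b2, b3⟩ := h4 v hv
  have h5 := s.Φ_mul b b2 (s.CE_AV hv)
  rw [s.CE_Vs (s.CE_AV hv)] at h5
  have h6 : Commute k (e * z) :=
    s.CE_c hk ((s.big_cent hB (mul_mem he b1)).1 (s.W_comm (s.Φ_one.1 h5) s.tW))
  have := h6.mul_right b3.inv_right
  rw [mul_inv_cancel_right] at this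
  exact this.symm

theorem CE_sev (h : ∃ k ∈ s.Φ s.x1, k ∈ 𝐂[B] ∧ k * k = s.x1) (hβ : s.CEβ 1 0) : s.Sev B := by
  have k : s.x1 ∈ s.Pts ∧ s.x2 ∈ s.Pts ∧ s.x12 ∈ s.Pts ∧ s.x1 * s.x2 * s.x12 ∈ s.A3 ∧ s.y ∈ s.A3 ∧ s.y ≠ 1 ∧
      s.x2 * (s.x1 * s.x12) = s.y := s.hL.decide s.rep (by decide +kernel)
  obtain ⟨p1, p2, p12, k1, k2, k3, k4⟩ := k
  obtain ⟨k, a1, a2, a3⟩ := h
  have hBc : B ≤ 𝐂[B] := fun e he => mem_cent.2 fun e' he' => s.big_comm hB he' he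
  have ht : s.t ∉ 𝐂[B] := fun h => by
    obtain ⟨z, b1, b2⟩ := hB.onto _ k2
    exact k3 (by rw [← s.CE_τ b2, mem_cent.1 h z b1, mul_inv_cancel_right, s.tt])
  have hp : ∀ p ∈ s.Pts, ∃ k ∈ s.Φ p, k ∈ 𝐂[B] ∧ k * k = p := fun p hp => by
    obtain ⟨-, l, hl, rfl⟩ := s.pt_eq hp
    exact ⟨_, s.Φ_conj a1 (s.les.2.2.1 hl), conj_mem_of_norm (norm_cent hB.norm (s.les.2.2.1 hl)) a2,
      by rw [conj_mul, a3]⟩
  have hsq : ∀ p ∈ s.Pts, ∀ v ∈ s.A3, ∀ e ∈ s.Φ (p * v), e ∈ 𝐂[B] → e * e = p := fun p hp' v hv e he hc => by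
    obtain ⟨k, b1, b2, b3⟩ := hp p hp'
    obtain ⟨z, c1, c2⟩ := hB.onto v hv
    have h1 := s.Φ_mul b1 c2 (s.CE_AV hv)
    rcases s.Φ_diff h1 he (mul_mem (s.pt_eq hp').1 (s.CE_AV hv)) with ⟨u, hu, rfl⟩ | ⟨u, hu, rfl⟩
    · rw [s.Φ_V_sq h1 hu, show k * z * (k * z) = k * (z * k) * z by group, mem_cent.1 b2 z c1, ← mul_assoc, b3,
        mul_assoc, hB.sq z c1, mul_one]
    · exact absurd ((mul_mem_cancel_right (mul_mem b2 (hBc c1))).1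
        ((mul_mem_cancel_right (hBc (hB.le hu))).1 hc)) ht
  refine ⟨hB, fun v hv => ?_, hsq, fun e he e' he' hc hc' => ?_⟩
  · rcases s.V6_eq hv with h | ⟨p, hp', u, hu, rfl⟩
    · obtain ⟨z, c1, c2⟩ := hB.onto v h
      exact ⟨z, c2, hBc c1⟩
    · obtain ⟨k, b1, b2, -⟩ := hp p hp'
      obtain ⟨z, c1, c2⟩ := hB.onto u hu
      exact ⟨_, s.Φ_mul b1 c2 (s.CE_AV hu), mul_mem b2 (hBc c1)⟩
  · have v1 := (s.pt_eq p1).1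
    have v2 := (s.pt_eq p2).1
    have d1 := (s.Φ_W he v1 s.tW).2
    have d2 := (s.Φ_W he' v2 s.tW).2
    have h1 := hβ _ p1 _ p2 _ p12 k1 _ d1
      (by rw [s.Φ_t_sq he v1, hsq _ p1 1 (one_mem _) e (by rwa [mul_one]) hc, s.CE_Vs v1]) _ d2
      (by rw [s.Φ_t_sq he' v2, hsq _ p2 1 (one_mem _) e' (by rwa [mul_one]) hc', s.CE_Vs v2])
    have h2 : ⁅s.t * (s.t * e), s.t * (s.t * e')⁆ = s.y := by
      rw [s.CE_l s.CE_tE (s.Φ_E d1 v1) (mul_mem s.CE_tE (s.Φ_E d2 v2)), s.CE_r s.CE_tE s.CE_tE (s.Φ_E d2 v2),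
        s.CE_r (s.Φ_E d1 v1) s.CE_tE (s.Φ_E d2 v2), h1, (s.CE_t d1 v1).2, (s.CE_t d2 v2).1, ← k4]
      simp
    rw [← mul_assoc, ← mul_assoc, s.tt, one_mul, one_mul] at h2
    rw [← h2]; group

variable (s) in
omit hB in
theorem twelve_or_sev {B : Subgroup G} (hB : s.Big s.A3 B) {e : G} (he : e ∈ s.Φ s.x1) :
    (∃ B', s.Big s.V6 B') ∨ s.Sev B := by
  have k : (s.x1 ∈ s.Pts ∧ s.x2 ∈ s.Pts ∧ s.x3 ∈ s.Pts ∧ s.x12 ∈ s.Pts ∧ s.x13 ∈ s.Pts ∧ s.x23 ∈ s.Pts ∧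
      s.x123 ∈ s.Pts) ∧ (s.x1 * s.x2 * s.x12 = s.y ∧ s.x1 * s.x3 * s.x13 = s.a ∧ s.x2 * s.x3 * s.x23 = s.b ∧
      s.y ∈ s.A3 ∧ s.a ∈ s.A3 ∧ s.b ∈ s.A3) ∧ s.x1 * s.x12 * s.x2 ∈ s.A3 ∧ s.x1 * s.x13 * s.x3 ∈ s.A3 ∧
      s.x2 * s.x1 * s.x12 ∈ s.A3 ∧ s.x2 * s.x13 * s.x123 ∈ s.A3 ∧ s.x12 * s.x1 * s.x2 ∈ s.A3 ∧
      s.x12 * s.x3 * s.x123 ∈ s.A3 ∧ s.x12 * s.x13 * s.x23 ∈ s.A3 ∧ s.x1 * s.x23 * s.x123 ∈ s.A3 :=
    s.hL.decide s.rep (by decide +kernel)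
  obtain ⟨⟨p1, p2, p3, p12, p13, p23, p123⟩, ⟨ey, ea, eb, my, ma, mb⟩, l1, l2, l3, l4, l5, l6, l7, l8⟩ := k
  obtain ⟨i, hi, j, hj, hβ⟩ := s.CE_beta he
  obtain ⟨g1, a1, b1⟩ := s.CE_ex he p1
  obtain ⟨g2, a2, b2⟩ := s.CE_ex he p2
  obtain ⟨g3, a3, b3⟩ := s.CE_ex he p3
  obtain ⟨g12, a12, b12⟩ := s.CE_ex he p12
  obtain ⟨g13, a13, b13⟩ := s.CE_ex he p13
  obtain ⟨g23, a23, b23⟩ := s.CE_ex he p23
  have E1 := s.Φ_E a1 (s.pt_eq p1).1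
  have E2 := s.Φ_E a2 (s.pt_eq p2).1
  have E3 := s.Φ_E a3 (s.pt_eq p3).1
  have E12 := s.Φ_E a12 (s.pt_eq p12).1
  have E13 := s.Φ_E a13 (s.pt_eq p13).1
  have E23 := s.Φ_E a23 (s.pt_eq p23).1
  have Et := s.CE_tE
  obtain ⟨y1, y2⟩ := CE_line hB hi hj hβ p1 p2 p12 (ey ▸ my) a1 b1 a2 b2 a12 b12
  obtain ⟨z1, z2⟩ := CE_line hB hi hj hβ p1 p3 p13 (ea ▸ ma) a1 b1 a3 b3 a13 b13
  obtain ⟨w1, w2⟩ := CE_line hB hi hj hβ p2 p3 p23 (eb ▸ mb) a2 b2 a3 b3 a23 b23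
  rw [ey] at y1
  rw [ea] at z1
  rw [eb] at w1
  have Ey := s.Φ_E y1 (s.CE_AV my)
  have Ea := s.Φ_E z1 (s.CE_AV ma)
  have Eb := s.Φ_E w1 (s.CE_AV mb)
  have c1 := hβ _ p1 _ p2 _ p12 (ey ▸ my) _ a1 b1 _ a2 b2
  have c2 := hβ _ p1 _ p3 _ p13 (ea ▸ ma) _ a1 b1 _ a3 b3
  have c3 := hβ _ p2 _ p3 _ p23 (eb ▸ mb) _ a2 b2 _ a3 b3
  have c4 := hβ _ p1 _ p12 _ p2 l1 _ a1 b1 _ a12 b12
  have c5 := hβ _ p1 _ p13 _ p3 l2 _ a1 b1 _ a13 b13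
  have c6 := hβ _ p2 _ p1 _ p12 l3 _ a2 b2 _ a1 b1
  have c7 := hβ _ p2 _ p13 _ p123 l4 _ a2 b2 _ a13 b13
  have c8 := hβ _ p12 _ p1 _ p2 l5 _ a12 b12 _ a1 b1
  have c9 := hβ _ p12 _ p3 _ p123 l6 _ a12 b12 _ a3 b3
  have c10 := hβ _ p12 _ p13 _ p23 l7 _ a12 b12 _ a13 b13
  have c11 := hβ _ p1 _ p23 _ p123 l8 _ a1 b1 _ a23 b23
  have r3 : ∀ g ∈ s.E, ∀ u ∈ s.E, ∀ v ∈ s.E, ∀ w ∈ s.E, ⁅g, u * v * w⁆ = ⁅g, u⁆ * ⁅g, v⁆ * ⁅g, w⁆ :=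
    fun g hg u hu v hv w hw => by rw [s.CE_r hg (mul_mem hu hv) hw, s.CE_r hg hu hv]
  have tt : ∀ g ∈ s.E, ∀ u ∈ s.E, ⁅s.t * g, s.t * u⁆ = ⁅s.t, u⁆ * (⁅g, s.t⁆ * ⁅g, u⁆) := fun g hg u hu => by
    rw [s.CE_l Et hg (mul_mem Et hu), s.CE_r Et Et hu, s.CE_r hg Et hu, commutatorElement_self, one_mul]
  have h1 := commutatorElement_eq_one_iff_mul_comm.2 (s.big_comm hB y2 z2)
  have h2 : ⁅g1 * g2 * g12, g1 * g3 * g13⁆ = (s.y * s.a) ^ i * (s.y * s.a) ^ j := by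
    rw [s.CE_l (mul_mem E1 E2) E12 Ea, s.CE_l E1 E2 Ea, r3 _ E1 _ E1 _ E3 _ E13, r3 _ E2 _ E1 _ E3 _ E13,
      r3 _ E12 _ E1 _ E3 _ E13, commutatorElement_self, c2, c3, c5, c6, c7, c8, c9, c10]
    interval_cases i <;> interval_cases j <;> exact s.hL.decide s.rep (by decide +kernel)
  interval_cases i <;> interval_cases j
  · exact .inl (s.CE_twelve he hβ)
  · rw [pow_zero, one_mul, one_mul, h2] at h1
    exact absurd h1 (s.hL.decide s.rep (by decide +kernel))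
  · rw [pow_one] at y2 z2 w2
    refine .inr (CE_sev hB ⟨s.t * g1, (s.Φ_W a1 (s.pt_eq p1).1 s.tW).2, CE_cent hB (mul_mem Et E1) y2 z2 w2
      (s.Φ_W y1 (s.CE_AV my) s.tW).2 (s.Φ_W z1 (s.CE_AV ma) s.tW).2 (s.Φ_W w1 (s.CE_AV mb) s.tW).2 ?_ ?_ ?_,
      by rw [s.Φ_t_sq a1 (s.pt_eq p1).1, b1, mul_one]⟩ hβ)
    · rw [tt _ E1 _ Ey, (s.CE_t y1 (s.CE_AV my)).1, (s.CE_t a1 (s.pt_eq p1).1).2, r3 _ E1 _ E1 _ E2 _ E12,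
        commutatorElement_self, c1, c4]
      exact s.hL.decide s.rep (by decide +kernel)
    · rw [tt _ E1 _ Ea, (s.CE_t z1 (s.CE_AV ma)).1, (s.CE_t a1 (s.pt_eq p1).1).2, r3 _ E1 _ E1 _ E3 _ E13,
        commutatorElement_self, c2, c5]
      exact s.hL.decide s.rep (by decide +kernel)
    · rw [tt _ E1 _ Eb, (s.CE_t w1 (s.CE_AV mb)).1, (s.CE_t a1 (s.pt_eq p1).1).2, r3 _ E1 _ E2 _ E3 _ E23, c1, c2, c11]
      exact s.hL.decide s.rep (by decide +kernel)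
  · rw [pow_one, tt _ Ey _ Ea, (s.CE_t z1 (s.CE_AV ma)).1, (s.CE_t y1 (s.CE_AV my)).2, h2] at h1
    exact absurd h1 (s.hL.decide s.rep (by decide +kernel))

end Cfg

end Cfsg.Agent.SF6
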