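import Mathlib
import Cfsg.Agent.SF6.Phi

set_option autoImplicit false
set_option linter.unusedSectionVars false
set_option maxRecDepth 100000
set_option synthInstance.maxSize 100000
set_option synthInstance.maxHeartbeats 1000000

namespace Cfsg.Agent.SF6

open Cfsg Cfsg.Agent.Rec Cfsg.Agent.Spor Cfsg.Agent.Loc.Mss Subgroup
open scoped commutatorElement

variable {G : Type*} [Group G] [Finite G]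

namespace Cfg

variable (s : Cfg G)

theorem CTa_VW : s.V6 ≤ s.W := s.les.2.2.2.2.2.1
theorem CTa_AV : s.A3 ≤ s.V6 := s.les.2.2.2.1
theorem CTa_Vc {u v : G} (hu : u ∈ s.V6) (hv : v ∈ s.V6) : u * v = v * u := s.W_comm (s.CTa_VW hu) (s.CTa_VW hv)
theorem CTa_Vs {u : G} (hu : u ∈ s.V6) : u * u = 1 := s.W_sq (s.CTa_VW hu)

variable {s} {B : Subgroup G} (hB : s.Big s.A3 B)
include hB

theorem CTa_nD {v : G} (hv : v ∈ s.V6) : v ∉ s.D := by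
  simpa using s.big_nD hB le_rfl (hB.le hv) 1

theorem CTa_tD (hx : s.t * s.x1 ∈ s.D) {v : G} (hv : v ∈ s.V6) : s.t * v ∈ s.D := by
  rcases s.V6_eq hv with h | ⟨p, hp, u, hu, rfl⟩
  · obtain ⟨e, -, he⟩ := hB.onto v h
    exact s.Φ_D he
  · obtain ⟨e, -, he⟩ := hB.onto u hu
    obtain ⟨hp', l, hl, rfl⟩ := s.pt_eq hp
    have h1 := s.D_conj (s.D_L (s.L3_le hl) hx) e
    rwa [show e * (s.t * (l * s.x1 * l⁻¹)) * e⁻¹ = e * s.t * e⁻¹ * (e * (l * s.x1 * l⁻¹) * e⁻¹) by group, he.2,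
      he.1 _ hp', mul_inv_cancel_right, mul_assoc, s.CTa_Vc (s.CTa_AV hu) hp'] at h1

theorem CTa_normV (hx : s.t * s.x1 ∈ s.D) {g : G} (hg : g ∈ 𝐍[s.W]) {v : G} (hv : v ∈ s.V6) :
    g * v * g⁻¹ ∈ s.V6 := by
  refine (s.memW.1 (conj_mem_of_norm hg (s.CTa_VW hv))).resolve_right fun h => CTa_nD hB hv ?_
  have h1 := s.D_conj (CTa_tD hB hx h) g⁻¹
  rwa [← mul_assoc s.t, s.tt, show g⁻¹ * (1 * (g * v * g⁻¹)) * g⁻¹⁻¹ = v by group] at h1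

theorem CTa_Φ (hx : s.t * s.x1 ∈ s.D) {g : G} (hg : g ∈ 𝐍[s.W]) {e v : G} (he : e ∈ s.Φ v) (hv : v ∈ s.V6) :
    g * e * g⁻¹ ∈ s.Φ (g * v * g⁻¹) := by
  refine ⟨fun u hu => ?_, ?_⟩
  · have := he.1 _ (CTa_normV hB hx (inv_mem hg) hu)
    calc g * e * g⁻¹ * u = g * (e * (g⁻¹ * u * g⁻¹⁻¹)) * g⁻¹ := by group
      _ = _ := by rw [this]; group
  · have h1 : s.t * (g⁻¹ * s.t * g⁻¹⁻¹) ∈ s.V6 := (s.memW.1 (conj_mem_of_norm (inv_mem hg) s.tW)).resolve_left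
      fun h => CTa_nD hB h (s.D_conj s.tD _)
    have h2 := he.1 _ h1
    have h3 : s.t⁻¹ = s.t := inv_eq_of_mul_eq_one_right s.tt
    calc g * e * g⁻¹ * s.t * (g * e * g⁻¹)⁻¹
        = g * (e * s.t⁻¹ * e⁻¹ * (e * (s.t * (g⁻¹ * s.t * g⁻¹⁻¹))) * e⁻¹) * g⁻¹ := by group
      _ = g * (s.t * (v * (s.t * (g⁻¹ * s.t * g⁻¹⁻¹)))) * g⁻¹ := by rw [h3, he.2, h2]; group
      _ = g * ((s.t * s.t) * (g⁻¹ * s.t * g⁻¹⁻¹) * v) * g⁻¹ := by rw [s.CTa_Vc hv h1]; group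
      _ = _ := by rw [s.tt]; group

theorem CTa_normA (hx : s.t * s.x1 ∈ s.D) (h0 : ∀ e, e ∉ s.Φ s.x1) {g : G} (hg : g ∈ 𝐍[s.W]) {v : G}
    (hv : v ∈ s.A3) : g * v * g⁻¹ ∈ s.A3 := by
  obtain ⟨e, -, he⟩ := hB.onto v hv
  have h1 := CTa_Φ hB hx hg he (s.CTa_AV hv)
  rcases s.V6_eq (CTa_normV hB hx hg (s.CTa_AV hv)) with h | ⟨p, hp, u, hu, e1⟩
  · exact h
  · obtain ⟨e', -, he'⟩ := hB.onto u hu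
    obtain ⟨-, l, hl, rfl⟩ := s.pt_eq hp
    have h2 := s.Φ_mul h1 he' (s.CTa_AV hu)
    rw [e1, mul_assoc _ u u, s.CTa_Vs (s.CTa_AV hu), mul_one] at h2
    have h3 := s.Φ_conj h2 (inv_mem (s.les.2.2.1 hl))
    rw [show l⁻¹ * (l * s.x1 * l⁻¹) * l⁻¹⁻¹ = s.x1 by group] at h3
    exact absurd h3 (h0 _)

/-- An element of `N(W)` moving `t` to `t x1` and trivial on `V6 / A3`. -/
theorem CTa_alpha (hx : s.t * s.x1 ∈ s.D) (h0 : ∀ e, e ∉ s.Φ s.x1) :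
    ∃ α ∈ 𝐍[s.W], α * s.t * α⁻¹ = s.t * s.x1 ∧ ∀ v ∈ s.V6, α * v * α⁻¹ * v⁻¹ ∈ s.A3 := by
  have k : s.x1 ∈ s.V6 ∧ s.x2 ∈ s.V6 ∧ s.x3 ∈ s.V6 ∧ s.x1 ∉ s.A3 ∧ s.x2 ∉ s.A3 ∧ s.x3 ∉ s.A3 ∧
      s.x1 * s.x2 ∉ s.A3 ∧ s.x1 * s.x3 ∉ s.A3 ∧ s.x2 * s.x3 ∉ s.A3 ∧ s.x1 * s.x2 * s.x3 ∉ s.A3 ∧
      ∀ p ∈ s.Pts, ∀ p' ∈ s.Pts, p * p' ∉ s.A3 → ∀ p'' ∈ s.Pts, p * p'' ∉ s.A3 → p' * p'' ∉ s.A3 →
        p * p' * p'' ∉ s.A3 → ∃ l ∈ s.L3, l * s.x1 * l⁻¹ = p ∧ l * s.x2 * l⁻¹ = p' ∧ l * s.x3 * l⁻¹ = p'' :=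
    s.hL.decide s.rep (by decide +kernel)
  obtain ⟨v1, v2, v3, n1, n2, n3, n12, n13, n23, n123, k⟩ := k
  obtain ⟨g, hg, ht⟩ := s.fusW hx (mul_mem s.tW (s.CTa_VW v1))
  have hA : ∀ v, g⁻¹ * v * g⁻¹⁻¹ ∈ s.A3 → v ∈ s.A3 := fun v hv => by
    have := CTa_normA hB hx h0 hg hv
    rwa [show g * (g⁻¹ * v * g⁻¹⁻¹) * g⁻¹ = v by group] at this
  have hp : ∀ v ∈ s.V6, v ∉ s.A3 → ∃ p ∈ s.Pts, ∃ u ∈ s.A3, p = g⁻¹ * (v * u) * g⁻¹⁻¹ := fun v hv hn => by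
    obtain ⟨p, hp, u, hu, e⟩ := (s.V6_eq (CTa_normV hB hx (inv_mem hg) hv)).resolve_left fun h => hn (hA v h)
    refine ⟨p, hp, _, inv_mem (CTa_normA hB hx h0 hg hu), ?_⟩
    rw [show g⁻¹ * (v * (g * u * g⁻¹)⁻¹) * g⁻¹⁻¹ = g⁻¹ * v * g⁻¹⁻¹ * u⁻¹ by group, e]; group
  have h2 : ∀ v ∈ s.V6, ∀ v' ∈ s.V6, ∀ u ∈ s.A3, ∀ u' ∈ s.A3,
      g⁻¹ * (v * u) * g⁻¹⁻¹ * (g⁻¹ * (v' * u') * g⁻¹⁻¹) = g⁻¹ * (v * v' * (u * u')) * g⁻¹⁻¹ :=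
    fun v _ v' hv' u hu u' _ => by
      rw [show v * v' * (u * u') = v * (v' * u) * u' by group, s.CTa_Vc hv' (s.CTa_AV hu)]; group
  have h3 : ∀ v, ∀ u ∈ s.A3, g⁻¹ * (v * u) * g⁻¹⁻¹ ∈ s.A3 → v ∈ s.A3 := fun v u hu h =>
    (mul_mem_cancel_right hu).1 (hA _ h)
  obtain ⟨p1, hp1, u1, hu1, e1⟩ := hp _ v1 n1
  obtain ⟨p2, hp2, u2, hu2, e2⟩ := hp _ v2 n2
  obtain ⟨p3, hp3, u3, hu3, e3⟩ := hp _ v3 n3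
  obtain ⟨l, hl, l1, l2, l3⟩ := k p1 hp1 p2 hp2
    (fun h => n12 (h3 _ _ (mul_mem hu1 hu2) (by rwa [e1, e2, h2 _ v1 _ v2 _ hu1 _ hu2] at h))) p3 hp3
    (fun h => n13 (h3 _ _ (mul_mem hu1 hu3) (by rwa [e1, e3, h2 _ v1 _ v3 _ hu1 _ hu3] at h)))
    (fun h => n23 (h3 _ _ (mul_mem hu2 hu3) (by rwa [e2, e3, h2 _ v2 _ v3 _ hu2 _ hu3] at h)))
    (fun h => n123 (h3 _ _ (mul_mem (mul_mem hu1 hu2) hu3) (by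
      rwa [e1, e2, e3, h2 _ v1 _ v2 _ hu1 _ hu2, h2 _ (mul_mem v1 v2) _ v3 _ (mul_mem hu1 hu2) _ hu3] at h)))
  have hn : g * l ∈ 𝐍[s.W] := mul_mem hg (s.P3_norm.2.1 (s.les.2.2.1 hl))
  refine ⟨g * l, hn, ?_, fun v hv => ?_⟩
  · rw [← ht, mul_assoc g, s.t_comm (s.L3_le hl)]; group
  · have key : ∀ x ∈ s.V6, ∀ u ∈ s.A3, l * x * l⁻¹ = g⁻¹ * (x * u) * g⁻¹⁻¹ →
        g * l * x * (g * l)⁻¹ * x⁻¹ ∈ s.A3 := fun x hx u hu e => by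
      rwa [show g * l * x * (g * l)⁻¹ * x⁻¹ = g * (l * x * l⁻¹) * g⁻¹ * x⁻¹ by group, e,
        s.CTa_Vc hx (s.CTa_AV hu), show g * (g⁻¹ * (u * x) * g⁻¹⁻¹) * g⁻¹ * x⁻¹ = u by group]
    have key' : ∀ x ∈ s.A3, g * l * x * (g * l)⁻¹ * x⁻¹ ∈ s.A3 := fun x hx' =>
      mul_mem (CTa_normA hB hx h0 hn hx') (inv_mem hx')
    induction hv using closure_induction with
    | mem x hx' =>
      simp only [Set.mem_ofPred_eq, List.mem_cons, List.not_mem_nil, or_false] at hx'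
      rcases hx' with rfl | rfl | rfl | rfl | rfl | rfl
      · exact key _ v1 _ hu1 (l1.trans e1)
      · exact key _ v2 _ hu2 (l2.trans e2)
      · exact key _ v3 _ hu3 (l3.trans e3)
      all_goals exact key' _ (mem_clos (by simp))
    | one => simp
    | mul x y hx' hy' ix iy =>
      have := s.CTa_Vc (s.CTa_AV iy) (inv_mem hx')
      rw [show g * l * (x * y) * (g * l)⁻¹ * (x * y)⁻¹ =
        g * l * x * (g * l)⁻¹ * ((g * l * y * (g * l)⁻¹ * y⁻¹) * x⁻¹) by group, this, ← mul_assoc]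
      exact mul_mem ix iy
    | inv x hx' ix => simpa only [inv_eq_of_mul_eq_one_right (s.CTa_Vs hx')] using ix

omit hB in
theorem CTa_Sp {α : G} (hn : α ∈ 𝐍[s.W]) (ht : α * s.t * α⁻¹ = s.t * s.x1)
    (hA : ∀ v ∈ s.A3, α⁻¹ * v * α ∈ s.A3) (htr : ∀ v ∈ s.V6, α * v * α⁻¹ * v⁻¹ ∈ s.A3) {l : G} (hl : l ∈ s.Sp) :
    ∃ w ∈ s.W, l * α * l⁻¹ = α * w := by
  have k : (∀ l ∈ s.Sp, l * s.x1 * l⁻¹ = s.x1) ∧ s.x1 ∈ s.V6 ∧ s.x2 ∈ s.V6 ∧ s.x3 ∈ s.V6 ∧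
      ∀ l ∈ s.L3, l * s.x1 * l⁻¹ * s.x1⁻¹ ∈ s.A3 → l * s.x2 * l⁻¹ * s.x2⁻¹ ∈ s.A3 →
        l * s.x3 * l⁻¹ * s.x3⁻¹ ∈ s.A3 → l = 1 := s.hL.decide s.rep (by decide +kernel)
  have hl3 := s.les.2.2.2.2.2.2.2.2.2.1 hl
  have hP := s.les.2.2.1 hl3
  have h1 := s.t_comm (s.L3_le hl3)
  obtain ⟨w, hw, l', hl', e⟩ := s.normW (g := α⁻¹ * (l * α * l⁻¹))
    (mul_mem (inv_mem hn) (conj_mem_of_norm (norm_norm s.P3_norm.2.1 hP) hn)) (by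
      have h2 : l⁻¹ * s.t * l = s.t := by rw [mul_assoc, ← h1]; group
      have h3 : l * α * l⁻¹ * s.t * (l * α * l⁻¹)⁻¹ = α * s.t * α⁻¹ := by
        calc _ = l * (α * (l⁻¹ * s.t * l) * α⁻¹) * l⁻¹ := by group
          _ = l * s.t * l⁻¹ * (l * s.x1 * l⁻¹) := by rw [h2, ht]; group
          _ = _ := by rw [h1, k.1 l hl, ht]; group
      calc _ = α⁻¹ * (l * α * l⁻¹ * s.t * (l * α * l⁻¹)⁻¹) * (l * α * l⁻¹) := by group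
        _ = _ := by rw [h3]; group)
  have h4 : ∀ v ∈ s.V6, l' * v * l'⁻¹ * v⁻¹ ∈ s.A3 := fun v hv => by
    have a1 := conj_mem_of_norm (s.P3_norm.2.2 hP) (htr _ (conj_mem_of_norm' (s.P3_norm.1 hP) hv))
    have a2 := hA _ (mul_mem a1 (inv_mem (htr v hv)))
    have a3 := conj_mem_of_norm (s.P3_norm.1 (s.les.2.2.1 hl')) hv
    have a4 := s.W_comm hw (s.CTa_VW a3)
    have a5 : l' * v * l'⁻¹ = α⁻¹ * (l * α * l⁻¹) * v * (α⁻¹ * (l * α * l⁻¹))⁻¹ := by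
      rw [e, show w * l' * v * (w * l')⁻¹ = w * (l' * v * l'⁻¹) * w⁻¹ by group, a4]; group
    rw [a5]
    convert a2 using 1
    group
  obtain rfl := k.2.2.2.2 l' hl' (h4 _ k.2.1) (h4 _ k.2.2.1) (h4 _ k.2.2.2.1)
  exact ⟨w, hw, by rw [← mul_one w, ← e]; group⟩

omit hB in
theorem CTa_Kp (h0 : ∀ e, e ∉ s.Φ s.x1) {α : G} (ht : α * s.t * α⁻¹ = s.t * s.x1)
    (htr : ∀ v ∈ s.V6, α * v * α⁻¹ * v⁻¹ ∈ s.A3) (hS : ∀ l ∈ s.Sp, ∃ w ∈ s.W, l * α * l⁻¹ = α * w) : s.Kp α := by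
  have hφ : ∀ l ∈ s.Sp, ∀ u ∈ s.V6, α * (l * u * l⁻¹) * α⁻¹ = l * (α * u * α⁻¹) * l⁻¹ := fun l hl u hu => by
    obtain ⟨w, hw, e⟩ := hS _ (inv_mem hl)
    calc _ = l * ((l⁻¹ * α * l⁻¹⁻¹) * u * (l⁻¹ * α * l⁻¹⁻¹)⁻¹) * l⁻¹ := by group
      _ = l * (α * (w * u) * w⁻¹ * α⁻¹) * l⁻¹ := by rw [e]; group
      _ = _ := by rw [s.W_comm hw (s.CTa_VW hu)]; group
  have hV : ∀ v ∈ s.V6, α * v * α⁻¹ ∈ s.V6 := fun v hv =>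
    (mul_mem_cancel_right (inv_mem hv)).1 (s.CTa_AV (htr v hv))
  have k : (s.x1 ∈ s.V6 ∧ s.x2 ∈ s.V6 ∧ s.y ∈ s.V6 ∧ s.r ∈ s.Sp ∧ s.d ∈ s.Sp ∧ s.m ∈ s.Sp ∧ s.c ∈ s.Sp) ∧
      (s.r * s.x1 * s.r⁻¹ = s.x1 ∧ s.d * s.x1 * s.d⁻¹ = s.x1 ∧ s.m * s.x1 * s.m⁻¹ = s.x1 ∧
        s.c * s.x2 * s.c⁻¹ = s.x2 ∧ s.d * s.x2 * s.d⁻¹ = s.x2) ∧
      (∀ v ∈ s.V6, v = s.r * v * s.r⁻¹ → v = s.d * v * s.d⁻¹ → v = s.m * v * s.m⁻¹ → v * s.x1⁻¹ ∈ s.A3 → v = s.x1) ∧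
      (∀ v ∈ s.V6, v = s.c * v * s.c⁻¹ → v = s.d * v * s.d⁻¹ → v * s.x2⁻¹ ∈ s.A3 → v = s.x2 ∨ v = s.x2 * s.y) ∧
      (s.d * s.m * s.d * s.x2 * (s.d * s.m * s.d)⁻¹ = s.x3 ∧ s.d * s.m * s.d * s.y * (s.d * s.m * s.d)⁻¹ = s.a ∧
        s.y = s.x1 * s.x2 * (s.r * s.x2 * s.r⁻¹) ∧ s.b = s.x2 * s.x3 * (s.m * s.x2 * s.m⁻¹)) ∧
      (s.d * s.m * s.d * (s.x2 * s.y) * (s.d * s.m * s.d)⁻¹ = s.x3 * s.a ∧
        s.x1 * (s.x2 * s.y) * (s.r * (s.x2 * s.y) * s.r⁻¹) = s.y ∧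
        s.x2 * s.y * (s.x3 * s.a) * (s.m * (s.x2 * s.y) * s.m⁻¹) = s.b) := s.hL.decide s.rep (by decide +kernel)
  obtain ⟨⟨v1, v2, vy, sr, sd, sm, sc⟩, ⟨c1, c2, c3, c4, c5⟩, k1, k2, ⟨d1, d2, d3, d4⟩, d5, d6, d7⟩ := k
  have ssig := mul_mem (mul_mem sd sm) sd
  have m3 : ∀ u v w : G, α * (u * v * w) * α⁻¹ = α * u * α⁻¹ * (α * v * α⁻¹) * (α * w * α⁻¹) := fun u v w => by group
  have h1 : α * s.x1 * α⁻¹ = s.x1 := k1 _ (hV _ v1) (by rw [← hφ _ sr _ v1, c1]) (by rw [← hφ _ sd _ v1, c2])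
    (by rw [← hφ _ sm _ v1, c3]) (htr _ v1)
  rcases k2 _ (hV _ v2) (by rw [← hφ _ sc _ v2, c4]) (by rw [← hφ _ sd _ v2, c5]) (htr _ v2) with h2 | h2
  · have h3 : α * s.x3 * α⁻¹ = s.x3 := by rw [← d1, hφ _ ssig _ v2, h2]
    have h4 : α * s.y * α⁻¹ = s.y := by rw [d3, m3, hφ _ sr _ v2, h1, h2]
    have h5 : α * s.a * α⁻¹ = s.a := by rw [← d2, hφ _ ssig _ vy, h4]
    have h6 : α * s.b * α⁻¹ = s.b := by rw [d4, m3, hφ _ sm _ v2, h2, h3]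
    refine absurd ⟨commute_clos ?_, ht⟩ (h0 α)
    simp only [List.forall_mem_cons, List.not_mem_nil, false_imp_iff, implies_true, and_true,
      ← mul_inv_eq_iff_eq_mul]
    exact ⟨h1, h2, h3, h4, h5, h6⟩
  · have h3 : α * s.x3 * α⁻¹ = s.x3 * s.a := by rw [← d5, ← h2, ← hφ _ ssig _ v2, d1]
    have h4 : α * s.y * α⁻¹ = s.y := by
      conv_lhs => rw [d3, m3, hφ _ sr _ v2, h1, h2, d6]
    have h5 : α * s.a * α⁻¹ = s.a := by rw [← d2, hφ _ ssig _ vy, h4]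
    have h6 : α * s.b * α⁻¹ = s.b := by
      conv_lhs => rw [d4, m3, hφ _ sm _ v2, h2, h3, d7]
    exact ⟨ht, h1, h2, h3, h4, h5, h6⟩

theorem CTa_diff {e e' v : G} (he : e ∈ B) (he' : e' ∈ B) (h : e ∈ s.Φ v) (h' : e' ∈ s.Φ v) (hv : v ∈ s.V6) :
    e' * e⁻¹ ∈ s.V6 := by
  have h1 := s.Φ_mul h' (s.Φ_inv h hv) hv
  rw [s.CTa_Vs hv] at h1
  exact (s.big_cent hB (mul_mem he' (inv_mem he))).1 (s.W_comm (s.Φ_one.1 h1) s.tW)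

variable (s) in
omit hB in
theorem kp_of_C {B : Subgroup G} (hB : s.Big s.A3 B) (hx : s.t * s.x1 ∈ s.D) (h0 : ∀ e, e ∉ s.Φ s.x1) :
    ∃ α, s.Kp α ∧ ∀ e ∈ B, e ∈ s.Φ s.y → α * e * α⁻¹ * e⁻¹ ∈ s.A3 := by
  obtain ⟨α, hn, ht, htr⟩ := CTa_alpha hB hx h0
  have hS := fun l hl => CTa_Sp hn ht (fun v hv => by simpa using CTa_normA hB hx h0 (inv_mem hn) hv) htr (l := l) hl
  have hK := CTa_Kp h0 ht htr hS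
  have hA : ∀ v ∈ s.A3, α * v * α⁻¹ = v := fun v hv => mul_inv_eq_iff_eq_mul.2 (commute_clos (by
    simp only [List.forall_mem_cons, List.not_mem_nil, false_imp_iff, implies_true, and_true,
      ← mul_inv_eq_iff_eq_mul]
    exact ⟨hK.y, hK.a, hK.b⟩) v hv)
  have hV : ∀ e ∈ B, α * e * α⁻¹ * e⁻¹ ∈ s.V6 := fun e he => by
    obtain ⟨v, hv, h1⟩ := hB.tau e he
    have h2 := CTa_Φ hB hx hn h1 (s.CTa_AV hv)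
    rw [hA v hv] at h2
    by_cases h3 : v = 1
    · subst h3
      exact s.CTa_AV (htr _ ((s.big_cent hB he).1 (s.W_comm (s.Φ_one.1 h1) s.tW)))
    · exact CTa_diff hB he (hB.max v hv h3 _ h2 (by rw [conj_mul, hB.sq e he]; group)) h1 h2 (s.CTa_AV hv)
  have hadd : ∀ e ∈ B, ∀ e' ∈ B, α * (e * e') * α⁻¹ * (e * e')⁻¹ = α * e * α⁻¹ * e⁻¹ * (α * e' * α⁻¹ * e'⁻¹) :=
    fun e he e' he' => by
      rw [show α * (e * e') * α⁻¹ * (e * e')⁻¹ = α * e * α⁻¹ * (α * e' * α⁻¹ * e'⁻¹ * e⁻¹) by group,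
        s.big_comm hB (hB.le (hV e' he')) (inv_mem he)]
      group
  have hcj : ∀ l ∈ s.Sp, ∀ e ∈ B, ∃ u ∈ s.A3,
      α * (l * e * l⁻¹) * α⁻¹ * (l * e * l⁻¹)⁻¹ = l * (α * e * α⁻¹ * e⁻¹ * u) * l⁻¹ := fun l hl e he => by
    obtain ⟨w, hw, e1⟩ := hS _ (inv_mem hl)
    obtain ⟨v, hv, h1⟩ := hB.tau e he
    obtain ⟨u, hu, e2⟩ : ∃ u ∈ s.A3, w * e * w⁻¹ = e * u := by
      rcases s.memW.1 hw with h | h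
      · exact ⟨1, one_mem _, by rw [← h1.1 w h]; group⟩
      · refine ⟨v, hv, ?_⟩
        have h3 : s.t⁻¹ = s.t := inv_eq_of_mul_eq_one_right s.tt
        have h4 := (s.Φ_inv h1 (s.CTa_AV hv)).2
        calc w * e * w⁻¹ = s.t⁻¹ * (s.t * w * e) * w⁻¹ := by group
          _ = e * (e⁻¹ * s.t⁻¹ * e⁻¹⁻¹) * s.t := by rw [← h1.1 _ h]; group
          _ = e * (s.t * (v * s.t)) := by rw [h3, h4]; group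
          _ = _ := by rw [s.W_comm (s.CTa_VW (s.CTa_AV hv)) s.tW, ← mul_assoc s.t, s.tt, one_mul]
    refine ⟨u, hu, ?_⟩
    calc _ = l * ((l⁻¹ * α * l⁻¹⁻¹) * e * (l⁻¹ * α * l⁻¹⁻¹)⁻¹ * e⁻¹) * l⁻¹ := by group
      _ = l * (α * (w * e * w⁻¹) * α⁻¹ * e⁻¹) * l⁻¹ := by rw [e1]; group
      _ = l * (α * e * α⁻¹ * ((α * u * α⁻¹) * e⁻¹)) * l⁻¹ := by rw [e2]; group
      _ = _ := by rw [hA u hu, s.big_comm hB (hB.le (s.CTa_AV hu)) (inv_mem he)]; group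
  refine ⟨α, hK, fun e he hy => ?_⟩
  have k : (s.y ∈ s.V6 ∧ s.r ∈ s.Sp ∧ s.d ∈ s.Sp ∧ s.m ∈ s.Sp ∧ s.r * s.y * s.r⁻¹ = s.y ∧ s.d * s.y * s.d⁻¹ = s.y ∧
      s.d * s.m * s.d * s.y * (s.d * s.m * s.d)⁻¹ * (s.m * s.y * s.m⁻¹) = s.y) ∧
      ∀ u ∈ s.V6, (∃ a ∈ s.A3, s.r * (u * a) * s.r⁻¹ * u⁻¹ ∈ s.A3) → (∃ a ∈ s.A3, s.d * (u * a) * s.d⁻¹ * u⁻¹ ∈ s.A3) →
        (∃ a ∈ s.A3, ∃ a' ∈ s.A3, s.d * s.m * s.d * (u * a) * (s.d * s.m * s.d)⁻¹ * (s.m * (u * a') * s.m⁻¹) * u⁻¹ ∈ s.A3) →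
        u ∈ s.A3 := s.hL.decide s.rep (by decide +kernel)
  obtain ⟨⟨vy, sr, sd, sm, c1, c2, c3⟩, k⟩ := k
  have ssig := mul_mem (mul_mem sd sm) sd
  have hP : ∀ l ∈ s.Sp, l ∈ s.P3 := fun l hl => s.les.2.2.1 (s.les.2.2.2.2.2.2.2.2.2.1 hl)
  have hc : ∀ l ∈ s.Sp, l * e * l⁻¹ ∈ B := fun l hl => conj_mem_of_norm (hB.norm (hP l hl)) he
  have hsame : ∀ e' ∈ B, e' ∈ s.Φ s.y → α * e' * α⁻¹ * e'⁻¹ * (α * e * α⁻¹ * e⁻¹)⁻¹ ∈ s.A3 := fun e' he' hy' => by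
    have h1 := CTa_diff hB he he' hy hy' vy
    have h2 := hadd _ (hB.le h1) e he
    rw [inv_mul_cancel_right] at h2
    rw [h2, mul_inv_cancel_right]
    exact htr _ h1
  refine k _ (hV e he) ?_ ?_ ?_
  · obtain ⟨u, hu, e1⟩ := hcj _ sr e he
    exact ⟨u, hu, e1 ▸ hsame _ (hc _ sr) (c1 ▸ s.Φ_conj hy (hP _ sr))⟩
  · obtain ⟨u, hu, e1⟩ := hcj _ sd e he
    exact ⟨u, hu, e1 ▸ hsame _ (hc _ sd) (c2 ▸ s.Φ_conj hy (hP _ sd))⟩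
  · obtain ⟨u, hu, e1⟩ := hcj _ ssig e he
    obtain ⟨u', hu', e2⟩ := hcj _ sm e he
    refine ⟨u, hu, u', hu', ?_⟩
    rw [← e1, ← e2, ← hadd _ (hc _ ssig) _ (hc _ sm)]
    exact hsame _ (mul_mem (hc _ ssig) (hc _ sm)) (c3 ▸ s.Φ_mul (s.Φ_conj hy (hP _ ssig)) (s.Φ_conj hy (hP _ sm))
      (conj_mem_of_norm (s.P3_norm.1 (hP _ sm)) vy))

end Cfg

end Cfsg.Agent.SF6
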