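import Mathlib
import Cfsg.Agent.SF6.Phi

set_option autoImplicit false
set_option linter.unusedSectionVars false
set_option linter.unusedVariables false
set_option maxRecDepth 100000
set_option synthInstance.maxSize 100000
set_option synthInstance.maxHeartbeats 1000000

namespace Cfsg.Agent.SF6

open Cfsg Cfsg.Agent.Rec Cfsg.Agent.Spor Cfsg.Agent.Loc.Mss Subgroup
open scoped commutatorElement

variable {G : Type*} [Group G] [Finite G]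

local notation "κ" => MulAut.conj

theorem CTb_κ (g u : G) : κ g u = g * u * g⁻¹ := rfl

theorem CTb_κκ (g h u : G) : κ (κ g h) (κ g u) = κ g (κ h u) := by simp only [CTb_κ]; group

theorem CTb_fix {g u : G} : κ g u = u ↔ g * u = u * g := mul_inv_eq_iff_eq_mul

namespace Cfg

variable (s : Cfg G)

theorem CTb_W5 {g h : G} (ht : κ g s.t = κ h s.t) (h1 : κ g s.x1 = κ h s.x1) (hy : κ g s.y = κ h s.y)
    (ha : κ g s.a = κ h s.a) (hc : κ g s.c = κ h s.c) (hr : κ g s.r = κ h s.r) :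
    ∃ v ∈ s.V5, h⁻¹ * g = v ∨ h⁻¹ * g = s.t * v := by
  have k : (∀ k ∈ s.P2, k * s.x1 = s.x1 * k → k * s.a = s.a * k → k * s.c = s.c * k → k * s.r = s.r * k →
      k ∈ s.V5) ∧ s.t * s.x1 = s.x1 * s.t ∧ s.t * s.y = s.y * s.t ∧ s.t * s.a = s.a * s.t ∧
      s.t * s.c = s.c * s.t ∧ s.t * s.r = s.r * s.t := s.hL.decide s.rep (by decide +kernel)
  obtain ⟨k, c1, c2, c3, c4, c5⟩ := k
  have e : ∀ u, κ g u = κ h u → Commute (h⁻¹ * g) u := fun u e => CTb_fix.1 (by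
    rw [map_mul, MulAut.mul_apply, e, map_inv, MulAut.inv_apply_self])
  rcases s.cent _ (e _ ht) with hl | hl
  · exact ⟨_, k _ (s.cent_y hl (e _ hy)) (e _ h1) (e _ ha) (e _ hc) (e _ hr), .inl rfl⟩
  · refine ⟨_, k _ (s.cent_y hl (Commute.mul_left c2 (e _ hy))) (Commute.mul_left c1 (e _ h1))
      (Commute.mul_left c3 (e _ ha)) (Commute.mul_left c4 (e _ hc)) (Commute.mul_left c5 (e _ hr)), .inr ?_⟩
    rw [← mul_assoc, s.tt, one_mul]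

variable {s}

theorem CTb_t {α g : G} (h : s.Kp α) (ht : g * s.t = s.t * g) (h1 : g * s.x1 = s.x1 * g) : Commute (κ α g) s.t := by
  have a1 : Commute (κ α g) (κ α s.t) := Commute.map ht _
  have a2 : Commute (κ α g) (κ α s.x1) := Commute.map h1 _
  rw [CTb_κ α s.t, h.t] at a1
  rw [CTb_κ α s.x1, h.x1] at a2
  simpa using a1.mul_right a2.inv_right

theorem CTb_Y {α g : G} (h : s.Kp α) (hg : g ∈ clos [s.x3, s.w3, s.r, s.d, s.m]) :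
    κ α (g * s.y * g⁻¹) ∈ s.K2 ∧ κ α (g * s.y * g⁻¹) ∈ s.V5 := by
  have k : (∀ u ∈ s.K2, u * s.x1 ∈ s.K3 → u ∈ s.V5) ∧ s.y * s.x1 = s.x1 * s.y ∧ s.t * s.y = s.y * s.t ∧
      s.t * s.x1 = s.x1 * s.t := s.hL.decide s.rep (by decide +kernel)
  have h1 : g * s.x1 = s.x1 * g := (commute_clos (g := s.x1) (by
    simp only [List.forall_mem_cons, List.not_mem_nil, false_imp_iff, implies_true, and_true]
    exact s.hL.decide s.rep (by decide +kernel)) g hg).symm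
  have h2 : g ∈ s.L := clos_le.2 (fun y hy => mem_clos (by
    simp only [List.mem_cons, List.not_mem_nil, or_false] at hy ⊢; tauto)) hg
  have a2 : Commute (κ α g) (κ α s.x1) := Commute.map h1 _
  rw [CTb_κ α s.x1, h.x1] at a2
  have e : κ α (g * s.y * g⁻¹) = κ (κ α g) s.y := by rw [← CTb_κ, ← CTb_κκ, CTb_κ α s.y, h.y]
  obtain ⟨l, hl, e1, e2⟩ : ∃ l ∈ s.L, κ α (g * s.y * g⁻¹) = κ l s.y ∧ κ l s.x1 = s.x1 := by
    rcases s.cent _ (CTb_t h (s.t_comm h2) h1) with hl | hl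
    · exact ⟨_, hl, e, CTb_fix.2 a2⟩
    · refine ⟨_, hl, ?_, CTb_fix.2 (Commute.mul_left k.2.2.2 a2)⟩
      rw [e, ← (CTb_t h (s.t_comm h2) h1).eq, map_mul, MulAut.mul_apply, CTb_fix.2 k.2.2.1]
  rw [e1]
  have b1 : κ l s.y ∈ s.K2 := ⟨l, hl, rfl⟩
  exact ⟨b1, k.1 _ b1 ⟨l, hl, by rw [← CTb_κ, ← k.2.1, map_mul, e2]⟩⟩

theorem CTb_adj {α : G} (h : s.Kp α) : ∃ v ∈ s.V6, κ v s.c = κ α s.c ∧ κ v s.r = κ α s.r := by
  have k : (s.c = s.x3 * s.d * s.w3 * s.m * s.y * (s.x3 * s.d * s.w3 * s.m)⁻¹ ∧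
      s.r = s.d * s.m * s.x3 * s.d * s.w3 * s.m * s.y * (s.d * s.m * s.x3 * s.d * s.w3 * s.m)⁻¹ ∧
      s.c * s.y = s.x3 * s.w3 * s.m * s.y * (s.x3 * s.w3 * s.m)⁻¹ ∧
      s.a * s.c * s.x1 = s.d * s.w3 * s.m * s.y * (s.d * s.w3 * s.m)⁻¹ ∧
      s.r * s.a = s.d * s.m * s.x3 * s.w3 * s.m * s.y * (s.d * s.m * s.x3 * s.w3 * s.m)⁻¹ ∧
      s.y * s.r * s.x1 = s.d * s.m * s.w3 * s.m * s.y * (s.d * s.m * s.w3 * s.m)⁻¹ ∧
      s.c * s.r = s.m * s.x3 * s.d * s.w3 * s.m * s.y * (s.m * s.x3 * s.d * s.w3 * s.m)⁻¹) ∧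
      ∀ c ∈ s.V5, c ∈ s.K2 → c * s.y ∈ s.K2 → s.a * c * s.x1 ∈ s.K2 → ∀ r ∈ s.V5, r ∈ s.K2 → r * s.a ∈ s.K2 →
        s.y * r * s.x1 ∈ s.K2 → c * r ∈ s.K2 → ∃ v ∈ s.V6, v * s.c * v⁻¹ = c ∧ v * s.r * v⁻¹ = r :=
    s.hL.decide s.rep (by decide +kernel)
  obtain ⟨⟨e1, e2, e3, e4, e5, e6, e7⟩, k⟩ := k
  have m1 : s.x3 ∈ clos [s.x3, s.w3, s.r, s.d, s.m] := mem_clos (by simp)
  have m2 : s.w3 ∈ clos [s.x3, s.w3, s.r, s.d, s.m] := mem_clos (by simp)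
  have m3 : s.d ∈ clos [s.x3, s.w3, s.r, s.d, s.m] := mem_clos (by simp)
  have m4 : s.m ∈ clos [s.x3, s.w3, s.r, s.d, s.m] := mem_clos (by simp)
  have y1 := CTb_Y h (mul_mem (mul_mem (mul_mem m1 m3) m2) m4)
  have y2 := CTb_Y h (mul_mem (mul_mem (mul_mem (mul_mem (mul_mem m3 m4) m1) m3) m2) m4)
  have y3 := CTb_Y h (mul_mem (mul_mem m1 m2) m4)
  have y4 := CTb_Y h (mul_mem (mul_mem m3 m2) m4)
  have y5 := CTb_Y h (mul_mem (mul_mem (mul_mem (mul_mem m3 m4) m1) m2) m4)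
  have y6 := CTb_Y h (mul_mem (mul_mem (mul_mem m3 m4) m2) m4)
  have y7 := CTb_Y h (mul_mem (mul_mem (mul_mem (mul_mem m4 m1) m3) m2) m4)
  rw [← e1] at y1
  rw [← e2] at y2
  rw [← e3, map_mul, CTb_κ α s.y, h.y] at y3
  rw [← e4, map_mul, map_mul, CTb_κ α s.a, h.a, CTb_κ α s.x1, h.x1] at y4
  rw [← e5, map_mul, CTb_κ α s.a, h.a] at y5
  rw [← e6, map_mul, map_mul, CTb_κ α s.y, h.y, CTb_κ α s.x1, h.x1] at y6
  rw [← e7, map_mul] at y7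
  exact k _ y1.2 y1.1 y3.1 y4.1 _ y2.2 y2.1 y5.1 y6.1 y7.1

theorem CTb_act0 {f : G} (hf : s.Hat f) {g v : G} (h : g⁻¹ * v * g ∈ s.C2) : κ (κ g f) v = v := by
  have := CTb_κκ g f (g⁻¹ * v * g)
  rwa [CTb_fix.2 (hf.c2 _ h), show κ g (g⁻¹ * v * g) = v by rw [CTb_κ]; group] at this

theorem CTb_act1 {f ρ : G} (hf : s.Hat f) (hr : κ f s.r = s.r * ρ) {g v : G} (h : g⁻¹ * v * g * s.r⁻¹ ∈ s.C2)
    (h1 : g * ρ * g⁻¹ = ρ) : κ (κ g f) v = v * ρ := by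
  have := CTb_κκ g f (g⁻¹ * v * g * s.r⁻¹ * s.r)
  rw [map_mul (κ f), CTb_fix.2 (hf.c2 _ h), hr] at this
  simp only [CTb_κ] at this ⊢
  calc _ = _ := by group
    _ = _ := this
    _ = v * (g * ρ * g⁻¹) := by group
    _ = _ := by rw [h1]

theorem CTb_actt {f : G} (hf : s.Hat f) {g : G} (h : g * s.t = s.t * g) : κ (κ g f) s.t = s.t * (g * s.y * g⁻¹) := by
  have := CTb_κκ g f s.t
  rwa [CTb_κ f s.t, hf.mem.2, map_mul, CTb_fix.2 h] at this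

theorem CTb_de {α w : G} (h : s.Kp α) (hV : ∀ v ∈ s.V5, κ α v = v) (ht : w * s.t = s.t * w)
    (h1 : w * s.x1 = s.x1 * w) (hw : ∀ v ∈ s.V5, w * v * w⁻¹ ∈ s.V5) :
    ∃ v ∈ s.V5, κ α w = w * v ∨ κ α w = w * (s.t * v) := by
  have e : ∀ v ∈ s.V5, κ (κ α w) v = κ w v := fun v hv => by
    conv_lhs => rw [← hV v hv, CTb_κκ]
    exact hV _ (hw v hv)
  obtain ⟨v, hv, e1⟩ := s.CTb_W5 (g := κ α w) (h := w) ((CTb_fix.2 (CTb_t h ht h1)).trans (CTb_fix.2 ht).symm)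
    (e _ (mem_clos (by simp))) (e _ (mem_clos (by simp))) (e _ (mem_clos (by simp))) (e _ (mem_clos (by simp)))
    (e _ (mem_clos (by simp)))
  exact ⟨v, hv, e1.imp inv_mul_eq_iff_eq_mul.1 inv_mul_eq_iff_eq_mul.1⟩

theorem CTb_main {f : G} (hf : s.Hat f) {α : G} (h : s.Kp α) (hc : κ α f * f⁻¹ ∈ s.A3) (αc : κ α s.c = s.c)
    (αr : κ α s.r = s.r) : False := by
  have hV : ∀ v ∈ s.V5, κ α v = v := fun v hv => CTb_fix.2 (commute_clos (by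
    simp only [List.forall_mem_cons, List.not_mem_nil, false_imp_iff, implies_true, and_true, ← CTb_fix]
    exact ⟨h.x1, h.y, h.a, αc, αr⟩) v hv)
  have k : (s.x1 ∈ s.C2 ∧ s.y ∈ s.C2 ∧ s.a ∈ s.C2 ∧ s.c ∈ s.C2 ∧ s.x3 ∈ s.C2 ∧ s.w3 ∈ s.C2) ∧
      (s.w2⁻¹ * s.x1 * s.w2 ∈ s.C2 ∧ s.w2⁻¹ * s.y * s.w2 * s.r⁻¹ ∈ s.C2 ∧ s.w2⁻¹ * s.a * s.w2 ∈ s.C2 ∧
        s.w2⁻¹ * s.c * s.w2 ∈ s.C2 ∧ s.w2⁻¹ * s.r * s.w2 * s.r⁻¹ ∈ s.C2 ∧ s.w2⁻¹ * s.x3 * s.w2 ∈ s.C2) ∧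
      ((s.x2 * s.w2)⁻¹ * s.x1 * (s.x2 * s.w2) ∈ s.C2 ∧ (s.x2 * s.w2)⁻¹ * s.y * (s.x2 * s.w2) * s.r⁻¹ ∈ s.C2 ∧
        (s.x2 * s.w2)⁻¹ * s.a * (s.x2 * s.w2) ∈ s.C2 ∧ (s.x2 * s.w2)⁻¹ * s.c * (s.x2 * s.w2) ∈ s.C2 ∧
        (s.x2 * s.w2)⁻¹ * s.r * (s.x2 * s.w2) ∈ s.C2 ∧ (s.x2 * s.w2)⁻¹ * s.x3 * (s.x2 * s.w2) ∈ s.C2) ∧
      (s.w2 * s.t = s.t * s.w2 ∧ s.x2 * s.w2 * s.t = s.t * (s.x2 * s.w2) ∧ s.w2 * s.y * s.w2⁻¹ = s.x1 * s.y * s.r ∧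
        s.x2 * s.w2 * s.y * (s.x2 * s.w2)⁻¹ = s.r ∧ s.w2 * s.x1 * s.w2⁻¹ = s.x1 ∧
        s.x2 * s.w2 * s.x1 * (s.x2 * s.w2)⁻¹ = s.x1) := s.hL.decide s.rep (by decide +kernel)
  obtain ⟨⟨a1, a2, a3, a4, a5, a6⟩, ⟨b1, b2, b3, b4, b5, b6⟩, ⟨c1, c2, c3, c4, c5, c6⟩, d1, d2, d3, d4, d5, d6⟩ := k
  have ft : κ f s.t = s.t * s.y := hf.mem.2
  have fx := CTb_fix.2 (hf.c2 _ a1)
  have fy := CTb_fix.2 (hf.c2 _ a2)
  have fa := CTb_fix.2 (hf.c2 _ a3)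
  have fc := CTb_fix.2 (hf.c2 _ a4)
  have f3 := CTb_fix.2 (hf.c2 _ a5)
  have gt := CTb_actt hf d1
  have gx := CTb_act0 hf b1
  have ga := CTb_act0 hf b3
  have gc := CTb_act0 hf b4
  have g3 := CTb_act0 hf b6
  have jt := CTb_actt hf d2
  have jx := CTb_act0 hf c1
  have ja := CTb_act0 hf c3
  have jc := CTb_act0 hf c4
  have jr := CTb_act0 hf c5
  have j3 := CTb_act0 hf c6
  rw [d3] at gt
  rw [d4] at jt
  obtain ⟨ρ, hρ, fr⟩ : ∃ ρ, (ρ = 1 ∨ ρ = s.x1) ∧ κ f s.r = s.r * ρ :=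
    hf.r.elim (fun e => ⟨1, .inl rfl, by rw [mul_one]; exact e⟩) fun e => ⟨_, .inr rfl, e⟩
  have d5' : s.w2 * ρ * s.w2⁻¹ = ρ := by rcases hρ with rfl | rfl; exacts [by group, d5]
  have d6' : s.x2 * s.w2 * ρ * (s.x2 * s.w2)⁻¹ = ρ := by rcases hρ with rfl | rfl; exacts [by group, d6]
  have gy := CTb_act1 hf fr b2 d5'
  have gr := CTb_act1 hf fr b5 d5'
  have jy := CTb_act1 hf fr c2 d6'
  have k : (∀ v ∈ s.V5, v ∈ s.C2 ∨ v * s.r⁻¹ ∈ s.C2) ∧ ∀ v ∈ s.V5, (s.x2 * s.w2)⁻¹ * v * (s.x2 * s.w2) ∈ s.C2 ∨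
      (s.x2 * s.w2)⁻¹ * v * (s.x2 * s.w2) * s.r⁻¹ ∈ s.C2 := s.hL.decide s.rep (by decide +kernel)
  have fV : ∀ v ∈ s.V5, κ f v = v ∨ κ f v = v * ρ := fun v hv => (k.1 v hv).imp (fun e => CTb_fix.2 (hf.c2 _ e))
    fun e => by simpa using CTb_act1 hf fr (g := 1) (v := v) (by simpa using e) (by group)
  have jV : ∀ v ∈ s.V5, κ (κ (s.x2 * s.w2) f) v = v ∨ κ (κ (s.x2 * s.w2) f) v = v * ρ := fun v hv =>
    (k.2 v hv).imp (CTb_act0 hf) fun e => CTb_act1 hf fr e d6'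
  have gg : κ s.w2 f * κ s.w2 f = 1 := by rw [← map_mul, hf.sq, map_one]
  have jj : κ (s.x2 * s.w2) f * κ (s.x2 * s.w2) f = 1 := by rw [← map_mul, hf.sq, map_one]
  generalize hg : κ s.w2 f = g at *
  generalize hj : κ (s.x2 * s.w2) f = j at *
  rcases hρ with rfl | rfl
  · rw [mul_one] at fr gy gr jy
    have k : s.t * s.y * (s.x1 * s.y * s.r) * s.r = s.t * s.x1 ∧ s.x3 * s.a * s.a = s.x3 ∧
        ∀ v ∈ s.V5, v * s.x3 * v⁻¹ ≠ s.x3 * s.a ∧ s.t * v * s.x3 * (s.t * v)⁻¹ ≠ s.x3 * s.a :=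
      s.hL.decide s.rep (by decide +kernel)
    obtain ⟨v, hv, e⟩ := s.CTb_W5 (g := f * g * j) (h := α)
      (by simp only [map_mul, MulAut.mul_apply, ft, fx, fy, fr, gt, gr, jt, k.1]; exact h.t.symm)
      (by simp only [map_mul, MulAut.mul_apply, fx, gx, jx]; exact h.x1.symm)
      (by simp only [map_mul, MulAut.mul_apply, fy, gy, jy]; exact h.y.symm)
      (by simp only [map_mul, MulAut.mul_apply, fa, ga, ja]; exact h.a.symm)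
      (by simp only [map_mul, MulAut.mul_apply, fc, gc, jc, αc])
      (by simp only [map_mul, MulAut.mul_apply, fr, gr, jr, αr])
    have h1 : κ (α⁻¹ * (f * g * j)) s.x3 = s.x3 * s.a := by
      simp only [map_mul, MulAut.mul_apply, f3, g3, j3]
      rw [map_inv, ← MulAut.inv_apply_self _ (κ α) (s.x3 * s.a), map_mul (κ α), CTb_κ α, CTb_κ α, h.x3, h.a, k.2.1]
    rcases e with e | e <;> rw [e] at h1
    exacts [(k.2.2 v hv).1 h1, (k.2.2 v hv).2 h1]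
  have k : (s.t * s.y * (s.x1 * s.y * (s.r * s.x1)) * (s.r * s.x1 * s.x1) = s.t ∧ s.y * s.x1 * s.x1 = s.y ∧
      s.r * s.x1 * s.x1 = s.r ∧ s.w3 * s.t = s.t * s.w3 ∧ s.w3 * s.x1 = s.x1 * s.w3 ∧ s.w2 * s.x1 = s.x1 * s.w2 ∧
      s.w2 * s.w2 = 1 ∧ (s.x2 * s.w2) ^ 3 = 1 ∧ s.x1 ≠ 1) ∧
      (∀ v ∈ s.V5, s.w3 * v * s.w3⁻¹ ∈ s.V5) ∧ (∀ v ∈ s.V5, s.w2 * v * s.w2⁻¹ ∈ s.V5) ∧
      (∀ u ∈ s.A3, u * s.c * u⁻¹ = s.c → u * (s.r * s.x1) * u⁻¹ = s.r * s.x1 → ∀ v ∈ s.V5,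
        (s.w3 * v * u = u * (s.w3 * v) ∨ s.w3 * v * u = u * (s.w3 * (v * s.x1))) ∨
        s.w3 * (s.t * v) * u = u * (s.w3 * (s.t * s.y * v)) ∨
        s.w3 * (s.t * v) * u = u * (s.w3 * (s.t * s.y * (v * s.x1))) → u = 1 ∨ u = s.y) ∧
      (∀ v ∈ s.V5, (s.w2 * v * (s.w2 * v) = 1 → (s.x2 * s.y * (s.w2 * v)) ^ 3 = 1 → v = s.x1 ∨ v = s.r) ∧
        (s.w2 * (s.t * v) * (s.w2 * (s.t * v)) = 1 → (s.x2 * s.y * (s.w2 * (s.t * v))) ^ 3 ≠ 1)) ∧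
      ∀ v ∈ s.V5, (s.t * v * (s.t * s.r * v) = s.r ∨ s.t * v * (s.t * s.r * v) = s.r * s.x1) ∧
        (s.t * v * (s.t * s.r * (v * s.x1)) = s.r ∨ s.t * v * (s.t * s.r * (v * s.x1)) = s.r * s.x1) :=
    s.hL.decide s.rep (by decide +kernel)
  obtain ⟨⟨e1, e2, e3, e4, e5, e6, e7, e8, e9⟩, k1, k2, k3, k4, k5⟩ := k
  have αx : κ α s.x1 = s.x1 := h.x1
  obtain ⟨u, hu⟩ : ∃ u, κ α f = u * f := ⟨κ α f * f⁻¹, by group⟩
  rw [hu, mul_inv_cancel_right] at hc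
  have hu1 : ∀ z, κ u (κ f z) = κ (κ α f) z := fun z => by rw [hu, map_mul, MulAut.mul_apply]
  have hu2 : u = 1 ∨ u = s.y := by
    obtain ⟨v, hv, e⟩ := CTb_de h hV e4 e5 k1
    have h1 : κ α s.w3 * κ α f = κ α f * κ α s.w3 := by rw [← map_mul, ← hf.c2 _ a6, map_mul]
    have h2 : ∀ z, κ α s.w3 = s.w3 * z → s.w3 * z * u = u * (s.w3 * κ f z) := fun z e => by
      rw [e, hu] at h1
      rw [CTb_κ, ← mul_inv_cancel_right (s.w3 * z * u) f, mul_assoc _ u, h1, mul_assoc u f, ← mul_assoc f, hf.c2 _ a6]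
      group
    refine k3 u hc (by rw [← CTb_κ]; conv_lhs => rw [← fc, hu1, ← αc, CTb_κκ, fc, αc])
      (by rw [← CTb_κ]; conv_lhs => rw [← fr, hu1, ← αr, CTb_κκ, fr, map_mul, αr, αx]) v hv
      (e.imp (fun e => ?_) fun e => ?_)
    · exact (fV v hv).imp (fun e' => by rw [h2 _ e, e']) fun e' => by rw [h2 _ e, e']
    · exact (fV v hv).imp (fun e' => by rw [h2 _ e, map_mul, ft, e']) fun e' => by rw [h2 _ e, map_mul, ft, e']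
  obtain ⟨v, hv, e⟩ : ∃ v, (v = s.x1 ∨ v = s.r) ∧ κ α s.w2 = s.w2 * v := by
    obtain ⟨v, hv, e⟩ := CTb_de h hV d1 e6 k2
    have h1 : κ α s.w2 * κ α s.w2 = 1 := by rw [← map_mul, e7, map_one]
    have h2 : (s.x2 * s.y * κ α s.w2) ^ 3 = 1 := by rw [← h.x2, ← CTb_κ, ← map_mul, ← map_pow, e8, map_one]
    rcases e with e | e <;> rw [e] at h1 h2
    exacts [⟨v, (k4 v hv).1 h1 h2, e⟩, absurd h2 ((k4 v hv).2 h1)]
  have i1 := inv_eq_of_mul_eq_one_right hf.sq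
  have i2 := inv_eq_of_mul_eq_one_right gg
  obtain ⟨δ, hδ, fv⟩ : ∃ δ, (δ = 1 ∨ δ = s.x1) ∧ κ v (u * f) = u * (δ * f) := by
    have h1 : κ v (u * f) = v * u * (κ f v)⁻¹ * f := by simp only [CTb_κ]; group
    rw [h1]
    rcases hv with rfl | rfl
    · refine ⟨1, .inl rfl, ?_⟩
      rw [fx, ← mul_assoc]
      congr 1
      rcases hu2 with rfl | rfl <;> exact s.hL.decide s.rep (by decide +kernel)
    · refine ⟨_, .inr rfl, ?_⟩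
      rw [fr, ← mul_assoc]
      congr 1
      rcases hu2 with rfl | rfl <;> exact s.hL.decide s.rep (by decide +kernel)
  have αg : κ α g = κ s.w2 (u * δ) * g := by
    rw [← hg, ← CTb_κκ, e, hu, map_mul (κ), MulAut.mul_apply, fv, ← map_mul, mul_assoc]
  have αj : κ α j = κ s.x2 (s.y * κ s.w2 (u * δ) * (s.y * s.x1)⁻¹) * j := by
    have h1 : j = κ s.x2 g := by rw [← hj, ← hg, map_mul, MulAut.mul_apply]
    rw [h1, ← CTb_κκ, αg, CTb_κ α, h.x2, map_mul (κ), MulAut.mul_apply, ← map_mul, ← gy]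
    congr 1
    simp only [CTb_κ]; group
  have αC : κ α (f * g * j) = s.x1 * (f * g * j) := by
    have h1 : κ α (f * g * j) = u * κ f (κ s.w2 (u * δ)) *
        κ f (κ g (κ s.x2 (s.y * κ s.w2 (u * δ) * (s.y * s.x1)⁻¹))) * (f * g * j) := by
      rw [map_mul, map_mul, hu, αg, αj]
      simp only [CTb_κ]; group
    rw [h1]
    congr 1
    have k : (s.w2 * (1 * 1) * s.w2⁻¹ = 1 ∧ s.x2 * (s.y * 1 * (s.y * s.x1)⁻¹) * s.x2⁻¹ = s.x1) ∧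
        (s.w2 * (1 * s.x1) * s.w2⁻¹ = s.x1 ∧ s.x2 * (s.y * s.x1 * (s.y * s.x1)⁻¹) * s.x2⁻¹ = 1) ∧
        (s.w2 * (s.y * 1) * s.w2⁻¹ = s.x1 * s.y * s.r ∧
          s.x2 * (s.y * (s.x1 * s.y * s.r) * (s.y * s.x1)⁻¹) * s.x2⁻¹ = s.r * s.x1) ∧
        (s.w2 * (s.y * s.x1) * s.w2⁻¹ = s.y * s.r ∧
          s.x2 * (s.y * (s.y * s.r) * (s.y * s.x1)⁻¹) * s.x2⁻¹ = s.r) := s.hL.decide s.rep (by decide +kernel)
    rcases hu2 with rfl | rfl <;> rcases hδ with rfl | rfl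
    · rw [CTb_κ s.w2, k.1.1, CTb_κ s.x2, k.1.2]; simp [fx, gx]
    · rw [CTb_κ s.w2, k.2.1.1, CTb_κ s.x2, k.2.1.2]; simp [fx]
    · rw [CTb_κ s.w2, k.2.2.1.1, CTb_κ s.x2, k.2.2.1.2]
      simp only [map_mul, fx, fy, fr, gx, gr]
      exact s.hL.decide s.rep (by decide +kernel)
    · rw [CTb_κ s.w2, k.2.2.2.1, CTb_κ s.x2, k.2.2.2.2]
      simp only [map_mul, fx, fy, fr, gr]
      exact s.hL.decide s.rep (by decide +kernel)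
  obtain ⟨v0, hv0, e0⟩ := s.CTb_W5 (g := f * g * j) (h := 1)
    (by simp only [map_mul, MulAut.mul_apply, ft, fx, fy, fr, gt, gr, jt, e1, map_one, MulAut.one_apply])
    (by simp only [map_mul, MulAut.mul_apply, fx, gx, jx, map_one, MulAut.one_apply])
    (by simp only [map_mul, MulAut.mul_apply, fx, fy, gx, gy, jy, e2, map_one, MulAut.one_apply])
    (by simp only [map_mul, MulAut.mul_apply, fa, ga, ja, map_one, MulAut.one_apply])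
    (by simp only [map_mul, MulAut.mul_apply, fc, gc, jc, map_one, MulAut.one_apply])
    (by simp only [map_mul, MulAut.mul_apply, fx, fr, gr, jr, e3, map_one, MulAut.one_apply])
  rw [inv_one, one_mul] at e0
  rcases e0 with e0 | e0
  · rw [e0, hV _ hv0] at αC
    exact e9 (by simpa using αC.symm)
  have h1 : f * g * (f * g) = s.t * v0 * κ j (s.t * v0) := by
    rw [eq_mul_inv_of_mul_eq e0, CTb_κ, inv_eq_of_mul_eq_one_right jj]; group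
  have h2 : f * g * (f * g) = s.r ∨ f * g * (f * g) = s.r * s.x1 := by
    rw [h1, map_mul, jt]
    rcases jV v0 hv0 with e | e <;> rw [e]
    exacts [(k5 v0 hv0).1, (k5 v0 hv0).2]
  have h3 : κ f (f * g * (f * g)) = (f * g * (f * g))⁻¹ := by
    rw [CTb_κ, mul_inv_rev, mul_inv_rev, i1, i2, ← mul_assoc, ← mul_assoc, ← mul_assoc, hf.sq]; group
  rcases h2 with e | e <;> rw [e] at h3
  · rw [fr] at h3
    exact absurd h3 (s.hL.decide s.rep (by decide +kernel))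
  · rw [map_mul, fr, fx] at h3
    exact absurd h3 (s.hL.decide s.rep (by decide +kernel))

variable (s) in
theorem no_kp {B : Subgroup G} (hB : s.Big s.A3 B) {f : G} (hf : s.Hat f) {α : G} (h : s.Kp α)
    (hc : α * f * α⁻¹ * f⁻¹ ∈ s.A3) : False := by
  obtain ⟨v, hv, e1, e2⟩ := CTb_adj h
  have VW := s.les.2.2.2.2.2.1
  have hW : ∀ w ∈ s.W, κ v⁻¹ w = w := fun w hw => CTb_fix.2 (s.W_comm (VW (inv_mem hv)) hw)
  have e : ∀ u w, α * u * α⁻¹ = w → w ∈ s.W → v⁻¹ * α * u * (v⁻¹ * α)⁻¹ = w := fun u w e hw => by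
    rw [← CTb_κ, map_mul, MulAut.mul_apply, CTb_κ α, e, hW w hw]
  have k : s.t * s.x1 ∈ s.W ∧ s.x1 ∈ s.W ∧ s.x2 * s.y ∈ s.W ∧ s.x3 * s.a ∈ s.W ∧ s.y ∈ s.W ∧ s.a ∈ s.W ∧
    s.b ∈ s.W := s.hL.decide s.rep (by decide +kernel)
  obtain ⟨k1, k2, k3, k4, k5, k6, k7⟩ := k
  refine CTb_main hf (α := v⁻¹ * α) ⟨e _ _ h.t k1, e _ _ h.x1 k2, e _ _ h.x2 k3, e _ _ h.x3 k4, e _ _ h.y k5,
    e _ _ h.a k6, e _ _ h.b k7⟩ ?_ ?_ ?_
  · have := hW _ (VW (s.les.2.2.2.1 hc))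
    rw [map_mul (κ v⁻¹), map_inv (κ v⁻¹), CTb_fix.2 (hf.mem.1 _ (inv_mem hv)).symm] at this
    rw [map_mul, MulAut.mul_apply, CTb_κ α, this]
    exact hc
  · rw [map_mul, MulAut.mul_apply, ← e1, map_inv, MulAut.inv_apply_self]
  · rw [map_mul, MulAut.mul_apply, ← e2, map_inv, MulAut.inv_apply_self]

end Cfg

end Cfsg.Agent.SF6
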