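import Mathlib
import Cfsg.Agent.SF6.Kit

/-! The translation `t ↦ t y`. -/

set_option autoImplicit false
set_option linter.unusedSectionVars false
set_option maxRecDepth 100000
set_option synthInstance.maxSize 100000
set_option synthInstance.maxHeartbeats 1000000

namespace Cfsg.Agent.SF6

open Cfsg Cfsg.Agent.Rec Cfsg.Agent.Spor Cfsg.Agent.Loc.Mss Subgroup
open scoped commutatorElement

variable {G : Type*} [Group G] [Finite G]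

namespace FyA

/-- `β` conjugates `u` to `v`. -/
def Fx (β u v : G) : Prop := β * u * β⁻¹ = v

namespace Fx

variable {β γ u v w u' v' : G}

theorem mul (h : Fx β u v) (h' : Fx β u' v') : Fx β (u * u') (v * v') := by
  unfold Fx at *; rw [← h, ← h', conj_mul]

theorem comp (h : Fx γ v w) (h' : Fx β u v) : Fx (γ * β) u w := by
  unfold Fx at *; rw [← h, ← h']; group

theorem conj (h : Fx β u v) (g : G) : Fx (g * β * g⁻¹) (g * u * g⁻¹) (g * v * g⁻¹) := by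
  unfold Fx at *; rw [← h]; group

theorem inj (h : Fx β u v) (h' : Fx β u' v) : u = u' := by
  unfold Fx at *; simpa using h.trans h'.symm

theorem eq (h : Fx β u v) (e : u = u') (e' : v = v') : Fx β u' v' := e ▸ e' ▸ h

end Fx

variable (s : Cfg G) {α β g p : G}

theorem ac (hg : g ∈ 𝐍[s.W]) (h : Fx g s.t s.t) : ∃ l ∈ s.L3, ∀ u ∈ s.W, g * u * g⁻¹ = l * u * l⁻¹ := by
  obtain ⟨w, hw, l, hl, rfl⟩ := s.normW hg (mul_inv_eq_iff_eq_mul.1 h)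
  refine ⟨l, hl, fun u hu => ?_⟩
  have := s.W_comm hw (conj_mem_of_norm (s.P3_norm.2.1 (s.les.2.2.1 hl)) hu)
  calc _ = w * (l * u * l⁻¹) * w⁻¹ := by group
    _ = _ := by rw [this, mul_inv_cancel_right]

theorem faith {l : G} (hl : l ∈ s.L3) (h : ∀ u ∈ s.W, l * u * l⁻¹ = u) : l = 1 := by
  have k : ∀ l ∈ s.L3, l * s.x1 * l⁻¹ = s.x1 → l * s.x2 * l⁻¹ = s.x2 → l * s.x3 * l⁻¹ = s.x3 → l = 1 :=
    s.hL.decide s.rep (by decide +kernel)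
  refine k l hl (h _ ?_) (h _ ?_) (h _ ?_) <;> exact mem_clos (by simp)

theorem noy (hg : g ∈ 𝐍[s.W]) (h : Fx g s.t s.t) (hp : p ∈ s.Pts) : ¬ Fx g p (p * s.y) := fun e => by
  have k : ∀ l ∈ s.L3, ∀ p ∈ s.Pts, l * p * l⁻¹ ≠ p * s.y := s.hL.decide s.rep (by decide +kernel)
  obtain ⟨l, hl, h1⟩ := ac s hg h
  exact k l hl p hp ((h1 p (s.les.2.2.2.2.2.1 (s.pt_eq hp).1)).symm.trans e)

/-- `α l α⁻¹` acts on `W` as `l'`. -/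
def R (α l l' : G) : Prop :=
  l ∈ s.L3 ∧ l' ∈ s.L3 ∧ ∀ u ∈ s.W, α * l * α⁻¹ * u * (α * l * α⁻¹)⁻¹ = l' * u * l'⁻¹

variable {s}

theorem R.mul {l l' k k' : G} (h : R s α l l') (h' : R s α k k') : R s α (l * k) (l' * k') :=
  ⟨mul_mem h.1 h'.1, mul_mem h.2.1 h'.2.1, fun u hu => by
    have := h.2.2 _ (conj_mem_of_norm (s.P3_norm.2.1 (s.les.2.2.1 h'.2.1)) hu)
    calc _ = α * l * α⁻¹ * (α * k * α⁻¹ * u * (α * k * α⁻¹)⁻¹) * (α * l * α⁻¹)⁻¹ := by group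
      _ = _ := by rw [h'.2.2 u hu, this]; group⟩

theorem R.iff {l l' : G} (h : R s α l l') (hα : α ∈ 𝐍[s.W]) : l = 1 ↔ l' = 1 := by
  refine ⟨fun e => faith s h.2.1 fun u hu => by rw [← h.2.2 u hu, e]; group, fun e => faith s h.1 fun u hu => ?_⟩
  have := h.2.2 _ (conj_mem_of_norm hα hu)
  calc _ = α⁻¹ * (α * l * α⁻¹ * (α * u * α⁻¹) * (α * l * α⁻¹)⁻¹) * α := by group
    _ = _ := by rw [this, e]; group

variable (s)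

theorem exists_beta (hy : s.t * s.y ∈ s.D) : ∃ β ∈ 𝐍[s.W], Fx β s.t (s.t * s.y) ∧ Fx β s.y s.y ∧
    ∀ l, l = s.r ∨ l = s.n ∨ l = s.d → ∀ u ∈ s.W, ∀ v, Fx β u v → Fx β (l * u * l⁻¹) (l * v * l⁻¹) := by
  obtain ⟨α, -, hα, a1, a2, -⟩ := s.normT (z := s.y) (mem_clos (by simp)) hy
  have k0 : (∀ l ∈ s.Sl, l * s.t * l⁻¹ = s.t ∧ l * s.y * l⁻¹ = s.y ∧ l⁻¹ * s.y * l = s.y ∧
      l⁻¹ * (s.t * s.y) * l = s.t * s.y ∧ l * (s.t * s.y) * l⁻¹ = s.t * s.y) ∧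
      (∀ l ∈ s.L3, l * s.y * l⁻¹ = s.y → l ∈ s.Sl) ∧ s.t * s.y * s.y = s.t ∧ s.y ∈ s.W ∧
      s.r * s.r = 1 ∧ s.n * s.n = 1 ∧ s.d * s.d = 1 ∧ s.r * s.n * (s.r * s.n) * (s.r * s.n) = 1 ∧ s.r * s.n ≠ 1 ∧
      s.n * s.d * (s.n * s.d) = 1 ∧ s.r * s.d * (s.r * s.d) ≠ 1 ∧ s.r * s.d * (s.r * s.d) * (s.r * s.d * (s.r * s.d)) = 1 :=
    s.hL.decide s.rep (by decide +kernel)
  have k1 : ∀ r ∈ s.Sl, r * r = 1 → ∀ n ∈ s.Sl, n * n = 1 → r * n * (r * n) * (r * n) = 1 → r * n ≠ 1 →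
      ∀ d ∈ s.Sl, d * d = 1 → n * d * (n * d) = 1 → r * d * (r * d) ≠ 1 → r * d * (r * d) * (r * d * (r * d)) = 1 →
      ∃ k ∈ s.Sl, k * s.r * k⁻¹ = r ∧ k * s.n * k⁻¹ = n ∧ k * s.d * k⁻¹ = d := s.hL.decide s.rep (by decide +kernel)
  obtain ⟨c1, c2, c3, c4, c5, c6, c7, c8, c9, c10, c11, c12⟩ := k0
  have LN : s.Sl ≤ 𝐍[s.W] := fun l hl => s.P3_norm.2.1 (s.les.2.2.1 (s.les.2.2.2.2.2.2.2.2.1 hl))
  have ex : ∀ l ∈ s.Sl, ∃ l' ∈ s.Sl, R s α l l' := fun l hl => by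
    have e1 : Fx (α * l * α⁻¹) s.y s.y := (Fx.conj (c1 l hl).2.1 α).eq a2 a2
    have e2 : Fx (α * l * α⁻¹) s.t s.t := (((Fx.conj (c1 l hl).1 α).eq a1 a1).mul e1).eq c3 c3
    obtain ⟨l', h1, h2⟩ := ac s (mul_mem (mul_mem hα (LN hl)) (inv_mem hα)) e2
    exact ⟨l', c2 l' h1 ((h2 _ c4).symm.trans e1), s.les.2.2.2.2.2.2.2.2.1 hl, h1, h2⟩
  obtain ⟨r, hr, Rr⟩ := ex s.r (mem_clos (by simp))
  obtain ⟨n, hn, Rn⟩ := ex s.n (mem_clos (by simp))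
  obtain ⟨d, hd, Rd⟩ := ex s.d (mem_clos (by simp))
  obtain ⟨k, hk, e1, e2, e3⟩ := k1 r hr (((Rr.mul Rr).iff hα).1 c5) n hn (((Rn.mul Rn).iff hα).1 c6)
    (((((Rr.mul Rn).mul (Rr.mul Rn)).mul (Rr.mul Rn)).iff hα).1 c8) (mt ((Rr.mul Rn).iff hα).2 c9) d hd
    (((Rd.mul Rd).iff hα).1 c7) ((((Rn.mul Rd).mul (Rn.mul Rd)).iff hα).1 c10)
    (mt (((Rr.mul Rd).mul (Rr.mul Rd)).iff hα).2 c11)
    (((((Rr.mul Rd).mul (Rr.mul Rd)).mul ((Rr.mul Rd).mul (Rr.mul Rd))).iff hα).1 c12)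
  have key : ∀ l, R s α l (k * l * k⁻¹) → ∀ u ∈ s.W, ∀ v, Fx (k⁻¹ * α) u v →
      Fx (k⁻¹ * α) (l * u * l⁻¹) (l * v * l⁻¹) := fun l h u hu v e => by
    have := h.2.2 _ (conj_mem_of_norm hα hu)
    unfold Fx at *
    calc _ = k⁻¹ * (α * l * α⁻¹ * (α * u * α⁻¹) * (α * l * α⁻¹)⁻¹) * k := by group
      _ = _ := by rw [this, ← e]; group
  refine ⟨k⁻¹ * α, mul_mem (inv_mem (LN hk)) hα, Fx.comp (by rw [Fx, inv_inv]; exact (c1 k hk).2.2.2.1) a1,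
    Fx.comp (by rw [Fx, inv_inv]; exact (c1 k hk).2.2.1) a2, ?_⟩
  rintro _ (rfl | rfl | rfl)
  exacts [key _ (e1 ▸ Rr), key _ (e2 ▸ Rn), key _ (e3 ▸ Rd)]

theorem two (hβ : β ∈ 𝐍[s.W]) (ht : Fx β s.t (s.t * s.y)) (hy : Fx β s.y s.y) (hp : p ∈ s.Pts) {v : G} (e : Fx β p v)
    (h : v = 1 ∨ v = s.t * s.y * s.y ∨ v = s.y ∨ v = s.t * s.y ∨ v = p ∨ v = p * s.y ∨ v = s.t * p ∨ v = s.t * p * s.y) :
    Fx β p p ∨ Fx β p (p * s.y) := by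
  have k : s.t * s.y * s.y = s.t ∧ ∀ p ∈ s.Pts, p ≠ 1 ∧ p ≠ s.t * s.y ∧ p ≠ s.y ∧ p ≠ s.t ∧
      s.t * s.y * (s.t * p) = p * s.y ∧ s.t * s.y * (s.t * p * s.y) * s.y = p * s.y := s.hL.decide s.rep (by decide +kernel)
  obtain ⟨k1, k2, k3, k4, k5, k6⟩ := k.2 p hp
  have no := noy s (mul_mem hβ hβ) (((ht.mul hy).comp ht).eq rfl k.1) hp
  rcases h with rfl | rfl | rfl | rfl | rfl | rfl | rfl | rfl
  · exact (k1 (e.inj (by simp [Fx]))).elim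
  · exact (k2 (e.inj (ht.mul hy))).elim
  · exact (k3 (e.inj hy)).elim
  · exact (k4 (e.inj ht)).elim
  · exact .inl e
  · exact .inr e
  · exact (no (((ht.mul e).comp e).eq rfl k5)).elim
  · exact (no ((((ht.mul e).mul hy).comp e).eq rfl k6)).elim

end FyA

namespace Cfg

variable (s : Cfg G)

open FyA in
theorem exists_phi (hy : s.t * s.y ∈ s.D) : ∃ f, f ∈ s.Φ s.y := by
  obtain ⟨β, hβ, bt, by', cm⟩ := exists_beta s hy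
  have k1 : (∀ v ∈ s.W, v = s.r * v * s.r⁻¹ → (v = s.n * v * s.n⁻¹ → v = 1 ∨ v = s.t * s.y * s.y ∨ v = s.y ∨ v = s.t * s.y ∨
      v = s.x3 ∨ v = s.x3 * s.y ∨ v = s.t * s.x3 ∨ v = s.t * s.x3 * s.y) ∧ (v = s.d * v * s.d⁻¹ → v = 1 ∨ v = s.t * s.y * s.y ∨
      v = s.y ∨ v = s.t * s.y ∨ v = s.x1 ∨ v = s.x1 * s.y ∨ v = s.t * s.x1 ∨ v = s.t * s.x1 * s.y)) ∧
      s.x1 ∈ s.Pts ∧ s.x2 ∈ s.Pts ∧ s.x3 ∈ s.Pts ∧ s.x1 ∈ s.W ∧ s.x12 ∈ s.W ∧ s.x3 ∈ s.W ∧ s.b ∈ s.W ∧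
      s.r * s.x3 * s.r⁻¹ = s.x3 ∧ s.n * s.x3 * s.n⁻¹ = s.x3 ∧ s.r * s.x1 * s.r⁻¹ = s.x1 ∧ s.d * s.x1 * s.d⁻¹ = s.x1 :=
    s.hL.decide s.rep (by decide +kernel)
  have k2 : s.n * s.x1 * s.n⁻¹ = s.x12 ∧ s.r * s.x12 * s.r⁻¹ = s.x2 ∧ s.x1 * s.x2 * s.x12 = s.y ∧
      s.x1 * s.y * (s.r * (s.n * (s.x1 * s.y) * s.n⁻¹) * s.r⁻¹) * (s.n * (s.x1 * s.y) * s.n⁻¹) ≠ s.y ∧
      s.d * s.x3 * s.d⁻¹ = s.x23 ∧ s.x2 * s.x3 * s.x23 = s.b ∧ s.d * (s.x3 * s.y) * s.d⁻¹ = s.x23 * s.y ∧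
      s.x2 * (s.x3 * s.y) * (s.x23 * s.y) = s.b ∧ s.r * s.b * s.r⁻¹ * s.b = s.a := s.hL.decide s.rep (by decide +kernel)
  have k3 : s.m * s.t * s.m⁻¹ = s.t ∧ s.m * s.x23 * s.m⁻¹ = s.x2 ∧ s.t * s.y * s.y = s.t ∧
      s.d * s.m * s.d * (s.t * s.a * s.y) * (s.d * s.m * s.d)⁻¹ = s.m * (s.t * s.y) * s.m⁻¹ ∧
      s.d * s.m * s.d * (s.t * s.y * s.a * s.y) * (s.d * s.m * s.d)⁻¹ = s.t * s.y ∧
      s.d * s.m * s.d * (s.x3 * s.a * s.y) * (s.d * s.m * s.d)⁻¹ = s.m * (s.x23 * s.y) * s.m⁻¹ ∧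
      s.d * s.m * s.d * (s.x3 * s.y * s.a * s.y) * (s.d * s.m * s.d)⁻¹ = s.x2 * s.y ∧
      s.m ∈ s.P3 ∧ s.d * s.m * s.d ∈ s.P3 := s.hL.decide s.rep (by decide +kernel)
  obtain ⟨c0, p1, p2, p3, w1, w12, w3, wb, c1, c2, c3, c4⟩ := k1
  obtain ⟨d1, d2, d3, d4, d5, d6, d7, d8, d9⟩ := k2
  obtain ⟨e1, e2, e3, e4, e5, e6, e7, e8, e9⟩ := k3
  have cr := cm _ (.inl rfl)
  have cn := cm _ (.inr (.inl rfl))
  have cd := cm _ (.inr (.inr rfl))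
  have h3 := two s hβ bt by' p3 rfl ((c0 _ (conj_mem_of_norm hβ w3) ((cr _ w3 _ rfl).eq c1 rfl)).1 ((cn _ w3 _ rfl).eq c2 rfl))
  have h1 : Fx β s.x1 s.x1 := (two s hβ bt by' p1 rfl ((c0 _ (conj_mem_of_norm hβ w1) ((cr _ w1 _ rfl).eq c3 rfl)).2
    ((cd _ w1 _ rfl).eq c4 rfl))).resolve_right fun e => by
      have a1 := (cn _ w1 _ e).eq d1 rfl
      exact d4 ((((e.mul ((cr _ w12 _ a1).eq d2 rfl)).mul a1).eq d3 rfl).symm.trans by')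
  have h2 := (cr _ w12 _ ((cn _ w1 _ h1).eq d1 d1)).eq d2 d2
  have hb : Fx β s.b s.b := h3.elim (fun e => ((h2.mul e).mul ((cd _ w3 _ e).eq d5 d5)).eq d6 d6)
    fun e => ((h2.mul e).mul ((cd _ w3 _ e).eq d5 d7)).eq d6 d8
  have ha := ((cr _ wb _ hb).mul hb).eq d9 d9
  rcases h3 with h3 | h3
  · refine ⟨β, fun u hu => commute_clos (g := β) ?_ u hu, bt⟩
    simp only [List.forall_mem_cons, List.not_mem_nil, false_imp_iff, implies_true, and_true]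
    exact ⟨mul_inv_eq_iff_eq_mul.1 h1, mul_inv_eq_iff_eq_mul.1 h2, mul_inv_eq_iff_eq_mul.1 h3, mul_inv_eq_iff_eq_mul.1 by',
      mul_inv_eq_iff_eq_mul.1 ha, mul_inv_eq_iff_eq_mul.1 hb⟩
  · have cj : ∀ g ∈ s.P3, g * β * g⁻¹ ∈ 𝐍[s.W] := fun g hg =>
      mul_mem (mul_mem (s.P3_norm.2.1 hg) hβ) (inv_mem (s.P3_norm.2.1 hg))
    exact (noy s (mul_mem hβ (mul_mem (cj _ e9) (cj _ e8)))
      (((bt.mul by').eq rfl e3).comp (((((bt.mul ha).mul by').conj _).eq e4 e5).comp ((bt.conj _).eq e1 rfl))) p2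
      ((h2.mul by').comp (((((h3.mul ha).mul by').conj _).eq e6 e7).comp
        ((((cd _ w3 _ h3).eq d5 d7).conj _).eq e2 rfl)))).elim

end Cfg

end Cfsg.Agent.SF6
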